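import Cfsg.Agent.Lib.OreC.OL

/-! Peeling hyperbolic pairs off an orthogonal transformation. -/

namespace Cfsg.Lib.OreC

open Module Polynomial QuadraticMap Cfsg.Lib.Orth

universe u

variable {F V : Type*} [Field F] [AddCommGroup V] [Module F V] {Q : QuadraticForm F V}

theorem hp_of_hyp (hQ : ND Q) {e f : V} (h : IsHyp Q e f) : Hp Q (F ∙ e) (F ∙ f) (hperp Q e f) :=
  ⟨hQ, ts_span_singleton h.left, ts_span_singleton h.right,
    Submodule.span_insert (R := F) e {f} ▸ h.isOSum⟩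

theorem nilpotent_of_rad {W : Submodule F V} {h : TS Q W} {q : O Q} (hq : q ∈ radO Q h) :
    (rhoO Q q - 1) ^ 3 = 0 := LinearMap.ext fun v => by
  simpa [pow_succ', sub_eq_zero] using hq.2.2 _ (hq.2.1 _ (hq.1 v))

variable [FiniteDimensional F V]

theorem prop_of_zero [Finite F] (hQ : ND Q) (h2 : (2 : F) ≠ 0) (hn : 7 ≤ finrank F V)
    {R : QuadraticForm F V} (h : ∀ v, R v = 0 → Q v = 0) : ∃ c, ∀ v, Q v = c * R v := by
  obtain ⟨U, hU⟩ := (LinearMap.ker (polarBilin R)).exists_isCompl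
  have h1 := TS.two_mul_finrank_le hQ (W := LinearMap.ker (polarBilin R)) fun w hw => h w (by
    simpa [polar_self', h2] using LinearMap.congr_fun hw w)
  have h3 := Submodule.finrank_add_eq_of_isCompl hU
  obtain ⟨a, ha, a0, ha'⟩ := exists_singular_mem R U (by omega)
  obtain ⟨b, hb⟩ : ∃ b, polar R a b ≠ 0 := by
    by_contra! h4
    exact a0 (Submodule.disjoint_def.1 hU.disjoint a (LinearMap.ext h4) ha)
  obtain ⟨b, H⟩ : ∃ b, IsHyp R a b :=
    ⟨_, isHyp_of_polar_eq_one (y := (polar R a b)⁻¹ • b) ha' (by simp [hb])⟩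
  have e : ∀ y s t, Q (s • a + t • b + y) =
      Q y + s * polar Q a y + t * polar Q b y + s * t * polar Q a b := fun y s t => by
    simp [Q_add, Q_smul, h a H.left, h b H.right]; ring
  have k : ∀ y ∈ hperp R a b, ∀ s t, s * t = -R y →
      Q y = polar Q a b * R y ∧ s * polar Q a y + t * polar Q b y = 0 := fun y hy s t hst => by
    have e1 := h _ ((H.Q_comb' hy s t).trans (by rw [hst, neg_add_cancel]))
    have e2 := h _ ((H.Q_comb' hy (-s) (-t)).trans (by rw [_root_.neg_mul_neg, hst, neg_add_cancel]))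
    rw [e] at e1 e2
    exact ⟨mul_left_cancel₀ h2 (by linear_combination e1 + e2 - 2 * polar Q a b * hst),
      mul_left_cancel₀ h2 (by linear_combination e1 - e2)⟩
  have k1 : ∀ y ∈ hperp R a b, polar Q a y = R y * polar Q b y := fun y hy => by
    linear_combination (k y hy 1 (-R y) (one_mul _)).2
  have k2 : ∀ y ∈ hperp R a b, polar Q b y = 0 := fun y hy => by
    by_contra h4
    let φ : V →ₗ[F] Fin 3 → F := LinearMap.pi ![polarBilin R a, polarBilin R b, polarBilin Q b]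
    have h5 := φ.finrank_range_add_finrank_ker
    have h6 := (LinearMap.range φ).finrank_le
    have h7 := TS.two_mul_finrank_le hQ (W := LinearMap.ker φ) fun w hw => h w (by
      have w1 : w ∈ hperp R a b := mem_hperp.2 ⟨congrFun hw 0, congrFun hw 1⟩
      have w2 : polar Q b w = 0 := congrFun hw 2
      have e1 := k1 _ (add_mem hy w1)
      have e2 := k1 _ (sub_mem hy w1)
      simp only [polar_add_right, polar_sub_right, k1 w w1, k1 y hy, w2, Q_add, Q_sub] at e1 e2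
      exact mul_left_cancel₀ (mul_ne_zero h2 h4) (by linear_combination -e1 - e2))
    simp at h6
    omega
  refine ⟨polar Q a b, fun v => ?_⟩
  obtain ⟨s, t, y, hy, rfl⟩ := H.exists_decomp v
  rw [e, H.Q_comb' hy, k1 y hy, k2 y hy, (k y hy 1 (-R y) (one_mul _)).1]; ring

theorem exists_partner (hQ : ND Q) {e g : V} (he : Q e = 0) (hg : Q g = 0) (h0 : e ≠ 0)
    (h : g = e ∨ g ∉ F ∙ e) (hn : ∀ B, B ≠ 0 → polar Q e g = B → ∃ y ∈ hperp Q e g, Q y = -B⁻¹) :
    ∃ f, IsHyp Q e f ∧ polar Q f g = 1 := by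
  rcases h with rfl | h
  · exact (exists_isHyp hQ he h0).imp fun f hf => ⟨hf, hf.polar_eq'⟩
  by_cases hB : polar Q e g = 0
  · obtain ⟨x, hx⟩ := exists_isHyp hQ he h0
    obtain ⟨z, hz, hz'⟩ := exists_perp_polar_eq hQ h (1 - polar Q g x)
    refine ⟨_, isHyp_of_polar_eq_one (y := x + z) he ?_, ?_⟩
    · rw [polar_add_right, hx.polar_eq, mem_perp_singleton.1 hz, add_zero]
    · rw [polar_sub_left, polar_smul_left', hB, polar_comm, polar_add_right, hz']; ring
  obtain ⟨y, hy, hy'⟩ := hn _ hB rfl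
  obtain ⟨y1, y2⟩ := mem_hperp.1 hy
  refine ⟨(polar Q e g)⁻¹ • (e + g) + y, ⟨he, ?_, ?_⟩, ?_⟩
  · simp only [Q_add, Q_smul, he, hg, hy', polar_smul_left', polar_add_left, y1, y2]
    field_simp; ring
  · simp [he, y1, hB]
  · simp [hg, polar_comm Q y, y2, hB]

variable [Finite F]

theorem exists_partner' (hQ : ND Q) (hn : 4 ≤ finrank F V) {e g : V} (he : Q e = 0) (hg : Q g = 0)
    (h0 : e ≠ 0) (h : g = e ∨ g ∉ F ∙ e) : ∃ f, IsHyp Q e f ∧ polar Q f g = 1 :=
  exists_partner hQ he hg h0 h fun B hB h1 => by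
    have H : IsHyp Q e (B⁻¹ • g) := ⟨he, by simp [Q_smul, hg], by simp [h1, hB]⟩
    have := H.finrank_hperp hQ
    obtain ⟨y, hy⟩ := exists_Q_eq (H.nd_hperp hQ) (by omega) (-B⁻¹)
    exact ⟨y, by simpa [mem_hperp, hB] using mem_hperp.1 y.2, hy⟩

theorem peel_odd (hQ : ND Q) (ho : Odd (finrank F V)) (hn : 3 ≤ finrank F V) {S : O Q}
    (h1 : dickson hQ S = 1) (h3 : spinor hQ S = 1) :
    ∃ e f, IsHyp Q e f ∧ polar Q f (S.1 e) = 1 := by
  obtain ⟨a, b, hab⟩ := exists_isHyp_of_three_le hQ hn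
  by_cases h : ∀ x, Q x = 0 → ∃ c : F, S.1 x = c • x
  · rcases hab.eq_one_or_neg hQ hn h with rfl | rfl
    · exact ⟨a, b, hab, hab.polar_eq'⟩
    · rw [dickson_neg, ho.neg_one_pow] at h1; exact absurd h1 (by decide)
  push Not at h
  obtain ⟨e, he, h⟩ := h
  have h0 : e ≠ 0 := fun h0 => h 0 (by simp [h0])
  have h4 : S.1 e ∉ F ∙ e := fun h4 => by
    obtain ⟨c, hc⟩ := Submodule.mem_span_singleton.1 h4
    exact h c hc.symm
  have h5 : Q (S.1 e) = 0 := by rwa [O.map_Q]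
  refine ⟨e, ?_⟩
  by_cases h6 : 4 ≤ finrank F V
  · exact exists_partner' hQ h6 he h5 h0 (.inr h4)
  refine exists_partner hQ he h5 h0 (.inr h4) fun B hB h7 => ?_
  have h8 : Q (S.1 e - e) = -B := by rw [Q_sub, he, h5, polar_comm, h7]; simp
  have h9 : Q (S.1 e - e) ≠ 0 := by simpa [h8]
  have k1 : (refl Q (S.1 e - e) * S).1 e = e := refl_sub_apply (O.map_Q S e) h9
  obtain ⟨y, y1, y2⟩ := exists_eq_refl_of_finrank_comm hQ (g := refl Q (S.1 e - e) * S) (by
    have e1 := O.finrank_comm_add_finrank_fix (refl Q (S.1 e - e) * S)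
    have e2 := Submodule.finrank_eq_zero.not.2 fun h =>
      h0 ((O.fix_eq_bot_iff (x := refl Q (S.1 e - e) * S)).1 h e k1)
    have e3 := (dickson_eq_one_iff hQ (g := refl Q (S.1 e - e) * S)).not.1 (by
      rw [map_mul, h1, dickson_refl hQ h9]; decide)
    rw [Nat.not_even_iff_odd, Nat.odd_iff] at e3
    omega)
  have k2 := congrArg (spinor hQ) y2
  rw [map_mul, h3, mul_one, spinor_refl hQ h9, spinor_refl hQ y1, h8] at k2
  obtain ⟨c, c0, hc⟩ := exists_sq_mul_of_sqsign_eq (neg_ne_zero.2 hB) y1 k2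
  rw [y2, refl_apply, sub_eq_self, smul_eq_zero, mul_eq_zero, inv_eq_zero] at k1
  replace k1 : polar Q e y = 0 := polar_comm Q y e ▸
    (k1.resolve_right (ne_zero_of_Q_ne_zero y1)).resolve_left y1
  refine ⟨(c * B)⁻¹ • (y - (B⁻¹ * polar Q (S.1 e) y) • e), ?_, ?_⟩
  · simp [mem_hperp, k1, he, polar_comm Q (S.1 e) e, h7, hB, mul_right_comm B⁻¹]
  · rw [Q_smul, Q_sub_smul_of_singular he k1, hc]; field_simp

theorem mem_commutator_of_radO (hQ : ND Q) (h2 : (2 : F) ≠ 0) {W : Submodule F V} {h : TS Q W}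
    {q : O Q} (hq : q ∈ radO Q h) : q ∈ commutator (O Q) := by
  obtain ⟨p, hp⟩ := CharP.exists F
  have : Fact p.Prime := ⟨CharP.char_is_prime F p⟩
  obtain ⟨k, hk⟩ := (GLC.orderOf_eq_pow_iff p).2 ⟨3, nilpotent_of_rad hq⟩
  refine mem_commutator_of_odd hQ (not_exc_of_two_ne_zero h2) (k := p ^ k)
    (Odd.pow (this.out.odd_of_ne_two ?_)) (rhoO_injective ?_)
  · rintro rfl; exact h2 (CharP.cast_eq_zero F 2)
  · rw [map_pow, ← hk, pow_orderOf_eq_one, map_one]

theorem ds_of_radO (hQ : ND Q) (h2 : (2 : F) ≠ 0) {W : Submodule F V} {h : TS Q W}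
    {q : O Q} (hq : q ∈ radO Q h) : dickson hQ q = 1 ∧ spinor hQ q = 1 :=
  (mem_commutator_iff hQ (not_exc_of_two_ne_zero h2) q).1 (mem_commutator_of_radO hQ h2 hq)

/-- a hyperbolic family inside `U` with big cell component of determinant one -/
def Fam (S : O Q) (k : ℕ) (U : Submodule F V) : Prop :=
  ∃ e f : Fin k → V, IsHypFam Q e f ∧ (∀ i, e i ∈ U) ∧ (∀ i, f i ∈ U) ∧
    (Matrix.of fun i j => polar Q (f i) (S.1 (e j))).det = 1

theorem peel_step (hQ : ND Q) (h2 : (2 : F) ≠ 0) {S : O Q} {a b : V} (h : IsHyp Q a b)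
    (h1 : polar Q b (S.1 a) = 1) : ∃ ρ ∈ fixer Q (Submodule.span F {a, b}),
      dickson hQ ρ = dickson hQ S ∧ spinor hQ ρ = spinor hQ S ∧
      (∀ v ∈ hperp Q a b, ∀ c c' : F, S.1 (v + c • a) = v + c' • b → ρ.1 v = v) ∧
      ∀ {k : ℕ} {e f : Fin k → V}, IsHypFam Q e f → (∀ i, e i ∈ hperp Q a b) →
        (∀ i, f i ∈ hperp Q a b) → IsHypFam Q (Fin.cons a e : Fin (k + 1) → V) (Fin.cons b f) ∧
        (Matrix.of fun i j => polar Q ((Fin.cons b f : Fin (k + 1) → V) i)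
          (S.1 ((Fin.cons a e : Fin (k + 1) → V) j))).det =
        (Matrix.of fun i j => polar Q (f i) (ρ.1 (e j))).det := by
  have H := hp_of_hyp hQ h
  obtain ⟨q', hq', ρ, hρ, q, hq, rfl⟩ := H.bigcell (S := S) (a := 1) (fun _ => id) fun w hw w' hw' => by
    obtain ⟨c, rfl⟩ := Submodule.mem_span_singleton.1 hw
    obtain ⟨c', rfl⟩ := Submodule.mem_span_singleton.1 hw'
    simp [h1, h.polar_eq']
  have d1 := ds_of_radO hQ h2 hq
  have d2 := ds_of_radO hQ h2 hq'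
  refine ⟨ρ, Submodule.span_insert (R := F) a {b} ▸ hρ, by simp [d1, d2], by simp [d1, d2],
    fun v hv c c' e => H.fix_of (a := 1) hq' hρ hq (fun _ => id) hv rfl
      (Submodule.smul_mem _ c (Submodule.mem_span_singleton_self a))
      (by rw [e]; simpa using Submodule.smul_mem _ c' (Submodule.mem_span_singleton_self b)),
    fun {k e f} hf he hf' => ⟨⟨fun i => ?_, fun i => ?_, fun i j => ?_, fun i j => ?_, fun i j => ?_⟩, ?_⟩⟩
  · exact Fin.cases h.left hf.left i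
  · exact Fin.cases h.right hf.right i
  · refine Fin.cases (Fin.cases h.polar_left (fun j => (mem_hperp.1 (he j)).1) j) (fun i => ?_) i
    exact Fin.cases (polar_comm Q a _ ▸ (mem_hperp.1 (he i)).1) (hf.ll i) j
  · refine Fin.cases (Fin.cases h.polar_right (fun j => (mem_hperp.1 (hf' j)).2) j) (fun i => ?_) i
    exact Fin.cases (polar_comm Q b _ ▸ (mem_hperp.1 (hf' i)).2) (hf.rr i) j
  · refine Fin.cases (Fin.cases h.polar_eq (fun j => (mem_hperp.1 (hf' j)).1) j) (fun i => ?_) i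
    exact Fin.cases (polar_comm Q b _ ▸ (mem_hperp.1 (he i)).2) (fun j => by simpa using hf.lr i j) j
  have ra : ρ.1 a = a := hρ a (Submodule.mem_sup_left (Submodule.mem_span_singleton_self a))
  have qa : q.1 a = a := hq.2.2 a (Submodule.mem_span_singleton_self a)
  have qb : (q'⁻¹).1 b = b := (inv_mem hq').2.2 b (Submodule.mem_span_singleton_self b)
  choose s hs using fun j => Submodule.mem_span_singleton.1 (hq.2.1 _ (H.le_perp (he j)))
  choose t ht using fun i => Submodule.mem_span_singleton.1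
    ((inv_mem hq').2.1 _ (H.symm.le_perp (hf' i)))
  have hs' : ∀ j, q.1 (e j) = e j + s j • a := fun j => by rw [hs j]; simp
  have ht' : ∀ j, (q'⁻¹).1 (f j) = f j + t j • b := fun j => by rw [ht j]; simp
  have e1 : ∀ j, polar Q b (ρ.1 (e j)) = 0 := fun j => (mem_hperp.1 (H.fix_D hρ (he j))).2
  have e2 : ∀ j, polar Q (f j) a = 0 := fun j => polar_comm Q a _ ▸ (mem_hperp.1 (hf' j)).1
  rw [Matrix.det_eq_of_forall_row_eq_smul_add_const (B := Matrix.of (Fin.cons (Fin.cons 1 s)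
    fun i => Fin.cons 0 fun j => polar Q (f i) (ρ.1 (e j)))) (Fin.cons 0 t) 0 rfl fun i j => ?_]
  · rw [Matrix.det_succ_column_zero, Fin.sum_univ_succ]
    simp; rfl
  simp only [mul_one, O.mul_apply, O.polar_right q', Matrix.of_apply]
  generalize q'⁻¹ = r at qb ht'
  refine Fin.cases (Fin.cases ?_ (fun j => ?_) j) (fun i => Fin.cases ?_ (fun j => ?_) j) i <;>
    simp [qa, qb, ra, h.polar_eq', hs', ht', e1, e2, mul_comm]

omit [FiniteDimensional F V] [Finite F] in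
theorem Fam.of_restrict {k : ℕ} {A U : Submodule F V} (T : IsOSum Q A U)
    {g : O (Q.restrict U)} (h : Fam g k ⊤) : Fam (T.extR g) k U := by
  obtain ⟨e, f, h1, -, -, h2⟩ := h
  refine ⟨_, _, h1.map_equiv U.subtype fun _ => rfl, fun i => (e i).2, fun i => (f i).2, ?_⟩
  simpa [T.extR_right] using h2

theorem fam_aux (k : ℕ) : ∀ (V : Type u) [AddCommGroup V] [Module F V] [FiniteDimensional F V]
    (Q : QuadraticForm F V) (hQ : ND Q) (S : O Q), Odd (finrank F V) → 2 * k + 1 ≤ finrank F V →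
    dickson hQ S = 1 → spinor hQ S = 1 → Fam S k ⊤ := by
  induction k with
  | zero => exact fun V _ _ _ Q _ S _ _ _ _ => ⟨0, 0, ⟨nofun, nofun, nofun, nofun, nofun⟩, by simp⟩
  | succ k ih =>
  intro V _ _ _ Q hQ S ho hn h1 h3
  obtain ⟨a, b, h, h4⟩ := peel_odd hQ ho (by omega) h1 h3
  obtain ⟨ρ, hρ, d1, d2, -, h5⟩ := peel_step hQ (two_ne_zero_of_odd_finrank hQ ho) h h4
  obtain ⟨g, rfl⟩ : ρ ∈ h.isOSum.extR.range := h.isOSum.range_extR hQ ▸ hρ
  have := h.finrank_hperp hQ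
  obtain ⟨e, f, k1, k2, k3, k4⟩ := (ih _ _ (h.isOSum.nd_right hQ) g
    (by rw [← this, Nat.odd_add] at ho; simpa using ho) (by omega)
    (by rw [← h.isOSum.dickson_extR hQ, d1, h1])
    (by rw [← h.isOSum.spinor_extR hQ, d2, h3])).of_restrict h.isOSum
  exact ⟨_, _, (h5 k1 k2 k3).1, by simp, by simp, (h5 k1 k2 k3).2.trans k4⟩

theorem fam_of_fixer (hQ : ND Q) {A U : Submodule F V} (T : IsOSum Q A U) {S : O Q}
    (hS : S ∈ fixer Q A) {k : ℕ} (ho : Odd (finrank F U)) (hn : 2 * k + 1 ≤ finrank F U)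
    (h1 : dickson hQ S = 1) (h3 : spinor hQ S = 1) : Fam S k U := by
  obtain ⟨g, rfl⟩ : S ∈ T.extR.range := T.range_extR hQ ▸ hS
  exact (fam_aux k _ _ (T.nd_right hQ) g ho hn (T.dickson_extR hQ g ▸ h1)
    (T.spinor_extR hQ g ▸ h3)).of_restrict T

theorem peel_even (hQ : ND Q) (h2 : (2 : F) ≠ 0) (he : Even (finrank F V)) (hn : 7 ≤ finrank F V)
    {S : O Q} (h0 : S ≠ O.neg Q) (h1 : dickson hQ S = 1) (h3 : spinor hQ S = 1) :
    ∃ a b v, IsHyp Q a b ∧ polar Q b (S.1 a) = 1 ∧ v ∈ hperp Q a b ∧ Q v ≠ 0 ∧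
      ∃ c c' : F, S.1 (v + c • a) = v + c' • b := by
  by_cases hA : ∃ v, Q v ≠ 0 ∧ S.1 v = v
  · obtain ⟨v, hv, hv'⟩ := hA
    have := finrank_perp_singleton hQ (ne_zero_of_Q_ne_zero hv)
    obtain ⟨e, f, k1, k2, k3, k4⟩ := fam_of_fixer hQ (isOSum_singleton h2 hv) (k := 1)
      (mem_fixer_span.2 (by simpa)) (by rw [← this] at he; simpa [Nat.even_add_one] using he)
      (by omega) h1 h3
    exact ⟨e 0, f 0, v, k1.isHyp 0, by simpa using k4, mem_hperp.2 ⟨mem_perp'.1 (k2 0) _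
      (Submodule.mem_span_singleton_self v), mem_perp'.1 (k3 0) _
      (Submodule.mem_span_singleton_self v)⟩, hv, 0, 0, by simpa⟩
  push Not at hA
  by_cases hB : ∃ v, Q v ≠ 0 ∧ Q (S.1 v - v) = 0
  · obtain ⟨v, hv, hv'⟩ := hB
    have := finrank_perp_singleton hQ (ne_zero_of_Q_ne_zero hv)
    obtain ⟨b, hb⟩ : ∃ b, S.1 v = v + b := ⟨S.1 v - v, by simp⟩
    rw [hb, add_sub_cancel_left] at hv'
    have k1 : polar Q v b = 0 := by simpa [hb, Q_add, hv'] using O.map_Q S v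
    have k2 : polar Q v ((S⁻¹).1 b) = 0 := by
      rw [← O.polar_left, hb, polar_add_left, k1, polar_self', hv']; simp
    have b0 : b ≠ 0 := fun h => hA v hv (by simpa [h] using hb)
    obtain ⟨a, k3, k4⟩ := exists_partner' (nd_perp_singleton hQ h2 hv) (by omega)
      (e := ⟨b, mem_perp_singleton.2 k1⟩) (g := ⟨_, mem_perp_singleton.2 k2⟩) hv'
      ((O.map_Q _ _).trans hv') (fun h => b0 (congrArg Subtype.val h)) (by
        refine or_iff_not_imp_right.2 fun h => ?_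
        obtain ⟨c, hc⟩ := Submodule.mem_span_singleton.1 (not_not.1 h)
        rw [← hc]
        by_contra h4
        have h5 : c - 1 ≠ 0 := fun h5 => h4 (by rw [sub_eq_zero.1 h5, one_smul])
        have h6 : b = S.1 (c • b) := (O.inv_apply_eq S).1 (congrArg Subtype.val hc).symm
        refine hA (v + (c / (c - 1)) • b) (by rwa [Q_add_smul_of_singular hv'
          (polar_comm Q v b ▸ k1)]) ?_
        rw [map_add, hb, div_eq_inv_mul, mul_smul, map_smul, ← h6, add_assoc, smul_smul,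
          show (c - 1)⁻¹ * c = 1 + (c - 1)⁻¹ by field_simp; ring, add_smul, one_smul])
    refine ⟨a, b, v, ⟨k3.right, hv', k3.polar_eq'⟩, ?_, mem_hperp.2 ⟨mem_perp'.1 a.2 _
      (Submodule.mem_span_singleton_self v), polar_comm Q v b ▸ k1⟩, hv, 0, 1, by simpa⟩
    rw [O.polar_right, polar_comm]; exact k4
  push Not at hB
  obtain ⟨c, hc⟩ := prop_of_zero hQ h2 hn (R := Q.comp (rhoO Q S - 1)) fun v hv =>
    not_not.1 fun h => hB v h hv
  replace hc : ∀ v, Q v = c * Q (S.1 v - v) := hc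
  obtain ⟨v, hv, hv'⟩ : ∃ v, Q v ≠ 0 ∧ S.1 v ≠ -v := by
    by_contra! h
    have := addSubgroup_eq_top_of_nonsingular hQ (LinearMap.ker (rhoO Q S + 1)).toAddSubgroup
      (fun v hv => by simp [h v hv]) (by omega)
    exact h0 (O.ext fun v => eq_neg_of_add_eq_zero_left (this ▸ AddSubgroup.mem_top v :
      v ∈ (LinearMap.ker (rhoO Q S + 1)).toAddSubgroup))
  have hn' := finrank_perp_singleton hQ (ne_zero_of_Q_ne_zero hv)
  obtain ⟨w, w1, w2⟩ : ∃ w : perp Q (F ∙ v), Q w = 0 ∧ polar Q (S.1 v) w ≠ 0 := by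
    by_contra! h
    obtain ⟨x, y, hxy⟩ := exists_isHyp_of_three_le (nd_perp_singleton hQ h2 hv) (by omega)
    have := addSubgroup_eq_top_of_singular hxy
      (LinearMap.ker (polarBilin Q (S.1 v) ∘ₗ Submodule.subtype _)).toAddSubgroup h
    obtain ⟨s, hs⟩ := Submodule.mem_span_singleton.1 (perp_perp hQ (F ∙ v) ▸ mem_perp'.2 fun w hw =>
      (this ▸ AddSubgroup.mem_top _ : (⟨w, hw⟩ : perp Q (F ∙ v)) ∈
        (LinearMap.ker (polarBilin Q (S.1 v) ∘ₗ Submodule.subtype _)).toAddSubgroup) :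
        S.1 v ∈ F ∙ v)
    have e1 := O.map_Q S v
    rw [← hs, Q_smul, mul_eq_right₀ hv, sq_eq_one_iff] at e1
    rcases e1 with rfl | rfl
    · exact hA v hv (by simpa using hs.symm)
    · exact hv' (by simpa using hs.symm)
  obtain ⟨τ, hτ⟩ : ∃ τ, τ = Q (S.1 v - v) := ⟨_, rfl⟩
  have t0 : τ ≠ 0 := hτ ▸ hB v hv
  obtain ⟨w, w1, w2, w3⟩ : ∃ w, Q w = 0 ∧ polar Q (S.1 v) w = -τ ∧ polar Q v w = 0 :=
    ⟨(-τ / polar Q (S.1 v) w) • w, by simp [Q_smul, w1], by simp [w2],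
      by simp [mem_perp_singleton.1 w.2]⟩
  have e1 : polar Q (S.1 v) v = 2 * Q v - τ := by rw [hτ, Q_sub, O.map_Q]; ring
  have e2 : Q (v - w) = Q v := Q_sub_smul_of_singular w1 (polar_comm Q v w ▸ w3) 1 ▸ by simp
  have e3 : Q (S.1 (v - w) - (v - w)) = τ := mul_left_cancel₀ (left_ne_zero_of_mul (hc v ▸ hv))
    (by rw [← hc, e2, hτ, ← hc])
  have e4 := polar_self' Q w
  have e5 := polar_self' Q v
  refine ⟨w, (-τ)⁻¹ • (S.1 v - v + w), v - w, ⟨w1, ?_, ?_⟩, ?_, mem_hperp.2 ⟨?_, ?_⟩, e2 ▸ hv, 1, -τ,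
    by simp [smul_smul, t0]⟩
  · rw [Q_smul, Q_add, ← hτ, polar_sub_left, w1, w2, w3]; simp
  · simp [polar_comm Q w, w1, w2, w3, e4, t0]
  · rw [Q_sub, O.map_Q, e2, map_sub] at e3
    simp only [polar_sub_left, polar_sub_right, polar_smul_left', polar_add_left, O.map_polar] at e3 ⊢
    rw [w3, polar_comm Q v, polar_comm Q w, inv_mul_eq_one₀ (neg_ne_zero.2 t0)]
    linear_combination e3 + e1 - w2
  · simp [polar_comm Q w v, w1, w3, e4]
  · simp [polar_comm Q w v, w1, w2, w3, e1, e4, e5]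

end Cfsg.Lib.OreC
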