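import Cfsg.Agent.Lib.OreC.Won

/-! Wonenburger's theorem with conjugate involutions. -/

namespace Cfsg.Lib.OreC

open Module Polynomial QuadraticMap Cfsg.Lib.Orth

variable {F V : Type*} [Field F] [AddCommGroup V] [Module F V] {Q : QuadraticForm F V}

/-- `t` is an involution inverting `g` -/
def Rv {G : Type*} [Group G] (g t : G) : Prop := t * t = 1 ∧ t * g * (t * g) = 1

theorem Rv.map {G H : Type*} [Group G] [Group H] {g t : G} (h : Rv g t) (φ : G →* H) :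
    Rv (φ g) (φ t) := by
  simpa only [Rv, map_mul, map_one] using And.intro (congrArg φ h.1) (congrArg φ h.2)

theorem Rv.prod {G H : Type*} [Group G] [Group H] {g t : G} {h s : H} (h1 : Rv g t) (h2 : Rv h s) :
    Rv (g, h) (t, s) := ⟨Prod.ext h1.1 h2.1, Prod.ext h1.2 h2.2⟩

theorem neg_comm (g : O Q) : O.neg Q * g = g * O.neg Q := O.ext fun v => by simp

theorem Rv.neg {g t : O Q} (h : Rv g t) : Rv (O.neg Q * g) t :=
  ⟨h.1, O.ext fun v => by simpa [O.mul_apply] using congrArg (fun a : O Q => a.1 v) h.2⟩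

theorem Rv.neg' {g t : O Q} (h : Rv g t) : Rv g (O.neg Q * t) :=
  ⟨O.ext fun v => by simpa [O.mul_apply] using congrArg (fun a : O Q => a.1 v) h.1,
    O.ext fun v => by simpa [O.mul_apply] using congrArg (fun a : O Q => a.1 v) h.2⟩

theorem mem_comm_iff (h2 : (2 : F) ≠ 0) {t : O Q} (ht : t * t = 1) {v : V} :
    v ∈ O.comm t ↔ t.1 v = -v := by
  refine O.mem_comm.trans ⟨?_, fun h => ⟨(-2⁻¹ : F) • v, ?_⟩⟩
  · rintro ⟨y, rfl⟩; rw [map_sub, ← O.mul_apply, ht, neg_sub, O.one_apply]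
  · rw [map_smul, h, ← smul_sub, ← neg_add', ← two_smul F, smul_neg, smul_smul]; simp [h2]

variable [FiniteDimensional F V]

theorem finrank_comm_neg (h2 : (2 : F) ≠ 0) {t : O Q} (ht : t * t = 1) :
    finrank F (O.comm (O.neg Q * t)) + finrank F (O.comm t) = finrank F V := by
  rw [← O.finrank_comm_add_finrank_fix t, add_comm]
  rw [show O.comm (O.neg Q * t) = O.fix t from Submodule.ext fun v => by
    rw [mem_comm_iff h2 (Rv.neg' (g := 1) ⟨ht, by simpa⟩).1, O.mem_fix]; simp]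

theorem finrank_comm_sumMap {X Y : Submodule F V} (S : IsOSum Q X Y) (a : O (Q.restrict X))
    (b : O (Q.restrict Y)) :
    finrank F (O.comm (S.sumMap (a, b))) = finrank F (O.comm a) + finrank F (O.comm b) := by
  rw [← finrank_submodule_prod, ← comm_prodMap, ← LinearEquiv.finrank_map_eq S.equiv]
  exact congrArg (fun U : Submodule F V => finrank F U) 
    (comm_congr _ one_ne_zero (fun v => by rw [S.map_equiv, one_mul]) _)

omit [FiniteDimensional F V] in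
theorem exists_inv_of_osum (h2 : (2 : F) ≠ 0) {A B : Submodule F V} (S : IsOSum Q A B) :
    ∃ t : O Q, t * t = 1 ∧ (∀ a ∈ A, t.1 a = a) ∧ (∀ b ∈ B, t.1 b = -b) ∧ O.comm t = B := by
  have h1 : S.extR (O.neg _) * S.extR (O.neg _) = 1 := by rw [← map_mul, Orth.neg_mul_neg, map_one]
  have h3 : ∀ b ∈ B, (S.extR (O.neg _)).1 b = -b := fun b hb => S.extR_right _ ⟨b, hb⟩
  refine ⟨_, h1, fun a => S.extR_left _, h3, le_antisymm ?_ fun b hb =>
    (mem_comm_iff h2 h1).2 (h3 b hb)⟩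
  rintro _ ⟨v, rfl⟩
  obtain ⟨a, ha, b, hb, rfl⟩ := S.exists_add v
  simpa [S.extR_left _ ha, h3 b hb] using sub_mem (neg_mem hb) hb

theorem Rv.finrank_eq {g t : O Q} (h : Rv g t) (h1 : ∀ v, g.1 v = -v → v = 0) :
    finrank F (O.comm t) = finrank F (O.comm (t * g)) := by
  have hj : Function.Injective (1 + rhoO Q g⁻¹ : End F V) :=
    (injective_iff_map_eq_zero _).2 fun v hv => h1 v (by
      rw [← neg_eq_iff_eq_neg, ← map_neg, eq_comm, ← O.inv_apply_eq, eq_comm]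
      exact neg_eq_of_add_eq_zero_right hv)
  have e : t * g = g⁻¹ * t := by
    rw [eq_inv_of_mul_eq_one_left h.2, mul_inv_rev, inv_eq_of_mul_eq_one_left h.1]
  refine GLC.Sim.finrank_range (GLC.Sim.sub_one (f := rhoO Q t) (g := rhoO Q (t * g))
    ⟨.ofInjectiveEndo _ hj, fun v => ?_⟩)
  change t.1 v + (g⁻¹ * t).1 v = (t * g).1 (v + (g⁻¹).1 v)
  rw [← e, map_add, add_comm]; simp

theorem Rv.dickson_eq (hQ : ND Q) {g t : O Q} (h : Rv g t) (h1 : ∀ v, g.1 v = -v → v = 0) :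
    dickson hQ g = 1 := by
  have := dickson_apply hQ (t * g)
  rwa [← h.finrank_eq h1, ← dickson_apply hQ, map_mul, mul_eq_left] at this

theorem exists_rv_unip (hQ : ND Q) (h2 : (2 : F) ≠ 0) {u : O Q} (hu : IsNilpotent (rhoO Q u - 1)) :
    (∀ v, u.1 v = -v → v = 0) ∧ ∃ t, Rv u t ∧ 2 * finrank F (O.comm t) ≤ finrank F V ∧
      finrank F V ≤ 2 * finrank F (O.comm t) + 1 := by
  have h0 : IsUnit (rhoO Q u + 1) := by
    have := hu.isUnit_add_right_of_commute (u := algebraMap F _ 2) ((IsUnit.mk0 _ h2).map _)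
      (Algebra.commute_algebraMap_right _ _)
    rwa [map_ofNat, ← one_add_one_eq_two, ← add_assoc, sub_add_cancel] at this
  refine ⟨fun v hv => ((End.isUnit_iff _).1 h0).1 (by simp [hv]), ?_⟩
  obtain ⟨w, hw⟩ := h0
  have c : Commute (rhoO Q u - 1) (w⁻¹).1 := Commute.units_inv_right (by
    rw [hw]; exact ((Commute.refl _).add_right (.one_right _)).sub_left (.one_left _))
  set N := (rhoO Q u - 1) * (w⁻¹).1 with hN
  have e1 : ∀ v, N (u.1 v + v) = u.1 v - v := fun v => by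
    change (N * (rhoO Q u + 1)) v = (rhoO Q u - 1) v
    rw [← hw, hN, Units.inv_mul_cancel_right]
  have e2 : ∀ x, ∃ v, x = u.1 v + v := fun x =>
    ⟨(w⁻¹).1 x, by change _ = ((rhoO Q u + 1) * (w⁻¹).1) x; rw [← hw, w.mul_inv]; rfl⟩
  obtain ⟨A, B, a0, a1, a2, a3, a4, a5⟩ := Sk.gr (Q := Q) (N := N) (fun x y => by
    obtain ⟨x, rfl⟩ := e2 x
    obtain ⟨y, rfl⟩ := e2 y
    simp [e1]; ring) hQ h2 (c.isNilpotent_mul_right hu)
  have S : IsOSum Q A B := ⟨⟨Submodule.disjoint_def.2 fun v ha hb => hQ.eq_zero fun x => by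
    obtain ⟨a, ha', b, hb', rfl⟩ := Submodule.mem_sup.1 (a0 ▸ Submodule.mem_top (x := x))
    rw [polar_add_right, a1 v ha b hb', polar_comm, a1 a ha' v hb, add_zero],
    codisjoint_iff.2 a0⟩, a1⟩
  obtain ⟨t, t1, t2, t3, t4⟩ := exists_inv_of_osum h2 S
  have e3 : ∀ v, N (t.1 v) = -t.1 (N v) := fun v => by
    obtain ⟨a, ha, b, hb, rfl⟩ := S.exists_add v
    simp [t2 a ha, t3 b hb, t3 _ (a2 a ha), t2 _ (a3 b hb), add_comm]
  have e4 : ∀ x, u.1 (x - N x) = x + N x := fun x => by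
    obtain ⟨v, rfl⟩ := e2 x
    simp [e1]
  have := S.finrank_add
  refine ⟨t, ⟨t1, O.ext fun v => ?_⟩, by rw [t4]; omega, by rw [t4]; omega⟩
  obtain ⟨x, rfl⟩ : ∃ x, v = x - N x := ⟨(2⁻¹ : F) • (u.1 v + v), by
    rw [map_smul, e1, ← smul_sub, add_sub_sub_cancel, ← two_smul F, smul_smul]; simp [h2]⟩
  have tt : ∀ v, t.1 (t.1 v) = v := fun v => by rw [← O.mul_apply, t1, O.one_apply]
  rw [O.mul_apply, O.mul_apply, O.mul_apply, e4, map_add, ← sub_neg_eq_add, ← e3, e4, map_add, e3,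
    map_neg, tt, tt, O.one_apply, sub_eq_add_neg]

theorem exists_rv_gen (hQ : ND Q) (h2 : (2 : F) ≠ 0) {g : O Q} (h1 : ∀ v, g.1 v = v → v = 0)
    (h1' : ∀ v, g.1 v = -v → v = 0) : ∃ t, Rv g t := by
  have hf := Symp.SpE.of_isom (isAlt_altOf g) (nondegenerate_altOf hQ (O.fix_eq_bot_iff.2
    fun v hv => h1' v (eq_neg_of_add_eq_zero_left (h1 _ (by
      rw [map_add, ← O.mul_apply, hv, add_comm]))))) ⟨g.1, mem_isom_altOf (.refl g)⟩
  obtain ⟨W, W', a1, a2, a3, a4⟩ : LPon (altOf g) (rhoO Q g) ⊤ := (lp_or hf).resolve_right <| by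
    rintro ⟨-, m, x, y, -, h3, -, h4⟩
    have : Function.Injective (-rhoO Q g - 1 : End F V) := (injective_iff_map_eq_zero _).2
      fun v hv => h1' v (neg_eq_iff_eq_neg.1 (sub_eq_zero.1 hv))
    exact h4 (by rw [(injective_iff_map_eq_zero _).1 (End.iterate_injective this _) x h3]; simp)
  have L : Lg (altOf g) W W' := ⟨hf.alt, hf.nd, a1, a2, a3⟩
  have b1 : ∀ w ∈ W, g.1 w + (g⁻¹).1 w ∈ W := fun w hw => L.mem fun u hu => by
    have e1 := a2 _ (a4 u hu) _ (a4 w hw)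
    have e2 := a1 u hu w hw
    have e3 : altOf g (g.1 u) (g.1 w) = _ := hf.inv u w
    have e4 : altOf g (g.1 u) (g.1 (g⁻¹.1 w)) = _ := hf.inv u (g⁻¹.1 w)
    rw [O.apply_inv_apply] at e4
    simp only [rhoO_apply, map_sub, map_add, LinearMap.sub_apply] at e1 ⊢
    linear_combination 2 * e2 - e1 + e3 - e4
  have b2 : ∀ w ∈ W, g.1 w - (g⁻¹).1 w ∈ perp Q W := fun w hw =>
    mem_perp'.2 fun u hu => a1 w hw u hu
  have b3 : ∀ z ∈ perp Q W, g.1 z + (g⁻¹).1 z ∈ perp Q W := fun z hz => mem_perp.2 fun w hw => by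
    rw [polar_add_right, O.polar_right, O.polar_right, inv_inv, ← polar_add_left, add_comm]
    exact mem_perp.1 hz _ (b1 w hw)
  have b4 : ∀ z ∈ perp Q W, g.1 z - (g⁻¹).1 z ∈ W := fun z hz => L.mem fun w hw => by
    have e1 := mem_perp.1 hz _ (b1 _ (b1 w hw))
    have e2 := mem_perp.1 hz _ hw
    have e3 := O.polar_left g (g.1 w) z
    have e4 := O.polar_left g⁻¹ (g⁻¹.1 w) z
    have e5 := O.map_polar g⁻¹ w z
    simp only [altOf_apply, map_add, polar_add_left, polar_sub_left, polar_sub_right,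
      O.apply_inv_apply, O.inv_apply_apply, O.map_polar, inv_inv] at e1 e4 ⊢
    linear_combination 4 * e2 - e1 + e3 + e4
  have hs : ∀ {a b : V}, (2 : F) • a = (2 : F) • b → a = b := fun h => smul_right_injective V h2 h
  have S : IsOSum Q W (perp Q W) := isOSum_perp (nd_restrict_iff_disjoint.2
    (Submodule.disjoint_def.2 fun w hw hw' => h1 w (sub_eq_zero.1
      (Submodule.disjoint_def.1 L.compl.disjoint _ (sub_mem ?_ hw) (a4 w hw)))))
  swap
  · have := W.smul_mem 2⁻¹ (add_mem (b1 w hw) (b4 w hw'))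
    rwa [add_add_sub_cancel, ← two_smul F, smul_smul, inv_mul_cancel₀ h2, one_smul] at this
  obtain ⟨t, t1, t2, t3, -⟩ := exists_inv_of_osum h2 S
  have e : t * g = g⁻¹ * t := S.ext (fun w hw => hs ?_) fun w hw => hs ?_
  · exact ⟨t, t1, by nth_rw 2 [e]; rw [mul_assoc, mul_inv_cancel_left, t1]⟩
  · have e1 := t2 _ (b1 w hw)
    have e2 := t3 _ (b2 w hw)
    rw [map_add] at e1; rw [map_sub] at e2
    rw [O.mul_apply, O.mul_apply, t2 w hw]
    linear_combination (norm := module) e1 + e2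
  · have e1 := t3 _ (b3 w hw)
    have e2 := t2 _ (b4 w hw)
    rw [map_add] at e1; rw [map_sub] at e2
    rw [O.mul_apply, O.mul_apply, t3 w hw, map_neg]
    linear_combination (norm := module) e1 + e2

theorem exists_fitting (g : O Q) : ∃ (X Y : Submodule F V) (S : IsOSum Q X Y)
    (a : O (Q.restrict X)) (b : O (Q.restrict Y)), S.sumMap (a, b) = g ∧
      IsNilpotent (rhoO _ a - 1) ∧ ∀ v, b.1 v = v → v = 0 := by
  obtain ⟨n, hn⟩ := Filter.eventually_atTop.1 (rhoO Q g - 1).eventually_isCompl_ker_pow_range_pow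
  have hc := hn (n + 1) (by omega)
  have e : aeval (rhoO Q g) ((X - C 1) ^ (n + 1) : F[X]) = (rhoO Q g - 1) ^ (n + 1) := by simp
  have S : IsOSum Q _ _ := ⟨hc, by
    rintro x hx _ ⟨y, rfl⟩
    have := orth_of_aeval g (M := (X - C 1) ^ (n + 1)) (x := x) (e ▸ hx) y
    rwa [map_pow, Symp.rdual_X_sub_C (mul_one 1), e] at this⟩
  have c : Commute (rhoO Q g) ((rhoO Q g - 1) ^ (n + 1)) :=
    ((Commute.refl _).sub_right (.one_right _)).pow_right _
  obtain ⟨a, b, hab⟩ := S.exists_sumMap_eq (g := g) (fun x hx => by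
    rw [LinearMap.mem_ker, ← rhoO_apply, ← End.mul_apply, ← c.eq, End.mul_apply, hx, map_zero])
    (by rintro _ ⟨y, rfl⟩; exact ⟨_, (LinearMap.congr_fun c.eq y).symm⟩)
  refine ⟨_, _, S, a, b, hab, ⟨n + 1, LinearMap.ext fun x => Subtype.ext ?_⟩, fun v hv =>
    Subtype.ext (Submodule.disjoint_def.1 hc.disjoint _ ?_ v.2)⟩
  · exact (Symp.semiconj_pow (a := Submodule.subtype _) (g := rhoO Q g) (fun v =>
      (S.sumMap_left (a, b) v).symm.trans (congrArg (fun y : O Q => y.1 v) hab)) _ x).trans x.2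
  · have : g.1 v = v := by
      rw [← congrArg (fun y : O Q => y.1 v) hab, S.sumMap_right, hv]
    exact (LinearMap.congr_fun (pow_succ _ _) _).trans (by simp [this])

theorem exists_rv (hQ : ND Q) (h2 : (2 : F) ≠ 0) {g : O Q} (h1 : ∀ v, g.1 v = -v → v = 0) :
    ∃ t, Rv g t := by
  obtain ⟨X, Y, S, a, b, rfl, h3, h4⟩ := exists_fitting g
  obtain ⟨-, t, ht, -⟩ := exists_rv_unip (S.nd_left hQ) h2 h3
  obtain ⟨s, hs⟩ := exists_rv_gen (S.nd_right hQ) h2 h4 fun v hv =>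
    Subtype.ext (h1 v (by rw [S.sumMap_right, hv]; rfl))
  exact ⟨_, (ht.prod hs).map S.sumMap⟩

theorem won (hQ : ND Q) (h2 : (2 : F) ≠ 0) {g : O Q} (hg : dickson hQ g = 1) :
    ∃ t, Rv g t ∧ finrank F (O.comm t) = finrank F (O.comm (t * g)) := by
  obtain ⟨X, Y, S, a, b, e, h3, h4⟩ := exists_fitting (O.neg Q * g)
  obtain rfl : g = S.sumMap (O.neg _ * a, O.neg _ * b) := by
    rw [← Prod.mk_mul_mk, map_mul, S.sumMap_neg, e, ← mul_assoc, Orth.neg_mul_neg, one_mul]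
  obtain ⟨h5, t, ht, h6, h7⟩ := exists_rv_unip (S.nd_left hQ) h2 h3
  have h8 : ∀ v, (O.neg _ * b).1 v = -v → v = 0 := fun v hv => h4 v (neg_injective hv)
  obtain ⟨s, hs⟩ := exists_rv (S.nd_right hQ) h2 h8
  rw [S.dickson_sumMap hQ, hs.dickson_eq _ h8, map_mul, ht.dickson_eq _ h5, dickson_neg, mul_one,
    mul_one, neg_one_pow_eq_one_iff_even (by decide)] at hg
  refine ⟨_, (ht.neg.prod hs).map S.sumMap, ?_⟩
  have := finrank_comm_neg h2 ht.2
  rw [← map_mul, Prod.mk_mul_mk, finrank_comm_sumMap, finrank_comm_sumMap, ← hs.finrank_eq h8,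
    ← mul_assoc, ← neg_comm, mul_assoc]
  rw [← ht.finrank_eq h5] at this
  obtain ⟨k, hk⟩ := hg
  omega

variable [Finite F]

theorem conj_of_inv (hQ : ND Q) (h2 : (2 : F) ≠ 0) {t s : O Q} (ht : t * t = 1) (hs : s * s = 1)
    (h1 : finrank F (O.comm t) = finrank F (O.comm s)) (h3 : spinor hQ t = spinor hQ s) :
    ∃ g, g * t * g⁻¹ = s := by
  have S : ∀ {t : O Q}, t * t = 1 → IsOSum Q (O.comm t) (O.fix t) := fun ht =>
    O.isOSum_comm_fix (k := 2) (by simpa) (by rwa [pow_two])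
  have k : ∀ {t : O Q}, t * t = 1 → spinor hQ t =
      sqsign (2 : F) ^ finrank F (O.comm t) * disc (Q.restrict (O.comm t)) := fun ht =>
    (dickson_spinor_of_orth hQ (S ht) h2 (fun _ => (mem_comm_iff h2 ht).1) fun _ => O.mem_fix.1).2
  rw [k ht, k hs, h1, mul_right_inj] at h3
  obtain ⟨e, he⟩ := equivalent_iff.1
    (equivalent_of_disc_eq ((S ht).nd_left hQ) ((S hs).nd_left hQ) h2 h1 h3)
  obtain ⟨g, hg⟩ := witt_equiv hQ e he
  have h4 : O.comm (g * t * g⁻¹) = O.comm s := by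
    rw [O.comm_conj]
    refine Submodule.eq_of_le_of_finrank_eq ?_ (by rw [LinearEquiv.finrank_map_eq, h1])
    rintro _ ⟨v, hv, rfl⟩
    exact (hg ⟨v, hv⟩).symm ▸ (e _).2
  have h5 : g * t * g⁻¹ * (g * t * g⁻¹) = 1 := by
    rw [conj_mul, ht]; group
  refine ⟨g, (S hs).ext (fun v hv => ?_) fun v hv => ?_⟩
  · rw [(mem_comm_iff h2 hs).1 hv, (mem_comm_iff h2 h5).1 (h4 ▸ hv)]
  · rw [O.mem_fix.1 hv, ← O.mem_fix, ← O.perp_comm hQ, h4, O.perp_comm hQ]; exact hv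

theorem won_odd (hQ : ND Q) (ho : Odd (finrank F V)) {g : O Q} (hg : dickson hQ g = 1)
    (hg' : spinor hQ g = 1) :
    ∃ t c : O Q, t * t = 1 ∧ dickson hQ t = 1 ∧ g = t * (c * t * c⁻¹)⁻¹ := by
  have h2 := two_ne_zero_of_odd_finrank hQ ho
  obtain ⟨t, h1, h3, h4⟩ : ∃ t, Rv g t ∧ finrank F (O.comm t) = finrank F (O.comm (t * g)) ∧
      dickson hQ t = 1 := by
    obtain ⟨t, h1, h3⟩ := won hQ h2 hg
    rcases Int.units_eq_one_or (dickson hQ t) with h | h
    · exact ⟨t, h1, h3, h⟩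
    have := finrank_comm_neg h2 h1.1
    have := finrank_comm_neg h2 h1.2
    exact ⟨_, h1.neg', by rw [mul_assoc]; omega, by rw [map_mul, h, dickson_neg, ho.neg_one_pow]; rfl⟩
  obtain ⟨c, hc⟩ := conj_of_inv hQ h2 h1.1 h1.2 h3 (by rw [map_mul, hg', mul_one])
  exact ⟨t, c, h1.1, h4, by rw [hc, inv_eq_of_mul_eq_one_left h1.2, ← mul_assoc, h1.1, one_mul]⟩

end Cfsg.Lib.OreC
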