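import Cfsg.Agent.Lib.OreC.Tab
import Cfsg.Agent.Lib.OreC.Peel
import Cfsg.Agent.Lib.OreC.Won2

/-! Ore's conjecture for orthogonal groups in odd characteristic. -/

namespace Cfsg.Lib.OreC

open Module Polynomial QuadraticMap Cfsg.Lib.Orth

universe u

variable {F V : Type*} [Field F] [AddCommGroup V] [Module F V] {Q : QuadraticForm F V}

theorem refl_mem_centralizer {x : O Q} {v : V} (h : x.1 v = v ∨ x.1 v = -v) :
    refl Q v ∈ Subgroup.centralizer {x} := by
  rintro _ rfl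
  rw [← mul_inv_eq_iff_eq_mul, conj_refl]
  rcases h with h | h <;> rw [h]
  exact refl_neg v

variable [Finite F] [FiniteDimensional F V]

omit [Finite F] [FiniteDimensional F V] in
theorem extR_mem {A U : Submodule F V} (T : IsOSum Q A U) (g : O (Q.restrict U)) :
    T.extR g ∈ fixer Q A := fun _ => T.extR_left g

theorem Lv.icg_odd {hQ : ND Q} {m : ℕ} {e f : Fin m → V} {D : Submodule F V}
    {L : GL (Fin m) F →* O Q} {s : O Q} (H : Lv hQ e f D L s) (hm : Odd m) {l : GL (Fin m) F}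
    (hl : ∀ ε, FD (X ^ 2 - 1) ε l) {q q' ρ : O Q} (hq' : q' ∈ radO Q H.hp.ts')
    (hq : q ∈ radO Q H.hp.ts) {A U : Submodule F V} (T : IsOSum Q A U)
    (hA : OreC.sp F e ⊔ OreC.sp F f ≤ A) (hU : Odd (finrank F U)) (hρ : ρ ∈ fixer Q A)
    (h1 : dickson hQ ρ = 1) (h3 : spinor hQ ρ = 1) : ICG (q' * ρ * L l * q) := by
  have h2 := two_ne_zero_of_odd_finrank (T.nd_right hQ) hU
  have hE : ¬ Exc Q := not_exc_of_two_ne_zero h2
  obtain ⟨g, rfl⟩ : ρ ∈ T.extR.range := T.range_extR hQ ▸ hρ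
  obtain ⟨t, c, t1, t2, rfl⟩ := won_odd (T.nd_right hQ) hU (T.dickson_extR hQ g ▸ h1)
    (T.spinor_extR hQ g ▸ h3)
  obtain ⟨x, y, rfl, x1, y1, x2, x3⟩ := hl (spinor hQ (T.extR t))
  have k : ∀ g, T.extR g ∈ fixer Q (OreC.sp F e ⊔ OreC.sp F f) := fun g w hw => extR_mem T g w (hA hw)
  simp only [map_mul T.extR, map_inv T.extR]
  refine H.icg hq' hq (k t) (k c) x1 y1 x2 (by
    rw [map_sub, map_pow, aeval_X, ← map_pow, ← map_pow, pow_two, t1]; simp)
    ((mem_commutator_iff hQ hE _).2 ⟨by rw [map_mul, H.dk, T.dickson_extR, t2, mul_one], by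
      rw [map_mul, H.sp, x3, Int.units_mul_self]⟩) fun G _ _ =>
    exists_mul_mem_commutator hQ hE ?_ (fun _ => ?_) _
  · have : Nontrivial U := Module.nontrivial_of_finrank_pos (R := F) hU.pos
    obtain ⟨u, hu⟩ := (T.nd_right hQ).exists_Q_ne
    have tt : t.1 (t.1 u) = u := by rw [← O.mul_apply, t1, O.one_apply]
    obtain ⟨a, a1, a2⟩ : ∃ a : U, Q a ≠ 0 ∧ (t.1 a = a ∨ t.1 a = -a) := by
      by_cases h : Q.restrict U (u + t.1 u) = 0
      · refine ⟨u - t.1 u, fun h' : Q.restrict U _ = 0 => hu ?_, .inr (by simp [tt])⟩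
        rw [Q_add, O.map_Q] at h
        rw [Q_sub, O.map_Q] at h'
        exact mul_left_cancel₀ (mul_ne_zero h2 h2) (by linear_combination h + h')
      · exact ⟨_, h, .inl (by simp [tt, add_comm])⟩
    refine ⟨_, refl_mem_centralizer (v := (a : V)) ?_, dickson_refl hQ a1⟩
    rw [O.mul_apply, H.hD x a (H.hp.os.perp_left hQ ▸ perp_anti hA (T.perp_left hQ ▸ a.2)),
      T.extR_right]
    exact a2.imp (congrArg Subtype.val) (congrArg Subtype.val)
  · obtain ⟨a, ha⟩ := exists_not_isSquare h2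
    let z : GL (Fin m) F := .mkOfDetNeZero (a • 1) (by simp [ne_zero_of_not_isSquare ha])
    refine ⟨L z, ?_, H.dk z, by simp [H.sp, z, sqsign_pow (ne_zero_of_not_isSquare ha),
      sqsign_of_not_isSquare ha, hm.neg_one_pow]⟩
    rintro _ rfl
    rw [mul_assoc, ← map_mul, show x * z = z * x from Units.ext (by simp [z]), map_mul, ← mul_assoc,
      ← (H.commute_of_fix (H.hD z) (k t)).eq, mul_assoc]

theorem exists_inv_aux (h2 : (2 : F) ≠ 0) (k : ℕ) : ∀ (V : Type u) [AddCommGroup V] [Module F V]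
    [FiniteDimensional F V] (Q : QuadraticForm F V) (hQ : ND Q) (ε : ℤˣ), k + 2 ≤ finrank F V →
    ∃ t : O Q, t * t = 1 ∧ finrank F (O.comm t) = k + 1 ∧ spinor hQ t = ε := by
  induction k with
  | zero =>
    intro V _ _ _ Q hQ ε hn
    obtain ⟨v, h1, h3⟩ := exists_sqsign_eq hQ h2 hn ε
    exact ⟨_, refl_mul_self v, finrank_comm_refl hQ h1, (spinor_refl hQ h1).trans h3⟩
  | succ k ih =>
    intro V _ _ _ Q hQ ε hn
    obtain ⟨v, h1, -⟩ := exists_sqsign_eq hQ h2 (by omega) ε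
    have T := isOSum_singleton h2 h1
    have := finrank_perp_singleton hQ (ne_zero_of_Q_ne_zero h1)
    obtain ⟨t, t1, t2, t3⟩ := ih _ _ (T.nd_right hQ) (sqsign (Q v) * ε) (by omega)
    let w : F ∙ v := ⟨v, Submodule.mem_span_singleton_self v⟩
    refine ⟨T.sumMap (refl _ w, t), by
      rw [← map_mul, Prod.mk_mul_mk, t1, refl_mul_self]; exact map_one _, ?_, ?_⟩
    · rw [finrank_comm_sumMap, t2, finrank_comm_refl (T.nd_left hQ) h1, add_comm]
    · rw [T.spinor_sumMap, t3, spinor_refl (T.nd_left hQ) h1, ← mul_assoc]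
      exact (congrArg (· * ε) (Int.units_mul_self _)).trans (one_mul ε)

theorem icg_neg_aux (hQ : ND Q) (h2 : (2 : F) ≠ 0) (h : O.neg Q ∈ commutator (O Q))
    {P U : Submodule F V} (T : IsOSum Q P U) {k : ℕ} (hU : finrank F U = 4 * (k + 1)) {j r : O Q}
    (hj : j ∈ fixer Q U) (hr : r ∈ fixer Q U) (h1 : ∀ v ∈ P, j.1 (j.1 v) = -v)
    (h3 : r * j * r⁻¹ = j⁻¹) (h4 : dickson hQ j = 1) : ICG (O.neg Q) := by
  have hE : ¬ Exc Q := not_exc_of_two_ne_zero h2
  have c : ∀ {a : O Q}, a ∈ fixer Q U → ∀ g, Commute a (T.extR g) := fun {a} ha g => by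
    obtain ⟨b, rfl⟩ : a ∈ T.symm.extR.range := T.symm.range_extR hQ ▸ ha
    exact T.ext (fun v hv => by
      rw [O.mul_apply, O.mul_apply, T.extR_left _ hv, T.symm.extR_right b ⟨v, hv⟩,
        T.extR_left _ (Subtype.prop _)]) fun v hv => by
      rw [O.mul_apply, O.mul_apply, T.symm.extR_left _ hv, T.extR_right g ⟨v, hv⟩,
        T.symm.extR_left _ (Subtype.prop _)]
  have e : O.neg Q = j * j * T.extR (O.neg _) := T.ext (fun v hv => by
    rw [O.mul_apply, O.mul_apply, T.extR_left _ hv, h1 v hv]; rfl) fun v hv => by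
    rw [O.mul_apply, O.mul_apply, T.extR_right _ ⟨v, hv⟩, hj _ (Subtype.prop _),
      hj _ (Subtype.prop _)]; rfl
  have h5 := ((mem_commutator_iff hQ hE _).1 h).2
  rw [e, map_mul, map_mul, Int.units_mul_self, one_mul, T.spinor_extR] at h5
  obtain ⟨t, t1, t2, t3⟩ := exists_inv_aux h2 (2 * k + 1) _ _ (T.nd_right hQ) (spinor hQ j) (by omega)
  have h6 := finrank_comm_neg h2 t1
  obtain ⟨g, hg⟩ := conj_of_inv (T.nd_right hQ) h2 t1 (Rv.neg' (g := 1) ⟨t1, by simpa⟩).1 (by omega)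
    (by rw [map_mul, h5, one_mul])
  have t4 : T.extR t * T.extR t = 1 := by rw [← map_mul, t1, map_one]
  obtain ⟨z, z1, z2⟩ := exists_mul_mem_commutator_of_nd hQ hE
    (K := Subgroup.centralizer {j * T.extR t}) (U := O.comm (T.extR t))
    ((O.isOSum_comm_fix (k := 2) (by simpa) (by rwa [pow_two])).nd_left hQ)
    (by rw [T.extR_apply, finrank_comm_sumMap]; omega) (fun v hv => refl_mem_centralizer (.inr (by
      have h7 := (mem_comm_iff h2 t4).1 hv
      rw [O.mul_apply, h7, map_neg, hj v (T.perp_left hQ ▸ mem_perp.2 fun w hw =>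
        Symp.eq_zero_of_eq_neg h2 ?_)]
      rw [← polar_neg_right, ← h7, ← O.map_polar (T.extR t) w v, T.extR_left _ hw]))) (r * T.extR g)
  have := icg_of_conj (x := j * T.extR t) ((mem_commutator_iff hQ hE _).2 ⟨by
    rw [map_mul, h4, T.dickson_extR, dickson_apply, t2, one_mul]
    exact Even.neg_one_pow ⟨k + 1, by ring⟩, by
    rw [map_mul, T.spinor_extR, t3, Int.units_mul_self]⟩) z2
  convert this using 1
  have k1 : z * (j * T.extR t) = j * T.extR t * z := (z1 _ rfl).symm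
  have k2 : T.extR g * T.extR t * (T.extR g)⁻¹ = T.extR (O.neg _) * T.extR t := by
    rw [← map_inv, ← map_mul, ← map_mul, hg, map_mul]
  have k3 : r * T.extR g * z * (j * T.extR t) * (r * T.extR g * z)⁻¹ =
      j⁻¹ * T.extR (O.neg _ * t) :=
    calc _ = r * T.extR g * (z * (j * T.extR t)) * z⁻¹ * (T.extR g)⁻¹ * r⁻¹ := by group
      _ = r * (T.extR g * j) * T.extR t * (T.extR g)⁻¹ * r⁻¹ := by rw [k1]; group
      _ = r * j * ((T.extR g * T.extR t * (T.extR g)⁻¹) * r⁻¹) := by rw [← (c hj g).eq]; group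
      _ = _ := by rw [k2, ← map_mul, ← (c (inv_mem hr) _).eq, ← mul_assoc, h3]
  rw [k3, e, mul_inv_rev, inv_inv, ← map_inv, mul_assoc j (T.extR t), ← mul_assoc (T.extR t),
    ← map_mul, ← (c hj _).eq, ← mul_assoc, mul_inv_rev, mul_inv_cancel_left,
    inv_eq_of_mul_eq_one_left Orth.neg_mul_neg]

theorem icg_neg (hQ : ND Q) (h2 : (2 : F) ≠ 0) (hn : 3 ≤ finrank F V)
    (h : O.neg Q ∈ commutator (O Q)) : ICG (O.neg Q) := by
  obtain ⟨m, hm⟩ := ((neg_mem_commutator_iff hQ h2).1 h).1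
  obtain ⟨k, rfl | rfl⟩ := Nat.even_or_odd' m
  · exact icg_neg_aux hQ h2 h (isOSum_perp (W := ⊥) (nd_restrict_iff.2 (by simp))) (k := k - 1)
      (by rw [perp_bot, finrank_top]; omega) (one_mem _) (one_mem _) (by simp) (by simp) (map_one _)
  obtain ⟨b, hb, -⟩ := exists_sqsign_eq hQ h2 (by omega) 1
  have := finrank_perp_singleton hQ (ne_zero_of_Q_ne_zero hb)
  obtain ⟨⟨a, ha⟩, ha' : Q a = Q b⟩ := exists_Q_eq (nd_perp_singleton hQ h2 hb) (by omega) (Q b)
  rw [mem_perp_singleton] at ha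
  have h1 : Q (a - b) ≠ 0 := by
    rw [Q_sub, polar_comm, ha, ha', sub_zero, ← two_mul]; exact mul_ne_zero h2 hb
  have h3 : (refl Q (a - b)).1 a = b := refl_sub_apply ha' h1
  have h4 : (refl Q (a - b)).1 b = a := by simpa [h3] using refl_refl_apply (Q := Q) (a - b) a
  have li := linearIndependent_of_orth h2 (Q := Q) (v := ![a, b]) (by simp [ha', hb])
    (by simp [ha, polar_comm Q a])
  have nd : ND (Q.restrict (Submodule.span F {a, b})) := nd_restrict_iff.2 fun x hx h0 => by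
    obtain ⟨s, t, rfl⟩ := Submodule.mem_span_pair.1 hx
    have e1 := h0 a (Submodule.subset_span (by simp))
    have e2 := h0 b (Submodule.subset_span (by simp))
    simp [ha, polar_comm Q a b, ha', hb, h2] at e1 e2
    simp [e1, e2]
  have h5 := finrank_add_finrank_perp hQ (Submodule.span F {a, b})
  rw [show finrank F (Submodule.span F {a, b}) = 2 by
    have := finrank_span_eq_card li
    rwa [Matrix.range_cons_cons_empty] at this] at h5
  have f1 : refl Q b ∈ fixer Q (perp Q (Submodule.span F {a, b})) := fun v hv =>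
    refl_apply_of_perp (mem_perp_pair.1 hv).2
  refine icg_neg_aux hQ h2 h (isOSum_perp nd) (k := k - 1) (by omega) (j := refl Q (a - b) * refl Q b)
    (mul_mem (fun v hv => refl_apply_of_perp (by simp [mem_perp_pair.1 hv])) f1) f1 (fun v hv => ?_)
    (by simp [refl_inv, mul_assoc, refl_mul_self]) (by simp [dickson_refl hQ h1, dickson_refl hQ hb])
  obtain ⟨s, t, rfl⟩ := Submodule.mem_span_pair.1 hv
  simp [refl_apply_of_perp ha, refl_apply_self hb, h3, h4, add_comm]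

theorem icg_of_fam (hQ : ND Q) (h2 : (2 : F) ≠ 0) {m : ℕ} (hm : Odd m)
    (hF : ∀ ε, ∀ l : GL (Fin m) F, l.1.det = 1 → FD (X ^ 2 - 1) ε l) {S : O Q}
    (h1 : dickson hQ S = 1) (h3 : spinor hQ S = 1) {e f : Fin m → V} (h : IsHypFam Q e f)
    (hd : (Matrix.of fun i j => polar Q (f i) (S.1 (e j))).det = 1)
    (hv : Odd (finrank F V) ∨ Even (finrank F V) ∧ ∃ v ∈ perp Q (sp F e ⊔ sp F f), Q v ≠ 0 ∧
      ∃ w ∈ sp F e, S.1 (v + w) - v ∈ sp F f) : ICG S := by
  obtain ⟨L, s, H⟩ := exists_lv hQ h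
  obtain ⟨l, hl, hd'⟩ : ∃ l : GL (Fin m) F, (∀ i j, polar Q (f i) (S.1 (e j)) = l.1 i j) ∧
    l.1.det = 1 := ⟨.mkOfDetNeZero _ (hd ▸ one_ne_zero), fun _ _ => rfl, hd⟩
  obtain ⟨q', hq', ρ, hρ, q, hq, e1⟩ := H.bigcell (S := S) hl
  have d1 := ds_of_radO hQ h2 hq
  have d2 := ds_of_radO hQ h2 hq'
  have h4 := H.hp.finrank_D
  subst e1
  have k1 : dickson hQ ρ = 1 := by simpa [d1, d2, H.dk] using h1
  have k2 : spinor hQ ρ = 1 := by simpa [d1, d2, H.sp, hd'] using h3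
  rcases hv with hv | ⟨hv, v, v1, v2, w, w1, w2⟩
  · exact H.icg_odd hm (hF · _ hd') hq' hq H.hp.os le_rfl
      (by rw [← h4, Nat.odd_add'] at hv; simpa using hv) hρ k1 k2
  have h5 := H.hp.fix_of hq' hρ hq (H.he' _) v1 (H.hD _ v v1) w1 w2
  have h6 : v ∉ sp F e ⊔ sp F f := fun h => ne_zero_of_Q_ne_zero v2
    (Submodule.disjoint_def.1 H.hp.os.isCompl.disjoint v h v1)
  have h7 := finrank_add_finrank_perp hQ (sp F e ⊔ sp F f ⊔ F ∙ v)
  have h8 := H.hp.os.finrank_add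
  rw [finrank_sup_span_singleton' h6] at h7
  refine H.icg_odd hm (hF · _ hd') hq' hq (isOSum_perp (W := sp F e ⊔ sp F f ⊔ F ∙ v)
    (nd_restrict_iff.2 fun x hx h0 => ?_)) le_sup_left
    (by rw [Nat.even_iff] at hv; rw [Nat.odd_iff]; omega) (fun x hx => ?_) k1 k2
  all_goals
    obtain ⟨x, hx', _, hy, rfl⟩ := Submodule.mem_sup.1 hx
    obtain ⟨c, rfl⟩ := Submodule.mem_span_singleton.1 hy
  · have := h0 v (Submodule.mem_sup_right (Submodule.mem_span_singleton_self v))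
    simp [mem_perp.1 v1 x hx', h2, v2] at this
    simpa [this] using nd_restrict_iff.1 (H.hp.os.nd_left hQ) x hx' fun y hy => by
      simpa [this] using h0 y (Submodule.mem_sup_left hy)
  · rw [map_add, map_smul, hρ x hx', h5]

theorem icg_odd (hQ : ND Q) (h2 : (2 : F) ≠ 0) (hn : 7 ≤ finrank F V) {S : O Q}
    (hS : S ∈ commutator (O Q)) : ICG S := by
  obtain ⟨h1, h3⟩ := (mem_commutator_iff hQ (not_exc_of_two_ne_zero h2) S).1 hS
  obtain ⟨k, hk, hk', hF⟩ : ∃ k, Even k ∧ k ≤ 2 ∧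
      ∀ ε, ∀ l : GL (Fin (k + 1)) F, l.1.det = 1 → FD (X ^ 2 - 1) ε l := by
    have := Fintype.ofFinite F
    have h4 := odd_card_iff.2 h2
    have := Fintype.one_lt_card (α := F)
    by_cases h : 7 ≤ Fintype.card F
    · exact ⟨0, by simp, by simp, fun ε l => fd_one h2 h ε⟩
    · exact ⟨2, by simp, le_rfl, fun ε l => fd_three (by rw [Nat.odd_iff] at h4; omega) ε⟩
  rcases Nat.even_or_odd (finrank F V) with he | ho
  swap
  · obtain ⟨e, f, k1, -, -, k2⟩ := fam_aux (k + 1) V Q hQ S ho (by omega) h1 h3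
    exact icg_of_fam hQ h2 hk.add_one hF h1 h3 k1 k2 (.inl ho)
  by_cases h0 : S = O.neg Q
  · subst h0; exact icg_neg hQ h2 (by omega) hS
  obtain ⟨a, b, v, hab, h4, v1, v2, c, c', h5⟩ := peel_even hQ h2 he hn h0 h1 h3
  obtain ⟨ρ, hρ, d1, d2, h6, h7⟩ := peel_step hQ h2 hab h4
  have h8 : v ∉ Submodule.span F {a, b} := fun h => ne_zero_of_Q_ne_zero v2
    (Submodule.disjoint_def.1 hab.isOSum.isCompl.disjoint v h v1)
  have h9 := finrank_add_finrank_perp hQ (Submodule.span F {a, b} ⊔ F ∙ v)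
  rw [finrank_sup_span_singleton' h8, hab.finrank_span] at h9
  rw [Nat.even_iff] at he
  obtain ⟨e, f, k1, k2, k3, k4⟩ := fam_of_fixer hQ (isOSum_perp (W := Submodule.span F {a, b} ⊔ F ∙ v)
    (nd_restrict_iff.2 fun x hx h0 => by
      obtain ⟨x, hx', _, hy, rfl⟩ := Submodule.mem_sup.1 hx
      obtain ⟨c, rfl⟩ := Submodule.mem_span_singleton.1 hy
      have := h0 v (Submodule.mem_sup_right (Submodule.mem_span_singleton_self v))
      simp [mem_perp.1 v1 x hx', h2, v2] at this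
      simpa [this] using nd_restrict_iff.1 hab.nd_span x hx' fun y hy => by
        simpa [this] using h0 y (Submodule.mem_sup_left hy))) (S := ρ) (fun x hx => by
      obtain ⟨x, hx', _, hy, rfl⟩ := Submodule.mem_sup.1 hx
      obtain ⟨c, rfl⟩ := Submodule.mem_span_singleton.1 hy
      rw [map_add, map_smul, hρ x hx', h6 v v1 _ _ h5]) (k := k) (by rw [Nat.odd_iff]; omega)
    (by omega) (d1.trans h1) (d2.trans h3)
  rw [perp_sup] at k2 k3
  obtain ⟨k5, k6⟩ := h7 k1 (fun i => (k2 i).1) fun i => (k3 i).1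
  refine icg_of_fam hQ h2 hk.add_one hF h1 h3 k5 (k6.trans k4) (.inr ⟨Nat.even_iff.2 he, v, ?_, v2,
    c • a, Submodule.smul_mem _ _ (Submodule.subset_span ⟨0, rfl⟩), ?_⟩)
  · rw [perp_sup]
    constructor <;> refine mem_perp_span.2 ?_ <;> rintro _ ⟨i, rfl⟩
    · exact Fin.cases (mem_hperp.1 v1).1 (fun i => polar_comm Q v _ ▸ mem_perp_singleton.1 (k2 i).2) i
    · exact Fin.cases (mem_hperp.1 v1).2 (fun i => polar_comm Q v _ ▸ mem_perp_singleton.1 (k3 i).2) i
  · rw [h5, add_sub_cancel_left]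
    exact Submodule.smul_mem _ _ (Submodule.subset_span ⟨0, rfl⟩)

omit [Finite F] in
theorem omega_of_icg {ι : Type} [Fintype ι] [DecidableEq ι] {Q : QuadraticForm F (ι → F)}
    (h : ∀ S ∈ commutator (O Q), ICG S) (g : Omega F ⇑Q) :
    ∃ a b : Omega F ⇑Q, g = a * b * a⁻¹ * b⁻¹ := by
  obtain ⟨a, ha, b, hb, e⟩ := (h _ ((mem_omega_iff _).1 g.2)).map (isoEquiv Q).symm.toMonoidHom
  exact ⟨⟨a, ha⟩, ⟨b, hb⟩, Subtype.ext (by simpa using e)⟩

end Cfsg.Lib.OreC
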