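import Cfsg.Agent.Lib.OreC.T2
import Cfsg.Agent.Lib.OreC.Odd
import Cfsg.Agent.Lib.Orth.CharTwo

/-! Big cell elements of orthogonal groups in characteristic two that are commutators. -/

namespace Cfsg.Lib.OreC

open Module Polynomial QuadraticMap Cfsg.Lib.Orth Matrix

variable {F V : Type*} [Field F] [AddCommGroup V] [Module F V] {Q : QuadraticForm F V}
  {W W' D L : Submodule F V}

theorem refl_mem_fixer {v : V} (h : v ∈ perp Q W) : refl Q v ∈ fixer Q W := fun w hw =>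
  refl_apply_of_perp (mem_perp'.1 h w hw)

theorem comm_mul_le {g h : O Q} (h1 : O.comm g ≤ L) (h2 : O.comm h ≤ L) : O.comm (g * h) ≤ L := by
  rintro _ ⟨y, rfl⟩
  simpa [O.mul_apply] using add_mem (h1 (O.sub_mem_comm g (h.1 y))) (h2 (O.sub_mem_comm h y))

theorem Hp.disj (H : Hp Q W W' D) {v : V} (h : v ∈ W) (h' : v ∈ W') : v = 0 :=
  H.eq_zero h' fun _ hu => H.ts.polar_eq hu h

theorem Hp.refl_mem (H : Hp Q W W' D) {v : V} (h : v ∈ D) : refl Q v ∈ fixer Q (W ⊔ W') :=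
  refl_mem_fixer (H.os.perp_left H.nd ▸ h)

theorem fixer_of_comm (hQ : ND Q) {g : O Q} (h : O.comm g ≤ L) : g ∈ fixer Q (perp Q L) :=
  fun _ hw => O.mem_fix.1 (O.perp_comm hQ g ▸ perp_anti h hw)

/-- products of two commuting reflections -/
def C2 (Q : QuadraticForm F V) (D : Submodule F V) (t : O Q) : Prop :=
  ∃ a ∈ D, ∃ b ∈ D, Q a = 1 ∧ Q b = 1 ∧ polar Q a b = 0 ∧ a ≠ b ∧ t = refl Q a * refl Q b

variable (F) in
/-- the dimension admits good Levi elements -/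
def Dm (W : Submodule F V) : Prop :=
  (finrank F W = 1 → 4 ≤ Nat.card F) ∧ (finrank F W = 2 → 3 ≤ Nat.card F)

theorem C2.split [Finite F] (h2 : (2 : F) = 0) (h4 : 4 ≤ Nat.card F) {t : O Q} (h : C2 Q D t) :
    ∃ s s', C2 Q D s ∧ C2 Q D s' ∧ t = s * s' := by
  obtain ⟨a, ha, b, hb, a1, b1, hab, hn, rfl⟩ := h
  obtain ⟨c, c0, c1⟩ := Linear.exists_ne_zero_sq_ne_one h4
  have hc : Q (a + c • (b - a)) = 1 := by
    simp [Q_add, Q_smul, Q_sub, a1, b1, hab, polar_comm Q b a, h2, one_add_one_eq_two]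
  have hm := add_mem ha (D.smul_mem c (sub_mem hb ha))
  refine ⟨_, _, ⟨a, ha, _, hm, a1, hc, by simp [hab, h2], fun e => ?_, rfl⟩,
    ⟨_, hm, b, hb, hc, b1, by simp [hab, h2], fun e => ?_, rfl⟩, by
      rw [mul_assoc, ← mul_assoc (refl Q (_ + _)), refl_mul_self, one_mul]⟩
  · simp [c0, sub_eq_zero, hn.symm] at e
  · have : (c - 1) • (b - a) = 0 := by rw [sub_smul, one_smul, sub_eq_zero, eq_sub_iff_add_eq', e]
    simp [sub_eq_zero, hn.symm] at this
    exact c1 (by simp [this])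

theorem li_of_ne (h2 : (2 : F) = 0) {a b : V} (ha : Q a = 1) (hb : Q b = 1) (h : a ≠ b) :
    LinearIndependent F ![a, b] := LinearIndependent.pair_iff.2 fun s t e => by
  rw [add_eq_zero_iff_eq_neg, neg_eq_of_two h2] at e
  obtain rfl : s = t := sq_inj_of_two h2 (by simpa [Q_smul, ha, hb] using congrArg Q e)
  simpa using (eq_or_ne s 0).resolve_right fun h0 => h (smul_right_injective V h0 e)

theorem li_of_polar (h2 : (2 : F) = 0) {a b : V} (h : polar Q a b ≠ 0) :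
    LinearIndependent F ![a, b] := LinearIndependent.pair_iff.2 fun s t e => by
  exact ⟨by simpa [h2, h] using congrArg (polar Q · b) e,
    by simpa [h2, h] using congrArg (polar Q a) e⟩

variable [FiniteDimensional F V]

theorem comm_le_of_fix (hQ : ND Q) {g : O Q} (h : g ∈ fixer Q W) : O.comm g ≤ perp Q W :=
  O.perp_fix hQ g ▸ perp_anti fun w hw => O.mem_fix.2 (h w hw)

theorem eq_one_of_comm (hQ : ND Q) {g : O Q} (h : O.comm g ≤ L) (hL : finrank F L ≤ 1)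
    (hd : dickson hQ g = 1) : g = 1 := by
  have := Submodule.finrank_mono h
  rw [dickson_eq_one_iff, Nat.even_iff] at hd
  exact O.comm_eq_bot_iff.1 (Submodule.finrank_eq_zero.1 (by omega))

theorem Hp.exists_fam (H : Hp Q W W' D) {m : ℕ} (hm : finrank F W = m) :
    ∃ e f : Fin m → V, IsHypFam Q e f ∧ sp F e = W ∧ sp F f = W' := by
  obtain ⟨e, f, h, he⟩ := H.ts.exists_isHypFam H.nd hm
  choose a ha b hb d hd h1 using fun i => H.dec (f i)
  have k : ∀ i, e i ∈ W := fun i => he ▸ Submodule.subset_span ⟨i, rfl⟩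
  have h2 : IsHypFam Q e b := ⟨h.left, fun i => H.ts' _ (hb i), h.ll,
    fun i j => H.ts'.polar_eq (hb i) (hb j), fun i j => by
      simpa [h1 j, H.ts.polar_eq (k i) (ha j), H.wd (k i) (hd j)] using h.lr i j⟩
  refine ⟨e, b, h2, he, Submodule.eq_of_le_of_finrank_eq (Submodule.span_le.2 ?_) ?_⟩
  · rintro _ ⟨i, rfl⟩; exact hb i
  · rw [finrank_span_eq_card h2.linearIndependent_right, Fintype.card_fin, ← H.finrank_eq, hm]

theorem Hp.dickson_swap (H : Hp Q W W' D) {G : O Q} (h1 : ∀ d ∈ D, G.1 d = d)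
    (h2 : ∀ w ∈ W, G.1 w ∈ W') : dickson H.nd G = (-1) ^ finrank F W := by
  have T := H.os.symm
  obtain ⟨g, rfl⟩ : G ∈ T.extR.range := T.range_extR H.nd ▸ h1
  let U := W.comap (W ⊔ W').subtype
  have hU : finrank F U = finrank F W := (Submodule.comapSubtypeEquivOfLe le_sup_left).finrank_eq
  have := H.finrank_D
  have := H.os.finrank_add
  rw [T.dickson_extR, Lag.dickson_eq _ (U := U) ⟨fun w hw => H.ts _ hw, by omega⟩, psign,
    (Submodule.eq_bot_iff (U ⊓ _)).2, finrank_bot, add_zero, hU]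
  rintro _ ⟨hx, y, hy, rfl⟩
  exact Subtype.ext (H.disj hx (T.extR_right g y ▸ h2 _ hy))

theorem Hp.ext (H : Hp Q W W' D) {e g : V} (he : e ∈ D) (hg : g ∈ D) (h : IsHyp Q e g) :
    Hp Q (W ⊔ F ∙ e) (W' ⊔ F ∙ g) (perp Q (W ⊔ (F ∙ e) ⊔ (W' ⊔ F ∙ g))) := by
  refine ⟨H.nd, H.ts.sup_span (H.le_perp he) h.left, H.ts'.sup_span (H.symm.le_perp hg) h.right,
    isOSum_perp (nd_restrict_iff.2 fun x hx h0 => ?_)⟩
  rw [sup_sup_sup_comm] at hx h0
  obtain ⟨a, ha, b, hb, rfl⟩ := Submodule.mem_sup.1 hx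
  rw [← Submodule.span_union, Set.singleton_union] at hb h0
  have hb' : b ∈ D := Submodule.span_le.2 (by rintro _ (rfl | rfl) <;> assumption) hb
  rw [nd_restrict_iff.1 (H.os.nd_left H.nd) a ha fun y hy => by
    simpa [H.os.symm.orth b hb' y hy] using h0 y (Submodule.mem_sup_left hy),
    nd_restrict_iff.1 h.nd_span b hb fun y hy => by
      simpa [H.os.orth a ha y (Submodule.span_le.2 (by rintro _ (rfl | rfl) <;> assumption) hy)]
        using h0 y (Submodule.mem_sup_right hy), add_zero]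

variable [Finite F]

theorem refl_of_comm (hQ : ND Q) (h2 : (2 : F) = 0) {g : O Q} (h : O.comm g ≤ L)
    (hL : finrank F L ≤ 2) (hd : dickson hQ g = -1) : ∃ b ∈ L, Q b = 1 ∧ g = refl Q b := by
  have := Submodule.finrank_mono h
  have h3 : ¬ Even (finrank F (O.comm g)) := fun e => by
    simp [(dickson_eq_one_iff hQ).2 e] at hd
  obtain ⟨v, hv, rfl⟩ := exists_eq_refl_of_finrank_comm hQ (g := g) (by
    rw [Nat.even_iff] at h3; omega)
  obtain ⟨s, hs⟩ := isSquare_of_two_eq_zero h2 (Q v)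
  have h0 : s ≠ 0 := fun e => hv (by simp [hs, e])
  exact ⟨s⁻¹ • v, L.smul_mem _ (h (comm_refl hQ hv ▸ Submodule.mem_span_singleton_self v)),
    by rw [Q_smul, hs]; field_simp, (refl_smul (inv_ne_zero h0) v).symm⟩

theorem exists_perp_one (hQ : ND Q) (h2 : (2 : F) = 0) (hn : 3 ≤ finrank F V) {a b : V}
    (h : polar Q a b ≠ 0) : ∃ z, Q z = 1 ∧ polar Q a z = 0 ∧ polar Q b z = 0 := by
  have nd : ND (Q.restrict (Submodule.span F {a, b})) := nd_restrict_iff.2 fun x hx h0 => by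
    obtain ⟨s, t, rfl⟩ := Submodule.mem_span_pair.1 hx
    have e1 := h0 a (Submodule.subset_span (by simp))
    have e2 := h0 b (Submodule.subset_span (by simp))
    simp_all [polar_comm Q b a]
  have h1 := finrank_add_finrank_perp hQ (Submodule.span F {a, b})
  have h3 := finrank_span_eq_card (li_of_polar h2 h)
  rw [range_cons_cons_empty, Fintype.card_fin] at h3
  have : Nontrivial (perp Q (Submodule.span F {a, b})) :=
    Module.nontrivial_of_finrank_pos (R := F) (by omega)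
  obtain ⟨⟨v, v1⟩, hv : Q v ≠ 0⟩ := (nd_restrict_perp hQ nd).exists_Q_ne
  obtain ⟨s, hs⟩ := isSquare_of_two_eq_zero h2 (Q v)
  have h0 : s ≠ 0 := fun e => hv (by simp [hs, e])
  exact ⟨s⁻¹ • v, by rw [Q_smul, hs]; field_simp, by simp [mem_perp_pair.1 v1]⟩

theorem Hp.exists_lv (H : Hp Q W W' D) {m : ℕ} (hm : finrank F W = m) :
    ∃ (e f : Fin m → V) (L : _) (s : _), Lv H.nd e f D L s ∧ sp F e = W ∧ sp F f = W' := by
  obtain ⟨e, f, h, he, hf⟩ := H.exists_fam hm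
  obtain ⟨L, s, h1⟩ := OreC.exists_lv H.nd h
  exact ⟨e, f, L, s, by rwa [he, hf, H.os.perp_left H.nd] at h1, he, hf⟩

theorem Hp.rad_dickson (H : Hp Q W W' D) (hW : Dm F W) (hE : ¬ Exc Q) :
    (∀ q ∈ radO Q H.ts, dickson H.nd q = 1) ∧ ∀ q ∈ radO Q H.ts', dickson H.nd q = 1 := by
  obtain ⟨x, hx⟩ := sd_two.exists_gx hW.1 hW.2
  obtain ⟨e, f, L, s, h, he, hf⟩ := H.exists_lv rfl
  have := h.gd (one_mem _) hx (by simp)
  rw [he, hf] at this
  exact ⟨fun q hq => ((mem_commutator_iff _ hE _).1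
    (mem_commutator_of_rad rhoO_injective this.1 hq)).1, fun q hq => ((mem_commutator_iff _ hE _).1
    (mem_commutator_of_rad rhoO_injective this.2 hq)).1⟩

theorem mem_comm_two (hQ : ND Q) (hE : ¬ Exc Q) (h2 : (2 : F) = 0) {g : O Q} :
    g ∈ commutator (O Q) ↔ dickson hQ g = 1 := by
  rw [commutator_eq_ker_dickson hQ hE h2, MonoidHom.mem_ker]

variable (H : Hp Q W W' D) (hE : ¬ Exc Q) (h2 : (2 : F) = 0) {q' q : O Q}
  (hq' : q' ∈ radO Q H.ts') (hq : q ∈ radO Q H.ts)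
include hE h2 hq' hq

theorem Hp.icg_inv (hW : Dm F W) {t g c : O Q} (ht : t ∈ fixer Q (W ⊔ W'))
    (hg : g ∈ fixer Q (W ⊔ W')) (hc : c ∈ fixer Q (W ⊔ W')) (h1 : t * t = 1)
    (h3 : dickson H.nd t = 1) (h4 : Commute c t) (h5 : dickson H.nd (g * c) = 1) :
    ICG (q' * (t * (g * t * g⁻¹)⁻¹) * q) := by
  obtain ⟨m, hm⟩ : ∃ m, finrank F W = m := ⟨_, rfl⟩
  obtain ⟨x, hx⟩ := sd_two.exists_gx (m := m) (hm ▸ hW.1) (hm ▸ hW.2)
  obtain ⟨e, f, L, s, h, rfl, rfl⟩ := H.exists_lv hm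
  simpa using h.icg hq' hq ht hg hx hx (.inl (.refl x)) (by
    rw [map_sub, map_pow, aeval_X, ← map_pow, pow_two, h1]; simp)
    ((mem_comm_two H.nd hE h2).2 (by simp [h3, h.dk])) fun G G1 G2 => ⟨c * G⁻¹, by
      rintro _ rfl
      exact ((h4.mul_right (h.commute_of_fix (h.hD x) hc).symm).mul_left
        ((h.commute_of_fix G1 ht).mul_right (mul_inv_eq_iff_eq_mul.1 G2)).inv_left).symm,
      (mem_comm_two H.nd hE h2).2 (by simpa [mul_assoc, mul_left_comm] using h5)⟩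

theorem Hp.icg_one (hW : Dm F W) : ICG (q' * q) := by
  simpa using H.icg_inv hE h2 hq' hq hW (one_mem _) (one_mem _) (one_mem _) (mul_one 1) (map_one _)
    (.refl 1) (by simp)

theorem Hp.icg_c2 (hW : Dm F W) {s t : O Q} (hs : C2 Q D s) (ht : C2 Q D t) :
    ICG (q' * (s * t) * q) := by
  obtain ⟨a, ha, b, hb, a1, b1, hab, hn, rfl⟩ := hs
  obtain ⟨a', ha', b', hb', a1', b1', hab', hn', rfl⟩ := ht
  obtain ⟨g, hg⟩ := witt_family (H.os.nd_right H.nd) (v := ![⟨a, ha⟩, ⟨b, hb⟩])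
    (v' := ![⟨b', hb'⟩, ⟨a', ha'⟩]) (li_of_ne (Q := Q.restrict D) h2 a1 b1 (by simpa))
    (li_of_ne (Q := Q.restrict D) h2 b1' a1' (by simpa using hn'.symm)) (by simp [a1, b1, a1', b1'])
    (by simp [hab, hab', polar_comm Q b, polar_comm Q b'])
  have g1 : (H.os.extR g).1 a = b' := (H.os.extR_right g ⟨a, ha⟩).trans (congrArg _ (hg 0))
  have g2 : (H.os.extR g).1 b = a' := (H.os.extR_right g ⟨b, hb⟩).trans (congrArg _ (hg 1))
  have c : Commute (refl Q a) (refl Q b) := refl_comm_of_perp hab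
  have d : ∀ {v}, Q v = 1 → dickson H.nd (refl Q v) = -1 := fun h => dickson_refl _ (by simp [h])
  have := fun c => H.icg_inv hE h2 hq' hq hW (c := c) (mul_mem (H.refl_mem ha) (H.refl_mem hb))
    (extR_mem H.os g)
  rw [← conj_mul, conj_refl, conj_refl, g1, g2, _root_.mul_inv_rev, refl_inv, refl_inv] at this
  have h1 : refl Q a * refl Q b * (refl Q a * refl Q b) = 1 := by
    rw [c.symm.mul_mul_mul_comm, refl_mul_self, refl_mul_self, mul_one]
  rcases Int.units_eq_one_or (dickson H.nd (H.os.extR g)) with h | h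
  · exact this 1 (one_mem _) h1 (by simp [d a1, d b1]) (.one_left _) (by simpa)
  · exact this _ (H.refl_mem ha) h1 (by simp [d a1, d b1]) ((Commute.refl _).mul_right c)
      (by simp [h, d a1])

theorem Hp.icg_rr (hW : Dm F W) (hD : 3 ≤ finrank F D) {a b : V} (ha : a ∈ D) (hb : b ∈ D)
    (a1 : Q a = 1) (b1 : Q b = 1) (h : polar Q a b ≠ 0) : ICG (q' * (refl Q a * refl Q b) * q) := by
  obtain ⟨⟨z, hz⟩, z1, z2, z3⟩ := exists_perp_one (H.os.nd_right H.nd) h2 hD (a := ⟨a, ha⟩)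
    (b := ⟨b, hb⟩) h
  have := H.icg_c2 hE h2 hq' hq hW ⟨a, ha, z, hz, a1, z1, z2, fun e => h (by
    rw [e, polar_comm]; exact z3), rfl⟩ ⟨z, hz, b, hb, z1, b1, polar_comm Q b z ▸ z3,
    fun e => h (e ▸ z2), rfl⟩
  rwa [mul_assoc (refl Q a), ← mul_assoc (refl Q z), refl_mul_self, one_mul] at this

theorem Hp.icg_c2' (hW : Dm F W) (h4 : 4 ≤ Nat.card F) {s t : O Q} (hs : s = 1 ∨ C2 Q D s)
    (ht : t = 1 ∨ C2 Q D t) : ICG (q' * (s * t) * q) := by
  have k : ∀ t, C2 Q D t → ICG (q' * t * q) := fun t ht =>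
    let ⟨_, _, a, b, e⟩ := ht.split h2 h4; e ▸ H.icg_c2 hE h2 hq' hq hW a b
  rcases hs with rfl | hs <;> rcases ht with rfl | ht
  · simpa using H.icg_one hE h2 hq' hq hW
  · simpa using k t ht
  · simpa using k s hs
  · exact H.icg_c2 hE h2 hq' hq hW hs ht

omit hE h2 hq' hq

theorem Hp.plane (hF : Nat.card F = 2) (hD : finrank F D = 2) {ρ : O Q}
    (hρ : ρ ∈ fixer Q (W ⊔ W')) (h : dickson H.nd ρ = 1) {d : V} (hd : d ∈ D) (d0 : Q d ≠ 0) :
    refl Q d * ρ * (refl Q d)⁻¹ = ρ⁻¹ ∧ ρ ^ 3 = 1 ∧ ((∃ v ∈ D, v ≠ 0 ∧ Q v = 0) → ρ = 1) := by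
  have h2 := two_eq_zero_of_card hF
  have d1 := (eq_zero_or_one hF _).resolve_left d0
  obtain ⟨b, hb, b1, e⟩ := refl_of_comm H.nd h2 (H.os.perp_left H.nd ▸ comm_le_of_fix H.nd
    (mul_mem (H.refl_mem hd) hρ)) hD.le (by simp [h, dickson_refl _ d0])
  obtain rfl : ρ = refl Q d * refl Q b := by rw [← e, ← mul_assoc, refl_mul_self, one_mul]
  refine ⟨by rw [← mul_assoc, refl_mul_self, one_mul, _root_.mul_inv_rev, refl_inv b], ?_⟩
  rcases eq_zero_or_one hF (polar Q d b) with h3 | h3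
  · have h4 : d ∉ W ⊔ W' := fun e => ne_zero_of_Q_ne_zero d0
      (Submodule.disjoint_def.1 H.os.isCompl.disjoint d e hd)
    have h5 := finrank_add_finrank_perp H.nd (W ⊔ W' ⊔ F ∙ d)
    have := H.os.finrank_add
    rw [finrank_sup_span_singleton' h4] at h5
    rw [eq_one_of_comm H.nd (comm_le_of_fix H.nd (W := W ⊔ W' ⊔ F ∙ d) fun x hx => ?_) (by omega) h]
    · simp
    obtain ⟨x, hx', _, hy, rfl⟩ := Submodule.mem_sup.1 hx
    obtain ⟨c, rfl⟩ := Submodule.mem_span_singleton.1 hy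
    rw [map_add, hρ x hx', map_smul, O.mul_apply, refl_apply_of_perp ((polar_comm Q b d).trans h3),
      refl_apply_of_perp (polar_self_of_two h2 d)]
  refine ⟨?_, fun ⟨v, hv, v0, v1⟩ => (v0 ?_).elim⟩
  · have e1 := conj_refl (refl Q d) b
    have e2 := conj_refl (refl Q b) d
    rw [refl_apply, refl_inv] at e1 e2
    simp only [d1, b1, h3, polar_comm Q b d, inv_one, one_mul, one_smul] at e1 e2
    calc _ = refl Q d * refl Q b * refl Q d * (refl Q b * refl Q d * refl Q b) := by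
          simp [pow_succ, mul_assoc]
      _ = 1 := by rw [e1, e2, ← neg_sub, refl_neg, refl_mul_self]
  have h4 := finrank_span_eq_card (li_of_polar h2 (h3 ▸ one_ne_zero : polar Q d b ≠ 0))
  rw [range_cons_cons_empty, Fintype.card_fin] at h4
  rw [← Submodule.eq_of_le_of_finrank_eq (Submodule.span_le.2 (by
    rintro _ (rfl | rfl) <;> assumption)) (h4.trans hD.symm)] at hv
  obtain ⟨s, t, rfl⟩ := Submodule.mem_span_pair.1 hv
  rcases eq_zero_or_one hF s with rfl | rfl <;> rcases eq_zero_or_one hF t with rfl | rfl <;>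
    simp_all [Q_add, one_add_one_eq_two]

theorem Lv.swap {hQ : ND Q} {m : ℕ} {e f : Fin m → V} {L : GL (Fin m) F →* O Q} {s : O Q}
    (H : Lv hQ e f D L s) {x y : GL (Fin m) F} {M N : F[X]} (c : IsCoprime M N)
    (hx : aeval x.1 M = 0) (hy : aeval y.1 N = 0) {G : O Q} (h1 : ∀ d ∈ D, G.1 d = d)
    (h2 : G * L x * G⁻¹ = L y) : ∀ w ∈ OreC.sp F e, G.1 w ∈ OreC.sp F f := fun w hw => by
  have k : ∀ {x : GL (Fin m) F} {M : F[X]}, aeval x.1 M = 0 → ∀ w ∈ OreC.sp F e,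
      aeval (rhoO Q (L x)) M w = 0 := fun {x M} hx w hw => by
    obtain ⟨c, rfl⟩ := (Submodule.mem_span_range_iff_exists_fun F).1 hw
    simpa [hx] using H.aeval_eq x (one_mem _) M c
  obtain ⟨a, ha, b, hb, h3⟩ := Submodule.mem_sup.1 (H.hp.os.perp_right hQ ▸ O.mapsTo_perp
    (fun d hd => (h1 d hd).symm ▸ hd) w (H.hp.os.perp_right hQ ▸ Submodule.mem_sup_left hw))
  have h4 := Ore.aeval_intertwine (a := rhoO Q (L y)) (b := rhoO Q (L x)) (ι := rhoO Q G)
    (fun u => by simp [← h2]) M w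
  rw [k hx w hw, map_zero, rhoO_apply, ← h3, map_add, add_eq_zero_iff_eq_neg] at h4
  have h5 : aeval (rhoO Q (L y)) M a = 0 := H.hp.disj (aeval_mem (H.he' y) M ha)
    (h4 ▸ neg_mem (aeval_mem (H.hf y) M hb))
  obtain ⟨u, v, h6⟩ := c
  have := congrArg (aeval (rhoO Q (L y)) · a) h6
  simp only [map_add, map_mul, LinearMap.add_apply, End.mul_apply, h5, k hy a ha, map_zero,
    add_zero, map_one, End.one_apply] at this
  rwa [← h3, ← this, zero_add]

theorem Hp.icg_tv (hF : Nat.card F = 2) (hD : finrank F D = 2) (hW : 3 ≤ finrank F W) {S : O Q}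
    (hS : dickson H.nd S = 1) {a : V} (ha : a ∈ W) (ψ : V →ₗ[F] F) (h0 : ψ a = 0)
    (h : ∀ w ∈ W, ∀ w' ∈ W', polar Q w' (S.1 w) = polar Q w' w + ψ w * polar Q w' a)
    (h1 : (Odd (finrank F W) ∧ a ≠ 0 ∧ ∃ w ∈ W, ψ w ≠ 0) ∨ ∃ d ∈ D, d ≠ 0 ∧ Q d = 0) : ICG S := by
  have h2 := two_eq_zero_of_card hF
  have hE : ¬ Exc Q := not_exc_of_five_le (by have := H.finrank_D; omega)
  have dm : Dm F W := ⟨by omega, by omega⟩
  obtain ⟨m, hm⟩ : ∃ m, finrank F W = m := ⟨_, rfl⟩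
  obtain ⟨e, f, L, s, T, rfl, rfl⟩ := H.exists_lv hm
  obtain ⟨c, rfl⟩ := (Submodule.mem_span_range_iff_exists_fun F).1 ha
  have h3 : vecMulVec c (ψ ∘ e) * vecMulVec c (ψ ∘ e) = 0 := by
    rw [vecMulVec_mul_vecMulVec, show (ψ ∘ e) ⬝ᵥ c = 0 by simpa [dotProduct, mul_comm] using h0]; simp
  obtain ⟨l, hl⟩ : ∃ l : GL (Fin m) F, l.1 = 1 + vecMulVec c (ψ ∘ e) :=
    ⟨⟨_, 1 - vecMulVec c (ψ ∘ e), by simp [mul_sub, add_mul, h3], by simp [mul_add, sub_mul, h3]⟩, rfl⟩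
  obtain ⟨q', hq', ρ, hρ, q, hq, rfl⟩ := T.bigcell (S := S) (l := l) fun i j => by
    rw [h _ (Submodule.subset_span ⟨j, rfl⟩) _ (Submodule.subset_span ⟨i, rfl⟩)]
    simp [hl, polar_sum_right, T.fam.rl, one_apply, vecMulVec_apply, mul_comm]
  have h4 : dickson H.nd ρ = 1 := by
    simpa [(H.rad_dickson dm hE).1 q hq, (H.rad_dickson dm hE).2 q' hq', T.dk] using hS
  have : Nontrivial D := Module.nontrivial_of_finrank_pos (R := F) (by omega)
  obtain ⟨⟨d, hd⟩, d0 : Q d ≠ 0⟩ := (H.os.nd_right H.nd).exists_Q_ne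
  obtain ⟨p1, p2, p3⟩ := H.plane hF hD hρ h4 hd d0
  by_cases h5 : l = 1
  · rcases h1 with ⟨-, h6, w, hw, h7⟩ | h1
    · obtain ⟨c', rfl⟩ := (Submodule.mem_span_range_iff_exists_fun F).1 hw
      rcases vecMulVec_eq_zero.1 (left_eq_add.1 ((congrArg Units.val h5).symm.trans hl)) with h | h
      · simp [h] at h6
      · simp [show ∀ i, ψ (e i) = 0 from congrFun h] at h7
    · simpa [h5, p3 h1] using H.icg_one hE h2 hq' hq dm
  obtain ⟨x, y, rfl, x1, y1, x2, M, N, c1, c2, c3⟩ := ft_of_vec hF (hm ▸ hW) (sd_three hF) hl h5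
  rcases h1 with ⟨h1, -⟩ | h1
  · have := T.icg hq' hq (inv_mem hρ) (H.refl_mem hd) x1 y1 x2 (by
      rw [map_sub, map_pow, aeval_X, ← map_pow, inv_pow, p2]; simp)
      ((mem_comm_two H.nd hE h2).2 (by simp [h4, T.dk])) fun G G1 G2 => ⟨1, one_mem _,
        (mem_comm_two H.nd hE h2).2 (by
          simp [H.dickson_swap G1 (T.swap c1 c2 c3 G1 G2), h1.neg_one_pow, dickson_refl _ d0])⟩
    rwa [← conj_inv, inv_inv, p1, ← _root_.mul_inv_rev, ← eq_inv_of_mul_eq_one_left (a := ρ) (by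
      rw [← p2, pow_three])] at this
  · simpa [p3 h1] using T.icg hq' hq (one_mem _) (one_mem _) x1 y1 x2 (by simp)
      ((mem_comm_two H.nd hE h2).2 (by simp [T.dk])) fun G _ _ => exists_mul_mem_commutator H.nd hE
        ⟨_, refl_mem_centralizer (.inl (by simp [T.hD x d hd])), dickson_refl _ d0⟩
        (absurd h2 ·) _

end Cfsg.Lib.OreC
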