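import Cfsg.Agent.Lib.OreC.Ev1

/-! Ore's conjecture for orthogonal groups in characteristic two. -/

namespace Cfsg.Lib.OreC

open Module Polynomial QuadraticMap Cfsg.Lib.Orth

variable {F V : Type*} [Field F] [AddCommGroup V] [Module F V] {Q : QuadraticForm F V}
  {W W' D L L' : Submodule F V} {u u' : V} {c a : O Q}

theorem Lg.exists_sq [Finite F] [FiniteDimensional F V] (hQ : ND Q) (h2 : (2 : F) = 0)
    (T : Lg (polarBilin Q) W W') : ∃ u ∈ W', ∀ w ∈ W, Q w = polar Q u w ^ 2 := by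
  let p := W.projection _ T.compl
  obtain ⟨l, hl⟩ := exists_dual_sq h2 (φ := fun v => Q (p v)) (fun u v => by
    rw [map_add, Q_add, show polar Q (p u) (p v) = 0 from T.ti _ (Submodule.projection_apply_mem _ _)
      _ (Submodule.projection_apply_mem _ _), add_zero]) fun a v => by rw [map_smul, Q_smul]
  obtain ⟨u, hu⟩ := exists_polar_eq_dual hQ l
  refine ⟨u, T.symm.mem fun w hw => ?_, fun w hw => ?_⟩
  · have := hl w
    rw [show p w = 0 from Submodule.projection_apply_right _ ⟨w, hw⟩, map_zero, hu] at this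
    exact (polar_comm Q w u).trans (pow_eq_zero_iff two_ne_zero |>.1 this.symm)
  · rw [← hu, ← hl, show p w = w from Submodule.projection_apply_of_mem_left _ hw]

variable (W W' u u' c a) in
/-- factorisation attached to a pair of Lagrangians of the polar form -/
structure LPd : Prop where
  nd : ND Q
  lg : Lg (polarBilin Q) W W'
  hu : u ∈ W'
  hu' : u' ∈ W
  q : ∀ w ∈ W, Q w = polar Q u w ^ 2
  q' : ∀ w ∈ W', Q w = polar Q u' w ^ 2
  hc : c ∈ fixer Q W'
  ha : a ∈ fixer Q W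

theorem exists_lpd [Finite F] [FiniteDimensional F V] (hQ : ND Q) (h2 : (2 : F) = 0) (f : O Q) :
    ∃ (W W' : Submodule F V) (u u' : V) (c a : O Q), LPd W W' u u' c a ∧ f = c * a := by
  have hf : Symp.SpE (polarBilin Q) (rhoO Q f) := ⟨isAlt_polar h2 Q, hQ, O.map_polar f⟩
  obtain ⟨W, W', a1, a2, a3, a4⟩ := (lp_or hf).resolve_right fun h => h.1 h2
  have T : Lg (polarBilin Q) W W' := ⟨hf.alt, hQ, a1, a2, a3⟩
  obtain ⟨u, u1, u2⟩ := T.exists_sq hQ h2
  obtain ⟨u', u3, u4⟩ := T.symm.exists_sq hQ h2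
  obtain ⟨q, q1, q2, q3⟩ := T.exists_rad hf a4
  refine ⟨W, W', u, u', O.ofLinear hQ q fun v => ?_, _, ⟨hQ, T, u1, u3, u2, u4, q3, fun w hw => ?_⟩,
    (mul_inv_cancel_left _ f).symm⟩
  · obtain ⟨x, hx, y, hy, rfl⟩ := T.dec v
    rw [map_add, Q_add, Q_add, show polar Q (q x) (q y) = polar Q x y from q1.inv x y, q2 x hx,
      q3 y hy, rhoO_apply, O.map_Q]
  · rw [O.mul_apply, O.inv_apply_eq]; exact (q2 w hw).symm

variable (Q W W' u u' L L') in
/-- a perfectly paired pair of subspaces -/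
structure Pr : Prop where
  le : L ≤ W
  le' : L' ≤ W'
  mem : u' ∈ L
  mem' : u ∈ L'
  nd : ND (Q.restrict (L ⊔ L'))

theorem Pr.symm (h : Pr Q W W' L L' u u') : Pr Q W' W L' L u' u :=
  ⟨h.le', h.le, h.mem', h.mem, sup_comm L L' ▸ h.nd⟩

theorem c2_of_comm [Finite F] [FiniteDimensional F V] (hQ : ND Q) (h2 : (2 : F) = 0) {g : O Q}
    (h : O.comm g ≤ L) (hL : finrank F L ≤ 2) (hd : dickson hQ g = 1) (h1 : L ≤ D)
    (h3 : ∀ x ∈ L, ∀ y ∈ L, polar Q x y = 0) {b : V} (hb : b ∈ L) (b1 : Q b = 1) :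
    g = 1 ∨ C2 Q D g := by
  have b0 : Q b ≠ 0 := b1 ▸ one_ne_zero
  obtain ⟨d, d1, d2, e⟩ := refl_of_comm hQ h2 (comm_mul_le (g := refl Q b) (by
    rwa [comm_refl hQ b0, Submodule.span_singleton_le_iff_mem]) h) hL (by simp [hd, dickson_refl _ b0])
  obtain rfl : g = refl Q b * refl Q d := by rw [← e, ← mul_assoc, refl_mul_self, one_mul]
  exact (eq_or_ne b d).imp (fun e => by rw [← e, refl_mul_self]) fun e =>
    ⟨b, h1 hb, d, h1 d1, b1, d2, h3 b hb d d1, e, rfl⟩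

theorem exists_mem_perp [FiniteDimensional F V] (h : 2 ≤ finrank F W) (y : V) :
    ∃ e ∈ W, e ≠ 0 ∧ polar Q y e = 0 := by
  obtain ⟨⟨e, he⟩, h1, h3⟩ := (Submodule.ne_bot_iff _).1 (LinearMap.ker_ne_bot_of_finrank_lt
    (f := (polarBilin Q y).domRestrict W) (by simpa))
  exact ⟨e, he, by simpa using h3, h1⟩

namespace LPd

variable (P : LPd W W' u u' c a)
include P

theorem symm : LPd W' W u' u a⁻¹ c⁻¹ :=
  ⟨P.nd, P.lg.symm, P.hu', P.hu, P.q', P.q, inv_mem P.ha, inv_mem P.hc⟩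

theorem ww {x y : V} (hx : x ∈ W) (hy : y ∈ W) : polar Q x y = 0 := P.lg.ti x hx y hy

theorem disj {x : V} (hx : x ∈ W) (hy : x ∈ W') : x = 0 :=
  Submodule.disjoint_def.1 P.lg.compl.disjoint x hx hy

theorem sub_mem (v : V) : c.1 v - v ∈ W' := P.lg.symm.mem fun w hw => by
  rw [map_sub, sub_eq_zero]; nth_rw 1 [← P.hc w hw]; exact O.map_polar c w v

theorem nd_of (h1 : L ≤ W) (h2 : L' ≤ W') (h3 : ∀ x ∈ L, (∀ y ∈ L', polar Q x y = 0) → x = 0)
    (h4 : ∀ y ∈ L', (∀ x ∈ L, polar Q x y = 0) → y = 0) : ND (Q.restrict (L ⊔ L')) :=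
  nd_restrict_iff.2 fun v hv h => by
    obtain ⟨x, hx, y, hy, rfl⟩ := Submodule.mem_sup.1 hv
    rw [h3 x hx fun z hz => by
      simpa [P.symm.ww (h2 hy) (h2 hz)] using h z (Submodule.mem_sup_right hz),
      h4 y hy fun z hz => by
      simpa [P.ww (h1 hx) (h1 hz), polar_comm Q y] using h z (Submodule.mem_sup_left hz), add_zero]

theorem pr_line {e e' : V} (he : e ∈ W) (he' : e' ∈ W') (h : polar Q e e' ≠ 0) (h1 : u' ∈ F ∙ e)
    (h3 : u ∈ F ∙ e') : Pr Q W W' (F ∙ e) (F ∙ e') u u' :=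
  have k1 := (Submodule.span_singleton_le_iff_mem e W).2 he
  have k2 := (Submodule.span_singleton_le_iff_mem e' W').2 he'
  ⟨k1, k2, h1, h3, P.nd_of k1 k2 (fun x hx h0 => by
    obtain ⟨s, rfl⟩ := Submodule.mem_span_singleton.1 hx
    simpa [h] using Or.inl (b := e = 0) (by
      simpa [h] using h0 e' (Submodule.mem_span_singleton_self _))) fun x hx h0 => by
    obtain ⟨s, rfl⟩ := Submodule.mem_span_singleton.1 hx
    simpa [h] using Or.inl (b := e' = 0) (by
      simpa [h] using h0 e (Submodule.mem_span_singleton_self _))⟩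

theorem gram {e e' : V} (he : e ∈ W) (he' : e' ∈ W')
    (h : polar Q u' u * polar Q e e' ≠ polar Q u' e' * polar Q e u) :
    Pr Q W W' (.span F {u', e}) (.span F {u, e'}) u u' ∧
      finrank F (Submodule.span F {u', e}) = 2 ∧ finrank F (Submodule.span F {u, e'}) = 2 := by
  have k : ∀ {a b c d : V}, polar Q a c * polar Q b d ≠ polar Q a d * polar Q b c →
      (∀ x ∈ Submodule.span F {a, b}, (∀ y ∈ Submodule.span F {c, d}, polar Q x y = 0) → x = 0) ∧
      finrank F (Submodule.span F {a, b}) = 2 := fun {a b c d} h => by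
    have k : ∀ s t : F, polar Q (s • a + t • b) c = 0 → polar Q (s • a + t • b) d = 0 →
        s = 0 ∧ t = 0 := fun s t h1 h2 => by
      simp only [polar_add_left, polar_smul_left'] at h1 h2
      exact ⟨mul_right_cancel₀ (sub_ne_zero.2 h) (by
        linear_combination polar Q b d * h1 - polar Q b c * h2), mul_right_cancel₀ (sub_ne_zero.2 h) (by
        linear_combination polar Q a c * h2 - polar Q a d * h1)⟩
    refine ⟨fun x hx h0 => ?_, ?_⟩
    · obtain ⟨s, t, rfl⟩ := Submodule.mem_span_pair.1 hx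
      simp [k s t (h0 c (Submodule.subset_span (by simp))) (h0 d (Submodule.subset_span (by simp)))]
    · have := finrank_span_eq_card (LinearIndependent.pair_iff (x := a) (y := b).2 fun s t e =>
        k s t (by simp [e]) (by simp [e]))
      rwa [Matrix.range_cons_cons_empty] at this
  have k1 : Submodule.span F {u', e} ≤ W := Submodule.span_le.2 (by
    rintro _ (rfl | rfl); exacts [P.hu', he])
  have k2 : Submodule.span F {u, e'} ≤ W' := Submodule.span_le.2 (by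
    rintro _ (rfl | rfl); exacts [P.hu, he'])
  have k3 := k (a := u) (b := e') (c := u') (d := e) (by
    rwa [polar_comm Q u, polar_comm Q e', polar_comm Q u, polar_comm Q e', mul_comm (polar Q e u)])
  exact ⟨⟨k1, k2, Submodule.subset_span (by simp), Submodule.subset_span (by simp), P.nd_of k1 k2
    (k h).1 fun y hy h0 => k3.1 y hy fun x hx => polar_comm Q x y ▸ h0 x hx⟩, (k h).2, k3.2⟩

variable [FiniteDimensional F V]

theorem exists_polar {x : V} (hx : x ∈ W) {U : Submodule F V} (h : U ≤ W) (h0 : x ∉ U) :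
    ∃ y ∈ W', y ∈ perp Q U ∧ polar Q x y = 1 := by
  obtain ⟨z, z1, z2⟩ := exists_perp_polar_eq P.nd h0 1
  obtain ⟨s, hs, t, ht, rfl⟩ := P.lg.dec z
  exact ⟨t, ht, mem_perp.2 fun w hw => by simpa [P.ww (h hw) hs] using mem_perp.1 z1 w hw,
    by simpa [P.ww hx hs] using z2⟩

theorem hp (R : Pr Q W W' L L' u u') : Hp Q (W ⊓ perp Q L') (W' ⊓ perp Q L) (L ⊔ L') := by
  refine ⟨P.nd, fun w hw => by simp [P.q w hw.1, mem_perp.1 hw.2 u R.mem'],
    fun w hw => by simp [P.q' w hw.1, mem_perp.1 hw.2 u' R.mem], ?_⟩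
  convert (isOSum_perp R.nd).symm
  rw [perp_sup]
  refine le_antisymm (sup_le (fun w hw => ⟨mem_perp.2 fun x hx => P.ww (R.le hx) hw.1, hw.2⟩)
    fun w hw => ⟨hw.2, mem_perp.2 fun x hx => P.symm.ww (R.le' hx) hw.1⟩) fun v hv => ?_
  obtain ⟨x, hx, y, hy, rfl⟩ := P.lg.dec v
  exact Submodule.add_mem_sup ⟨hx, mem_perp.2 fun z hz => by
    simpa [P.symm.ww (R.le' hz) hy] using mem_perp.1 hv.2 z hz⟩ ⟨hy, mem_perp.2 fun z hz => by
    simpa [P.ww (R.le hz) hx] using mem_perp.1 hv.1 z hz⟩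

theorem half (R : Pr Q W W' L L' u u') : ∃ q ∈ radO Q (P.hp R).ts, ∃ ρ, a⁻¹ = q * ρ ∧
    O.comm ρ ≤ L ∧ O.comm ρ⁻¹ ≤ L ∧ ∀ d ∈ L ⊔ L', (a⁻¹).1 d - ρ.1 d ∈ perp Q L' := by
  have H := P.hp R
  obtain ⟨ρ, h1, h2, h3⟩ := H.split (g := a⁻¹) fun w hw => inv_mem P.ha w hw.1
  have h4 : ρ ∈ fixer Q (W ⊓ perp Q L' ⊔ W' ⊓ perp Q L ⊔ L) := fun x hx => by
    obtain ⟨x, hx', y, hy, rfl⟩ := Submodule.mem_sup.1 hx
    have := h3 y (Submodule.mem_sup_left hy)
    rw [inv_mem P.ha y (R.le hy)] at this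
    rw [map_add, h1 x hx', ← H.eq_of_sub (Submodule.mem_sup_left hy)
      (H.fix_D h1 (Submodule.mem_sup_left hy)) (Submodule.mem_sup_left this)]
  have h5 : perp Q (W ⊓ perp Q L' ⊔ W' ⊓ perp Q L ⊔ L) ≤ L := fun v hv => by
    rw [perp_sup, H.os.perp_left P.nd] at hv
    obtain ⟨x, hx, y, hy, rfl⟩ := Submodule.mem_sup.1 hv.1
    rwa [nd_restrict_iff.1 R.nd y (Submodule.mem_sup_right hy) fun z hz => ?_, add_zero]
    obtain ⟨s, hs, t, ht, rfl⟩ := Submodule.mem_sup.1 hz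
    simpa [P.symm.ww (R.le' hy) (R.le' ht), P.ww (R.le hs) (R.le hx), polar_comm Q y s] using
      mem_perp.1 hv.2 s hs
  exact ⟨_, h2, ρ, (inv_mul_cancel_right _ _).symm, (comm_le_of_fix P.nd h4).trans h5,
    (comm_le_of_fix P.nd (inv_mem h4)).trans h5, fun d hd => (h3 d hd).2⟩

variable [Finite F] (h2 : (2 : F) = 0) (hn : 8 ≤ finrank F V) (hf : dickson P.nd (c * a) = 1)
include h2 hn hf

omit h2 in
theorem dec (R : Pr Q W W' L L' u u') (hW : Dm F (W ⊓ perp Q L')) :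
    ∃ q' ∈ radO Q (P.hp R).ts', ∃ q ∈ radO Q (P.hp R).ts, ∃ ρ' ρ, c * a = q' * (ρ' * ρ) * q ∧
      O.comm ρ ≤ L ∧ O.comm ρ' ≤ L' ∧ dickson P.nd ρ = dickson P.nd a ∧
      dickson P.nd ρ' = dickson P.nd a ∧ ∀ d ∈ L, c.1 d - ρ'.1 d ∈ perp Q L := by
  obtain ⟨q, hq, ρ, h1, -, h3, -⟩ := P.half R
  obtain ⟨q', hq', ρ', h4, h5, -, h6⟩ := P.symm.half R.symm
  obtain ⟨k1, k2⟩ := (P.hp R).rad_dickson hW (not_exc_of_five_le (by omega))
  rw [inv_inv] at h4 h6
  rw [inv_eq_iff_eq_inv] at h1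
  refine ⟨q', hq', q⁻¹, inv_mem hq, ρ', ρ⁻¹, by rw [h1, h4]; group, h3, h5, by simp [h1, k1 q hq], ?_,
    fun d hd => h6 d (Submodule.mem_sup_right hd)⟩
  have := congrArg (dickson P.nd) h4
  rw [map_mul, this, map_mul, k2 q' hq', one_mul] at hf
  rw [eq_inv_of_mul_eq_one_left hf, Int.units_inv_eq_self]

theorem icg_line {e e' : V} (he : e ∈ W) (he' : e' ∈ W') (h : polar Q e e' ≠ 0) (h1 : u' ∈ F ∙ e)
    (h3 : u ∈ F ∙ e') (h4 : dickson P.nd a = 1 ∨ Q e = 0) : ICG (c * a) := by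
  have R := P.pr_line he he' h h1 h3
  have r1 := finrank_span_singleton (K := F) (v := e) fun e => h (by simp [e])
  have r2 := finrank_span_singleton (K := F) (v := e') fun e => h (by simp [e])
  have := Submodule.finrank_add_le_finrank_add_finrank (F ∙ e) (F ∙ e')
  have := (P.hp R).finrank_D
  have dm : Dm F (W ⊓ perp Q (F ∙ e')) := ⟨by omega, by omega⟩
  obtain ⟨q', hq', q, hq, ρ', ρ, e1, c1, c2, d1, d2, -⟩ := P.dec hn hf R dm
  replace h4 : dickson P.nd a = 1 := (Int.units_eq_one_or _).resolve_right fun h5 => by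
    obtain ⟨b, hb, b1, -⟩ := refl_of_comm P.nd h2 c1 (by omega) (d1.trans h5)
    obtain ⟨s, rfl⟩ := Submodule.mem_span_singleton.1 hb
    simp [h5, Q_smul] at h4 b1
    simp [h4] at b1
  simpa [e1, eq_one_of_comm P.nd c1 r1.le (d1.trans h4), eq_one_of_comm P.nd c2 r2.le (d2.trans h4)]
    using (P.hp R).icg_one (not_exc_of_five_le (by omega)) h2 hq' hq dm

theorem icg_four (R : Pr Q W W' L L' u u') (r1 : finrank F L = 2) (r2 : finrank F L' = 2)
    (h0 : 4 ≤ Nat.card F ∨ 10 ≤ finrank F V)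
    (h : (4 ≤ Nat.card F ∧ (∃ b ∈ L, Q b = 1) ∧ ∃ b ∈ L', Q b = 1) ∨ dickson P.nd a = -1 ∧
      ∀ b ∈ L, ∀ b' ∈ L', Q b = 1 → Q b' = 1 → (∀ d ∈ L, c.1 d - (refl Q b').1 d ∈ perp Q L) →
        polar Q b' b ≠ 0) : ICG (c * a) := by
  have H := P.hp R
  have hE : ¬ Exc Q := not_exc_of_five_le (by omega)
  have r3 := Submodule.finrank_sup_add_finrank_inf_eq L L'
  rw [(P.lg.compl.disjoint.mono R.le R.le').eq_bot, finrank_bot] at r3
  have := H.finrank_D
  have dm : Dm F (W ⊓ perp Q L') := ⟨by omega, by omega⟩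
  obtain ⟨q', hq', q, hq, ρ', ρ, e1, c1, c2, d1, d2, h5⟩ := P.dec hn hf R dm
  rw [e1]
  rcases Int.units_eq_one_or (dickson P.nd a) with h6 | h6
  · obtain ⟨h4, ⟨b, hb, b1⟩, b', hb', b1'⟩ := h.resolve_right fun h => by simp [h6] at h
    exact H.icg_c2' hE h2 hq' hq dm h4 (c2_of_comm P.nd h2 c2 r2.le (d2.trans h6) le_sup_right
      (fun x hx y hy => P.symm.ww (R.le' hx) (R.le' hy)) hb' b1') (c2_of_comm P.nd h2 c1 r1.le
      (d1.trans h6) le_sup_left (fun x hx y hy => P.ww (R.le hx) (R.le hy)) hb b1)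
  obtain ⟨b, hb, b1, rfl⟩ := refl_of_comm P.nd h2 c1 r1.le (d1.trans h6)
  obtain ⟨b', hb', b1', rfl⟩ := refl_of_comm P.nd h2 c2 r2.le (d2.trans h6)
  by_cases h7 : polar Q b' b = 0
  · simpa using H.icg_c2' hE h2 hq' hq dm (h.resolve_right fun h => h.2 b hb b' hb' b1 b1' h5 h7).1
      (.inl rfl) (.inr ⟨b', Submodule.mem_sup_right hb', b, Submodule.mem_sup_left hb, b1', b1, h7,
        fun e => by simp [P.disj (R.le hb) (e ▸ R.le' hb')] at b1, rfl⟩)
  · exact H.icg_rr hE h2 hq' hq dm (by omega) (Submodule.mem_sup_right hb')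
      (Submodule.mem_sup_left hb) b1' b1 h7

omit h2 in
theorem icg_plus (hF : Nat.card F = 2) (R : Pr Q W W' L L' u u') (r1 : finrank F L = 2)
    (r2 : finrank F L' = 2) (h0 : u ≠ 0) (h0' : u' ≠ 0) (h : polar Q u u' = 0) : ICG (c * a) := by
  have H := P.hp R
  have r3 := Submodule.finrank_sup_add_finrank_inf_eq L L'
  rw [(P.lg.compl.disjoint.mono R.le R.le').eq_bot, finrank_bot] at r3
  have := H.finrank_D
  have m1 : u' ∈ L ⊔ L' := Submodule.mem_sup_left R.mem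
  have q1 : Q u' = 0 := by simp [P.q _ P.hu', h]
  obtain ⟨w, hw, d, hd, e1⟩ := H.symm.dec_perp (v := c.1 u' - u')
    (mem_perp.2 fun x hx => P.symm.ww hx.1 (P.sub_mem u'))
  have e2 : c.1 u' = u' + d + w := by rw [sub_eq_iff_eq_add'.1 e1]; abel
  have q2 : Q (u' + d) = 0 := by
    have := O.map_Q c u'
    rwa [e2, Q_add, H.ts' w hw, H.symm.dw hw (add_mem m1 hd), q1, add_zero, add_zero] at this
  obtain ⟨⟨g, hg⟩, g1, g2 : polar Q g (u' + d) = 1⟩ := exists_partner' R.nd (by omega)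
    (e := ⟨u', m1⟩) (g := ⟨u' + d, add_mem m1 hd⟩) q1 q2 (by simpa) (or_iff_not_imp_right.2 fun h => by
      obtain ⟨s, hs⟩ := Submodule.mem_span_singleton.1 (not_not.1 h)
      have : d = s • u' - u' := eq_sub_of_add_eq' (congrArg Subtype.val hs).symm
      simpa using P.disj (this ▸ W.sub_mem (W.smul_mem s P.hu') P.hu')
        (by simpa [e1] using W'.sub_mem (P.sub_mem u') hw.1))
  replace g1 : IsHyp Q u' g := ⟨g1.left, g1.right, g1.polar_eq⟩
  have H' := H.ext m1 hg g1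
  have h1 := finrank_sup_span_singleton' (W := W ⊓ perp Q L') (v := u') fun e => h0'
    (Submodule.disjoint_def.1 H.os.isCompl.disjoint _ (Submodule.mem_sup_left e) m1)
  have h3 := H'.finrank_D
  have h4 : W ⊓ perp Q L' ⊔ F ∙ u' ≤ W :=
    sup_le inf_le_left ((Submodule.span_singleton_le_iff_mem _ _).2 P.hu')
  refine H'.icg_tv hF (by omega) (by omega) hf
    (Submodule.mem_sup_right (Submodule.mem_span_singleton_self u'))
    (polarBilin Q g ∘ₗ (rhoO Q c - 1)) ?_ (fun x hx y hy => ?_) (.inr ?_)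
  · simp only [LinearMap.comp_apply, LinearMap.sub_apply, rhoO_apply, e2, End.one_apply,
      polarBilin_apply_apply, polar_sub_right]
    rw [polar_add_right, g2, H.symm.dw hw hg, g1.polar_eq']; simp
  · obtain ⟨y, hy', _, hz, rfl⟩ := Submodule.mem_sup.1 hy
    obtain ⟨s, rfl⟩ := Submodule.mem_span_singleton.1 hz
    have := P.symm.ww hy'.1 (P.sub_mem x)
    rw [polar_sub_right, sub_eq_zero] at this
    simp [P.ha x (h4 hx), this, mem_perp'.1 hy'.2 u' R.mem, g1.polar_eq']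
    ring
  · obtain ⟨x, hx, d, hd, e⟩ := H'.dec_perp (v := u) (by
      rw [perp_sup]
      exact ⟨mem_perp.2 fun x hx => mem_perp'.1 hx.2 u R.mem',
        mem_perp_singleton.2 (polar_comm Q u u' ▸ h)⟩)
    refine ⟨d, hd, fun e' => h0 (P.disj (by simpa [e, e'] using h4 hx) P.hu), ?_⟩
    have := P.q' u P.hu
    rw [polar_comm, h] at this
    simpa [e, Q_add, H'.ts x hx, H'.wd hx hd] using this

omit h2 hn in
theorem icg_eich (hF : Nat.card F = 2) (h8 : finrank F V = 8) (h : polar Q u' u ≠ 0) {w : V}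
    (hw : w ∈ W ⊓ perp Q (F ∙ u)) (h0 : c.1 w ≠ w) : ICG (c * a) := by
  have R := P.pr_line P.hu' P.hu h (Submodule.mem_span_singleton_self _)
    (Submodule.mem_span_singleton_self _)
  have H := P.hp R
  have r1 := finrank_span_singleton (K := F) (v := u) fun e => h (by simp [e])
  have r2 := finrank_span_singleton (K := F) (v := u') fun e => h (by simp [e])
  have r3 := Submodule.finrank_sup_add_finrank_inf_eq (F ∙ u') (F ∙ u)
  rw [(P.lg.compl.disjoint.mono R.le R.le').eq_bot, finrank_bot] at r3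
  have := H.finrank_D
  obtain ⟨e, he, e0, h1⟩ : ∃ e ∈ W ⊓ perp Q (F ∙ u), e ≠ 0 ∧ polar Q (u' + e) (c.1 w - w) ≠ 0 := by
    by_cases h1 : polar Q u' (c.1 w - w) = 0
    · by_contra! h3
      exact h0 (sub_eq_zero.1 (H.eq_zero ⟨P.sub_mem w, mem_perp_singleton.2 h1⟩ fun x hx => by
        by_cases h4 : x = 0
        · simp [h4]
        · simpa only [polar_add_left, h1, zero_add] using h3 x hx h4))
    · obtain ⟨e, he, e0, h3⟩ := exists_mem_perp (Q := Q) (W := W ⊓ perp Q (F ∙ u)) (by omega) (c.1 w - w)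
      exact ⟨e, he, e0, by rwa [polar_add_left, polar_comm Q e, h3, add_zero]⟩
  have q1 := H.ts e he
  have q2 := P.ww he.1 P.hu'
  have q3 : Q u' = 1 := (eq_zero_or_one hF _).resolve_left (by simpa [P.q _ P.hu', polar_comm Q u])
  refine .of_conj (eich Q e u')⁻¹ (H.icg_tv hF (by omega) (by omega) (by
    rw [map_mul, map_mul, hf, mul_one, ← map_mul, mul_inv_cancel, map_one]) he
    (-polarBilin Q (u' + e) ∘ₗ rhoO Q c) ?_ (fun x hx y hy => ?_) (.inl ⟨by
      rw [show finrank F (W ⊓ perp Q (F ∙ u) : Submodule F V) = 3 by omega]; decide, e0, w, hw, ?_⟩))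
  · have := Q_add Q e (c.1 e - e)
    rw [add_sub_cancel, O.map_Q, P.q' _ (P.sub_mem e)] at this
    simp only [polar_sub_right, P.ww P.hu' he.1, P.ww he.1 he.1, sub_zero] at this
    rcases eq_zero_or_one hF (polar Q u' (c.1 e)) with h3 | h3 <;> simp [h3] at this ⊢ <;>
      linear_combination this
  · have h3 := O.map_polar c y x
    rw [P.hc y hy.1] at h3
    rw [inv_inv, O.mul_apply, O.mul_apply, O.polar_right, inv_inv, O.mul_apply,
      eich_apply_of_perp q1 q2 (P.ww he.1 hx.1), eich_apply q1 q2]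
    simp [P.ww P.hu' hx.1, P.ha x hx.1, mem_perp_singleton.1 hy.2, q3, h3, polar_comm Q y e]
    ring
  · simpa [P.ww P.hu' hw.1, P.ww he.1 hw.1, add_comm, neg_add_eq_sub] using neg_ne_zero.2 h1

omit h2 hn hf [Finite F] in
theorem comm_le (h : c ∈ fixer Q (W ⊓ perp Q (F ∙ u))) : O.comm c ≤ F ∙ u :=
  perp_perp P.nd (F ∙ u) ▸ comm_le_of_fix P.nd fun v hv => by
    obtain ⟨x, hx, y, hy, rfl⟩ := P.lg.dec v
    rw [map_add, P.hc y hy, h x ⟨hx, mem_perp_singleton.2 (by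
      simpa [P.symm.ww P.hu hy] using mem_perp_singleton.1 hv)⟩]

theorem icg_zero (h : u = 0) : ICG (c * a) := by
  have := P.lg.finrank_eq
  obtain ⟨e, he, e0, h1⟩ : ∃ e ∈ W, e ≠ 0 ∧ u' ∈ F ∙ e := by
    by_cases h1 : u' = 0
    · obtain ⟨e, he, e0, -⟩ := exists_mem_perp (Q := Q) (W := W) (by omega) 0
      exact ⟨e, he, e0, h1 ▸ zero_mem _⟩
    · exact ⟨u', P.hu', h1, Submodule.mem_span_singleton_self _⟩
  obtain ⟨e', he', -, h3⟩ := P.exists_polar he bot_le (by simpa)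
  exact P.icg_line h2 hn hf he he' (h3 ▸ one_ne_zero) h1 (h ▸ zero_mem _) (.inr (by simp [P.q e he, h]))

end LPd

theorem icg_even [Finite F] [FiniteDimensional F V] (hQ : ND Q) (h2 : (2 : F) = 0)
    (hn : 8 ≤ finrank F V) {S : O Q} (hS : S ∈ commutator (O Q)) : ICG S := by
  have hE : ¬ Exc Q := not_exc_of_five_le (by omega)
  obtain ⟨W, W', u, u', c, a, P, rfl⟩ := exists_lpd hQ h2 S
  rw [mem_comm_two hQ hE h2] at hS
  have hS' : dickson hQ (a⁻¹ * c⁻¹) = 1 := by rw [← mul_inv_rev, map_inv, hS, inv_one]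
  have sy : ICG (a⁻¹ * c⁻¹) → ICG (c * a) := fun h => by simpa using h.inv
  have hF : Nat.card F = 2 ∨ 4 ≤ Nat.card F := by
    have := Fintype.ofFinite F
    have h3 := mt odd_card_iff.1 (not_not.2 h2)
    have := Fintype.one_lt_card (α := F)
    rw [Nat.card_eq_fintype_card]
    rw [Nat.odd_iff] at h3
    omega
  have := P.lg.finrank_eq
  by_cases h0 : u = 0
  · exact P.icg_zero h2 hn hS h0
  by_cases h0' : u' = 0
  · exact sy (P.symm.icg_zero h2 hn hS' h0')
  by_cases h : polar Q u' u = 0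
  · obtain ⟨e, he, -, e1⟩ := P.symm.exists_polar P.hu bot_le (by simpa)
    obtain ⟨e', he', -, e2⟩ := P.exists_polar P.hu' bot_le (by simpa)
    obtain ⟨R, r1, r2⟩ := P.gram he he' (by simp [h, e2, polar_comm Q e u, e1])
    rcases hF with hF | hF
    · exact P.icg_plus hn hS hF R r1 r2 h0 h0' (polar_comm Q u' u ▸ h)
    · exact P.icg_four h2 hn hS R r1 r2 (.inl hF) (.inl ⟨hF,
        ⟨e, Submodule.subset_span (by simp), by simp [P.q e he, e1]⟩,
        ⟨e', Submodule.subset_span (by simp), by simp [P.q' e' he', e2]⟩⟩)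
  rcases Int.units_eq_one_or (dickson hQ a) with h1 | h1
  · exact P.icg_line h2 hn hS P.hu' P.hu h (Submodule.mem_span_singleton_self _)
      (Submodule.mem_span_singleton_self _) (.inl h1)
  have r1 := finrank_span_singleton (K := F) h0
  have r2 := finrank_span_singleton (K := F) h0'
  by_cases h3 : 4 ≤ Nat.card F ∨ 10 ≤ finrank F V
  · have := (P.hp (P.pr_line P.hu' P.hu h (Submodule.mem_span_singleton_self _)
      (Submodule.mem_span_singleton_self _))).finrank_D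
    have := Submodule.finrank_add_le_finrank_add_finrank (F ∙ u') (F ∙ u)
    obtain ⟨e, he, e0, e1⟩ := exists_mem_perp (Q := Q) (W := W ⊓ perp Q (F ∙ u)) (by omega)
      (c.1 u' - u')
    have e2 := mem_perp_singleton.1 he.2
    obtain ⟨e', he', e3, e4⟩ := P.exists_polar he.1 ((Submodule.span_singleton_le_iff_mem _ _).2
      P.hu') fun h4 => by
        obtain ⟨s, rfl⟩ := Submodule.mem_span_singleton.1 h4
        simp [polar_comm Q u, h] at e0 e2
        exact e0.1 e2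
    rw [mem_perp_singleton] at e3
    obtain ⟨R, r1, r2⟩ := P.gram he.1 he' (by simp [h, e3, e4])
    refine P.icg_four h2 hn hS R r1 r2 h3 (.inr ⟨h1, fun b hb b' hb' b1 b2 h4 => ?_⟩)
    have h5 := mem_perp'.1 (h4 u' R.mem) e (Submodule.subset_span (by simp))
    rw [P.q b (R.le hb)] at b1
    rw [refl_apply, b2] at h5
    rw [P.q' b' (R.le' hb')] at b2
    obtain ⟨s, t, rfl⟩ := Submodule.mem_span_pair.1 hb
    obtain ⟨s', t', rfl⟩ := Submodule.mem_span_pair.1 hb'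
    rw [polar_sub_left] at e1
    simp only [e2, e3, polar_comm Q u u', polar_comm Q e' u', polar_comm Q e' e, e4, polar_add_left,
      polar_add_right, polar_smul_left', polar_smul_right', polar_sub_left] at h5 b1 b2 ⊢
    intro h6
    exact h (by
      linear_combination (-polar Q u' u) * b2 - polar Q u' u * (s' * polar Q u' u) ^ 2 * b1 +
        s * s' * polar Q u' u ^ 4 * h6 - s * t * polar Q u' u ^ 3 * (h5 - e1))
  have h4 : Nat.card F = 2 := by omega
  by_cases h5 : c ∈ fixer Q (W ⊓ perp Q (F ∙ u))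
  swap
  · obtain ⟨w, hw, h6⟩ := by simpa only [mem_fixer, not_forall, exists_prop] using h5
    exact P.icg_eich hS h4 (by omega) h hw h6
  by_cases h6 : a⁻¹ ∈ fixer Q (W' ⊓ perp Q (F ∙ u'))
  swap
  · obtain ⟨w, hw, h6⟩ := by simpa only [mem_fixer, not_forall, exists_prop] using h6
    exact sy (P.symm.icg_eich hS' h4 (by omega) (polar_comm Q u' u ▸ h) hw h6)
  obtain ⟨b, hb, b1, rfl⟩ := refl_of_comm hQ h2 (P.comm_le h5) (by omega)
    (by simpa [h1, neg_eq_iff_eq_neg] using hS)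
  obtain ⟨b', hb', b2, e⟩ := refl_of_comm hQ h2 (P.symm.comm_le h6) (by omega) (by simpa using h1)
  obtain rfl : a = refl Q b' := by rw [← refl_inv, ← e, inv_inv]
  obtain ⟨s, rfl⟩ := Submodule.mem_span_singleton.1 hb
  obtain ⟨t, rfl⟩ := Submodule.mem_span_singleton.1 hb'
  have H : Hp Q ⊥ ⊥ ⊤ := ⟨hQ, ts_bot, ts_bot, by
    rw [sup_idem]; exact ⟨isCompl_bot_top, fun _ h => by simp_all⟩⟩
  have h7 : Dm F (⊥ : Submodule F V) := by simp [Dm]
  simpa using H.icg_rr hE h2 (one_mem _) (one_mem _) h7 (by rw [finrank_top]; omega) trivial trivial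
    b1 b2 (by
      simp only [polar_smul_left', polar_smul_right', polar_comm Q u]
      exact mul_ne_zero (by rintro rfl; simp at b2) (mul_ne_zero (by rintro rfl; simp at b1) h))

theorem icg_orth [Finite F] [FiniteDimensional F V] (hQ : ND Q) (hn : 8 ≤ finrank F V) :
    ∀ S ∈ commutator (O Q), ICG S := fun _ hS =>
  (eq_or_ne (2 : F) 0).elim (icg_even hQ · hn hS) (icg_odd hQ · (by omega) hS)

end Cfsg.Lib.OreC
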