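import Mathlib

/-! Commutators from fixed-point-free action on two unipotent radicals. -/

namespace Cfsg.Lib.OreC

open Module Polynomial

/-- being a single commutator -/
def IsC {G : Type*} [Group G] (g : G) : Prop := ∃ a b, g = a * b * a⁻¹ * b⁻¹

section
variable {G H : Type*} [Group G] [Group H]

theorem IsC.map {g : G} (h : IsC g) (φ : G →* H) : IsC (φ g) :=
  let ⟨a, b, e⟩ := h; ⟨φ a, φ b, by simp [e]⟩

theorem isC_of_isConj {a b : G} (h : IsConj a b) : IsC (a * b⁻¹) :=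
  let ⟨c, e⟩ := isConj_iff.1 h; ⟨a, c, by rw [← e]; group⟩

theorem IsC.conj {a b : G} (h : IsC a) (h' : IsConj a b) : IsC b := by
  obtain ⟨c, rfl⟩ := isConj_iff.1 h'
  exact h.map (MulAut.conj c).toMonoidHom

theorem isC_one : IsC (1 : G) := ⟨1, 1, by simp⟩

theorem IsC.prod {g : G} {h : H} (h1 : IsC g) (h2 : IsC h) : IsC (g, h) :=
  let ⟨a, b, e⟩ := h1; let ⟨c, d, e'⟩ := h2; ⟨(a, c), (b, d), Prod.ext e e'⟩

theorem isConj_mul_of_fpf (Q : Subgroup G) [Finite Q] {x : G} (hx : ∀ q ∈ Q, x * q * x⁻¹ ∈ Q)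
    (hc : ∀ q ∈ Q, x * q = q * x → q = 1) {q : G} (hq : q ∈ Q) :
    ∃ r ∈ Q, q * x = r * x * r⁻¹ := by
  let φ : Q → Q := fun r => ⟨r * (x * (r : G)⁻¹ * x⁻¹), Q.mul_mem r.2 (hx _ (Q.inv_mem r.2))⟩
  have hφ : Function.Injective φ := fun r s h => by
    have h1 : (r : G) * (x * (r : G)⁻¹ * x⁻¹) = s * (x * (s : G)⁻¹ * x⁻¹) := congrArg Subtype.val h
    have h2 := hc ((s : G)⁻¹ * r) (Q.mul_mem (Q.inv_mem s.2) r.2) (by
      calc x * ((s : G)⁻¹ * r) = (s : G)⁻¹ * (s * (x * (s : G)⁻¹ * x⁻¹)) * x * r := by group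
        _ = (s : G)⁻¹ * r * x := by rw [← h1]; group)
    exact Subtype.ext (inv_mul_eq_one.1 h2).symm
  obtain ⟨r, hr⟩ := Finite.surjective_of_injective hφ ⟨q, hq⟩
  exact ⟨r, r.2, by rw [← show (r : G) * (x * (r : G)⁻¹ * x⁻¹) = q from congrArg Subtype.val hr]; group⟩

end

variable {F V G : Type*} [Field F] [AddCommGroup V] [Module F V] [Group G]

theorem rho_inv (ρ : G →* End F V) (g : G) (v : V) : ρ g (ρ g⁻¹ v) = v := by
  rw [← End.mul_apply, ← map_mul, mul_inv_cancel, map_one, End.one_apply]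

theorem rho_inv' (ρ : G →* End F V) (g : G) (v : V) : ρ g⁻¹ (ρ g v) = v := by
  simpa using rho_inv ρ g⁻¹ v

/-- the unipotent radical of a flag -/
def rad (ρ : G →* End F V) (U₁ U₂ : Submodule F V) (h : U₁ ≤ U₂) : Subgroup G where
  carrier := {g | (∀ v, ρ g v - v ∈ U₂) ∧ (∀ v ∈ U₂, ρ g v - v ∈ U₁) ∧ ∀ v ∈ U₁, ρ g v = v}
  one_mem' := by simp
  mul_mem' := by
    rintro a b ⟨a1, a2, a3⟩ ⟨b1, b2, b3⟩
    have e : ∀ v, ρ (a * b) v - v =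
        ρ a (ρ b v - v) - (ρ b v - v) + (ρ b v - v) + (ρ a v - v) := fun v => by
      simp
    refine ⟨fun v => e v ▸ add_mem (add_mem (a1 _) (b1 _)) (a1 _), fun v hv => ?_, fun v hv => ?_⟩
    · exact e v ▸ add_mem (add_mem (a2 _ (b1 _)) (b2 _ hv)) (a2 _ hv)
    · rw [map_mul, End.mul_apply, b3 v hv, a3 v hv]
  inv_mem' := by
    rintro a ⟨a1, a2, a3⟩
    have e : ∀ v, ρ a⁻¹ v - v = -(ρ a (ρ a⁻¹ v) - ρ a⁻¹ v) := fun v => by rw [rho_inv, neg_sub]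
    refine ⟨fun v => e v ▸ neg_mem (a1 _), fun v hv => e v ▸ neg_mem (a2 _ ?_), fun v hv => ?_⟩
    · simpa [rho_inv] using sub_mem hv (a1 (ρ a⁻¹ v))
    · rw [← a3 v hv, rho_inv', a3 v hv]

theorem inv_mapsTo [Finite G] (ρ : G →* End F V) {U : Submodule F V} {x : G}
    (h : ∀ v ∈ U, ρ x v ∈ U) : ∀ v ∈ U, ρ x⁻¹ v ∈ U := by
  obtain ⟨n, hn⟩ := (isOfFinOrder_of_finite x).mem_powers_iff_mem_zpowers.2
    ((Subgroup.zpowers x).inv_mem (Subgroup.mem_zpowers x))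
  rw [← hn]
  clear hn
  induction n with
  | zero => simp
  | succ n ih => exact fun v hv => by simpa [pow_succ] using ih _ (h v hv)

/-- an endomorphism with pairwise coprime annihilators on the layers of a flag -/
structure Gd (f : End F V) (U₁ U₂ : Submodule F V) : Prop where
  m₁ : ∀ v ∈ U₁, f v ∈ U₁
  m₂ : ∀ v ∈ U₂, f v ∈ U₂
  ex : ∃ P₀ P₁ P₂ : F[X], (∀ v ∈ U₁, aeval f P₀ v = 0) ∧ (∀ v ∈ U₂, aeval f P₁ v ∈ U₁) ∧
    (∀ v, aeval f P₂ v ∈ U₂) ∧ IsCoprime P₀ P₁ ∧ IsCoprime P₂ (P₀ * P₁)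

theorem eq_zero_of_coprime {f : End F V} {P Q : F[X]} (h : IsCoprime P Q) {v : V}
    (h1 : aeval f P v = 0) (h2 : aeval f Q v = 0) : v = 0 := by
  obtain ⟨a, b, e⟩ := h
  have := congrArg (fun p => aeval f p v) e
  simpa [h1, h2] using this.symm

theorem Gd.conj [Finite G] {ρ : G →* End F V} (hρ : Function.Injective ρ) {U₁ U₂ : Submodule F V}
    {h : U₁ ≤ U₂} {x q : G} (hx : Gd (ρ x) U₁ U₂) (hq : q ∈ rad ρ U₁ U₂ h) :
    ∃ r ∈ rad ρ U₁ U₂ h, q * x = r * x * r⁻¹ := by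
  refine isConj_mul_of_fpf _ ?_ ?_ hq
  · rintro q ⟨q1, q2, q3⟩
    have e : ∀ v, ρ (x * q * x⁻¹) v - v = ρ x (ρ q (ρ x⁻¹ v) - ρ x⁻¹ v) := fun v => by
      simp [rho_inv]
    refine ⟨fun v => e v ▸ hx.m₂ _ (q1 _), fun v hv => e v ▸ hx.m₁ _ (q2 _ ?_), fun v hv => ?_⟩
    · exact inv_mapsTo ρ hx.m₂ v hv
    · rw [← sub_eq_zero, e, q3 _ (inv_mapsTo ρ hx.m₁ v hv), sub_self, map_zero]
  rintro q ⟨q1, q2, q3⟩ hc
  obtain ⟨P₀, P₁, P₂, h0, h1, h2, c1, c2⟩ := hx.ex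
  have hc' : Commute (ρ q - 1) (ρ x) :=
    (Commute.map (f := ρ) (show Commute q x from hc.symm)).sub_left (.one_left _)
  have e : ∀ (P : F[X]) v, aeval (ρ x) P (ρ q v - v) = ρ q (aeval (ρ x) P v) - aeval (ρ x) P v :=
    fun P v => by
      have : Commute (ρ q - 1) (aeval (ρ x) P) := by
        induction P using Polynomial.induction_on' with
        | add p p' hp hp' => rw [map_add]; exact hp.add_right hp'
        | monomial n c =>
          rw [aeval_monomial]; exact (Algebra.commute_algebraMap_right _ _).mul_right (hc'.pow_right n)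
      exact (LinearMap.congr_fun this.eq v).symm
  have k1 : ∀ v ∈ U₂, ρ q v - v = 0 := fun v hv =>
    eq_zero_of_coprime c1 (h0 _ (q2 v hv)) (by rw [e, q3 _ (h1 v hv), sub_self])
  refine hρ (LinearMap.ext fun v => ?_)
  rw [map_one, End.one_apply, ← sub_eq_zero]
  exact eq_zero_of_coprime c2 (by rw [e, k1 _ (h2 v)]) (by
    rw [map_mul, End.mul_apply, h0 _ (h1 _ (q1 v))])

theorem isC_of_rad [Finite G] {ρ : G →* End F V} (hρ : Function.Injective ρ)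
    {U₁ U₂ U₁' U₂' : Submodule F V} {h : U₁ ≤ U₂} {h' : U₁' ≤ U₂'} {x y q q' : G}
    (hx : Gd (ρ x) U₁' U₂') (hy : Gd (ρ y) U₁ U₂) (hq : q ∈ rad ρ U₁ U₂ h)
    (hq' : q' ∈ rad ρ U₁' U₂' h') (hxy : IsConj x y) : IsC (q' * x * y⁻¹ * q) := by
  obtain ⟨r, -, hr⟩ := hx.conj hρ hq'
  obtain ⟨s, -, hs⟩ := hy.conj hρ (inv_mem hq)
  have : q' * x * y⁻¹ * q = q' * x * (q⁻¹ * y)⁻¹ := by group
  rw [this, hr, hs]
  exact isC_of_isConj ((isConj_iff.2 ⟨r, rfl⟩).symm.trans (hxy.trans (isConj_iff.2 ⟨s, rfl⟩)))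

end Cfsg.Lib.OreC
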