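import Cfsg.Agent.Lib.Symp.Unip
import Cfsg.Agent.Lib.OreC.Fpf

/-! Lagrangian pairs adapted to a symplectic isometry: the blocks. -/

namespace Cfsg.Lib.OreC

open Module Polynomial Cfsg.Lib.Symp

variable {F V R : Type*} [Field F] [AddCommGroup V] [Module F V] {B : LinearMap.BilinForm F V}

/-- totally isotropic subspace -/
def TI (B : LinearMap.BilinForm F V) (W : Submodule F V) : Prop := ∀ u ∈ W, ∀ v ∈ W, B u v = 0

/-- an adapted pair of isotropic subspaces spanning `X` -/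
def LPon (B : LinearMap.BilinForm F V) (f : End F V) (X : Submodule F V) : Prop :=
  ∃ W W', TI B W ∧ TI B W' ∧ W ⊔ W' = X ∧ ∀ w ∈ W, f w - w ∈ W'

/-- a pair of vectors spanning two odd Jordan blocks -/
def OB (B : LinearMap.BilinForm F V) (g : End F V) : Prop :=
  ∃ (m : ℕ) (x y : V), Even m ∧ ((g - 1) ^ (m + 1)) x = 0 ∧ ((g - 1) ^ (m + 1)) y = 0 ∧
    B x (((g - 1) ^ m) y) ≠ 0

theorem exists_dvd_pow {f g : F[X]} (f0 : f ≠ 0) (h : ∀ p, Irreducible p → p ∣ f → p ∣ g) :
    ∃ j, f ∣ g ^ j := by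
  induction f using WfDvdMonoid.induction_on_irreducible with
  | zero => exact absurd rfl f0
  | unit u hu => exact ⟨0, hu.dvd⟩
  | mul a p ha hp ih =>
    obtain ⟨j, hj⟩ := ih ha fun r hr h1 => h r hr (h1.mul_left _)
    exact ⟨j + 1, pow_succ' g j ▸ mul_dvd_mul (h p hp (dvd_mul_right _ _)) hj⟩

variable [CommRing R] [Algebra F R] [Module R V] [IsScalarTower F R V]

variable (B) in
/-- a commutative ring with involution generated by an isometry -/
structure RB (σ : R →ₐ[F] R) (T : Rˣ) (z : R) : Prop where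
  alt : B.IsAlt
  inv : ∀ r, σ (σ r) = r
  sT : σ T = (T⁻¹ :)
  hz : z = T + ↑T⁻¹
  dec : ∀ r, ∃ p p' : F[X], r = aeval z p + aeval z p' * T
  mapB : ∀ u v : V, B ((T : R) • u) ((T : R) • v) = B u v

variable (F) in
/-- span of two vectors over the symmetric subring -/
noncomputable def s0 (z : R) (x y : V) : Submodule F V where
  carrier := {v | ∃ p p' : F[X], v = aeval z p • x + aeval z p' • y}
  zero_mem' := ⟨0, 0, by simp⟩
  add_mem' := by
    rintro _ _ ⟨p, p', rfl⟩ ⟨q, q', rfl⟩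
    exact ⟨p + q, p' + q', by simp only [map_add]; module⟩
  smul_mem' := by
    rintro c _ ⟨p, p', rfl⟩
    exact ⟨c • p, c • p', by simp [smul_assoc]⟩

variable (F R) in
/-- span of two vectors over the whole ring -/
def s1 (x y : V) : Submodule F V where
  carrier := {v | ∃ p q : R, v = p • x + q • y}
  zero_mem' := ⟨0, 0, by simp⟩
  add_mem' := by
    rintro _ _ ⟨p, p', rfl⟩ ⟨q, q', rfl⟩
    exact ⟨p + q, p' + q', by module⟩
  smul_mem' := by
    rintro c _ ⟨p, p', rfl⟩
    exact ⟨c • p, c • p', by simp [smul_assoc]⟩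

namespace RB

variable {σ : R →ₐ[F] R} {T : Rˣ} {z : R} (D : RB B σ T z)
include D

omit [IsScalarTower F R V] in
theorem sT' : σ (T⁻¹ :) = T := by rw [← D.sT, D.inv]

omit [IsScalarTower F R V] in
theorem s_aeval (p : F[X]) : σ (aeval z p) = aeval z p := by
  rw [← aeval_algHom_apply, D.hz, map_add, D.sT, D.sT', add_comm]

omit [IsScalarTower F R V] in
theorem adjT (a b : V) : B ((T : R) • a) b = B a ((T⁻¹ :) • b) := by
  rw [← D.mapB a, Units.smul_def, smul_smul, T.mul_inv, one_smul]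

theorem adj0 (p : F[X]) (a b : V) : B (aeval z p • a) b = B a (aeval z p • b) := by
  have h : ∀ a b : V, B (z • a) b = B a (z • b) := fun a b => by
    have := D.mapB ((T⁻¹ :) • a) b
    rw [Units.smul_def, smul_smul, T.mul_inv, one_smul] at this
    simp only [D.hz, add_smul, map_add, LinearMap.add_apply, D.adjT, ← this, add_comm,
      Units.smul_def]
  induction p using Polynomial.induction_on generalizing a b with
  | C c => simp
  | add p q hp hq => simp only [map_add, add_smul, LinearMap.add_apply, hp, hq]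
  | monomial n c ih =>
    rw [pow_succ, ← mul_assoc, map_mul, aeval_X, mul_smul, ih, h, smul_smul, mul_comm]

theorem adj (r : R) (a b : V) : B (r • a) b = B a (σ r • b) := by
  obtain ⟨p, p', rfl⟩ := D.dec r
  simp only [map_add, map_mul, add_smul, mul_smul, LinearMap.add_apply, D.s_aeval, D.adj0, D.adjT,
    D.sT, Units.smul_def]
  rw [smul_comm]

theorem adj' (r : R) (a b : V) : B a (r • b) = B (σ r • a) b := by rw [D.adj, D.inv]

theorem self0 (p : F[X]) (x : V) : B (aeval z p • x) x = 0 := by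
  induction p using Polynomial.induction_on' with
  | add p q hp hq => simp [add_smul, hp, hq]
  | monomial n c =>
    rw [aeval_monomial, mul_smul, algebraMap_smul, map_smul, LinearMap.smul_apply]
    rcases n with _ | n
    · simp [D.alt.self_eq_zero]
    have h := D.s_aeval (X ^ n)
    rw [map_pow, aeval_X] at h
    have : z ^ (n + 1) = T * z ^ n + σ (T * z ^ n) := by
      rw [map_mul, h, D.sT, pow_succ', ← add_mul, ← D.hz]
    rw [this, add_smul, map_add, LinearMap.add_apply, ← D.adj', ← D.alt.neg_eq x, neg_add_cancel,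
      smul_zero]

theorem ti_s0 {x y : V} (h : ∀ p : F[X], B (aeval z p • x) y = 0) : TI B (s0 F z x y) := by
  rintro _ ⟨p, p', rfl⟩ _ ⟨q, q', rfl⟩
  have e : ∀ (p q : F[X]) (a b : V), B (aeval z p • a) (aeval z q • b) =
      B (aeval z (q * p) • a) b := fun p q a b => by rw [← D.adj0, smul_smul, map_mul]
  simp only [map_add, LinearMap.add_apply]
  rw [← D.alt.neg_eq (aeval z q • x) (aeval z p' • y), e, e, e, e, D.self0, D.self0, h, h]
  simp

variable {f : End F V} (hf : ∀ v, f v = (T : R) • v)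
include hf

theorem lp_even {x y : V} (h : ∀ p : F[X], B (aeval z p • x) y = 0) : LPon B f (s1 F R x y) := by
  refine ⟨s0 F z x y, s0 F z (((T : R) - 1) • x) (((T : R) - 1) • y), D.ti_s0 h,
    D.ti_s0 fun p => ?_, le_antisymm (sup_le ?_ ?_) ?_, ?_⟩
  · rw [D.adj', ← h (p * (2 - X)), smul_smul, smul_smul, map_sub, D.sT, map_one, map_mul, map_sub,
      aeval_X, map_ofNat, D.hz]
    congr 3
    linear_combination (aeval (T + T⁻¹ : R) p) * T.mul_inv
  · rintro _ ⟨p, p', rfl⟩; exact ⟨_, _, rfl⟩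
  · rintro _ ⟨p, p', rfl⟩; exact ⟨_, _, by rw [smul_smul, smul_smul]⟩
  · rintro _ ⟨r, r', rfl⟩
    obtain ⟨p, p', rfl⟩ := D.dec r
    obtain ⟨q, q', rfl⟩ := D.dec r'
    exact Submodule.mem_sup.2 ⟨_, ⟨p + p', q + q', rfl⟩, _, ⟨p', q', rfl⟩, by
      simp only [map_add]; module⟩
  · rintro _ ⟨p, p', rfl⟩
    exact ⟨p, p', by rw [hf]; module⟩

theorem lp_odd {x y : V} (h : ∀ p : F[X], B (aeval z p • (1 - (T⁻¹ :) : R) • x) y = 0) :
    LPon B f (s1 F R x y) := by
  refine ⟨s0 F z x (((T : R) - 1) • y), s0 F z (((T : R) - 1) • x) ((T : R) • y),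
    D.ti_s0 fun p => ?_, D.ti_s0 fun p => ?_, le_antisymm (sup_le ?_ ?_) ?_, ?_⟩
  · rw [D.adj', ← h (-p), smul_smul, smul_smul, map_sub, D.sT, map_one, map_neg]
    congr 3
    ring
  · rw [D.adj', ← h p, smul_smul, smul_smul, smul_smul, D.sT]
    congr 3
    linear_combination (aeval z p) * T.mul_inv
  · rintro _ ⟨p, p', rfl⟩; exact ⟨_, _, by rw [smul_smul]⟩
  · rintro _ ⟨p, p', rfl⟩; exact ⟨_, _, by rw [smul_smul, smul_smul]⟩
  · rintro _ ⟨r, r', rfl⟩
    obtain ⟨p, p', rfl⟩ := D.dec r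
    obtain ⟨q, q', rfl⟩ := D.dec r'
    exact Submodule.mem_sup.2 ⟨_, ⟨p + p', -q, rfl⟩, _, ⟨p', q + q', rfl⟩, by
      simp only [map_add, map_neg]; module⟩
  · rintro _ ⟨p, p', rfl⟩
    refine ⟨p, p' * (X - 2), ?_⟩
    rw [hf, map_mul, map_sub, aeval_X, map_ofNat]
    linear_combination (norm := module) -(aeval z p' * T * D.hz) • y - (aeval z p' * T.mul_inv) • y

omit hf

section
variable {ε : F} (hε : ε * ε = 1) {N : R} (hN : N = T - algebraMap F R ε)
include hε hN

omit [IsScalarTower F R V] in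
theorem z_eq : z = algebraMap F R (2 * ε) + T⁻¹ * N ^ 2 := by
  have := congrArg (algebraMap F R) hε
  rw [map_mul, map_one] at this
  rw [D.hz, hN, map_mul, map_ofNat]
  linear_combination -(T - 2 * algebraMap F R ε) * T.mul_inv - (T⁻¹ :) * this

omit [IsScalarTower F R V] in
theorem aug0 (p : F[X]) : ∃ r, aeval z p = algebraMap F R (p.eval (2 * ε)) + N * r := by
  obtain ⟨q, hq⟩ := X_sub_C_dvd_sub_C_eval (p := p) (a := 2 * ε)
  have := congrArg (aeval z) hq
  simp only [map_sub, map_mul _ _ q, aeval_C, aeval_X] at this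
  exact ⟨T⁻¹ * N * aeval z q, by
    linear_combination this + aeval z q * D.z_eq hε hN⟩

omit [IsScalarTower F R V] in
theorem aug (r : R) : ∃ (c : F) (r' : R), r = algebraMap F R c + N * r' := by
  obtain ⟨p, p', rfl⟩ := D.dec r
  obtain ⟨a, ha⟩ := D.aug0 hε hN p
  obtain ⟨b, hb⟩ := D.aug0 hε hN p'
  refine ⟨p.eval (2 * ε) + p'.eval (2 * ε) * ε, a + b * T + algebraMap F R (p'.eval (2 * ε)), ?_⟩
  rw [ha, hb, map_add, map_mul _ _ ε]
  linear_combination -algebraMap F R (p'.eval (2 * ε)) * hN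

variable {k : ℕ} (hk : ∀ v : V, N ^ (k + 1) • v = 0)
include hk

theorem free {x y : V} (hd : ∀ c d : F, c * B (N ^ k • x) x + d * B (N ^ k • y) x = 0 →
      c * B (N ^ k • x) y + d * B (N ^ k • y) y = 0 → c • x = 0 ∧ d • y = 0) :
    ∀ v ∈ s1 F R x y, (∀ u ∈ s1 F R x y, B v u = 0) → v = 0 := by
  rintro _ ⟨p, q, rfl⟩ h
  have key : ∀ i ≤ k + 1, ∃ p' q' : R, p • x = N ^ i • p' • x ∧ q • y = N ^ i • q' • y := by
    intro i
    induction i with
    | zero => exact fun _ => ⟨p, q, by simp⟩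
    | succ i ih =>
      intro hi
      obtain ⟨p', q', e1, e2⟩ := ih (by omega)
      obtain ⟨c, p', rfl⟩ := D.aug hε hN p'
      obtain ⟨d, q', rfl⟩ := D.aug hε hN q'
      have h3 : ∀ u : V, B (p • x + q • y) (σ (N ^ (k - i)) • u) =
          c * B (N ^ k • x) u + d * B (N ^ k • y) u := fun u => by
        rw [← D.adj, e1, e2, smul_add, smul_smul, smul_smul (N ^ (k - i)), ← pow_add,
          Nat.sub_add_cancel (by omega)]
        simp [add_smul, mul_smul, smul_add, ← mul_smul (N ^ k) N, ← pow_succ, hk,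
          smul_comm (N ^ k) c, smul_comm (N ^ k) d]
      obtain ⟨h4, h5⟩ := hd c d ((h3 x).symm.trans (h _ ⟨σ (N ^ (k - i)), 0, by simp⟩))
        ((h3 y).symm.trans (h _ ⟨0, σ (N ^ (k - i)), by simp⟩))
      exact ⟨p', q', by rw [e1, add_smul, algebraMap_smul, h4, zero_add, pow_succ, mul_smul, mul_smul],
        by rw [e2, add_smul, algebraMap_smul, h5, zero_add, pow_succ, mul_smul, mul_smul]⟩
  obtain ⟨p', q', e1, e2⟩ := key _ le_rfl
  rw [e1, e2, hk, hk, add_zero]

theorem exists_partner [FiniteDimensional F V] (nd : B.Nondegenerate) {x : V} (hx : N ^ k • x ≠ 0)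
    {δ : ℕ} {u : Rˣ} (hδ : Odd (k + δ)) :
    ∃ y, B (N ^ k • x) y ≠ 0 ∧ ∀ p : F[X], B (aeval z p • ((u : R) * N ^ δ) • x) y = 0 := by
  by_contra h
  push Not at h
  have h1 : N ^ k • x ∈ s0 F z (((u : R) * N ^ δ) • x) 0 := by
    rw [← LinearMap.BilinForm.orthogonal_orthogonal nd D.alt.isRefl (s0 F z _ _)]
    intro y hy
    by_contra h2
    obtain ⟨p, hp⟩ := h y fun h3 => h2 (D.alt.isRefl _ _ h3)
    exact hp (hy _ ⟨p, 0, by simp⟩)
  obtain ⟨p, p', hp⟩ := h1
  have p0 : p ≠ 0 := fun h0 => hx (by simpa [h0] using hp)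
  obtain ⟨j, q, h2, rfl⟩ := WfDvdMonoid.max_power_factor p0 (irreducible_X_sub_C (2 * ε))
  obtain ⟨r, hr⟩ := D.aug0 hε hN q
  have h3 : z - algebraMap F R (2 * ε) = T⁻¹ * N ^ 2 := by linear_combination D.z_eq hε hN
  have h4 : ∀ i, k < i → ∀ v : V, N ^ i • v = 0 := fun i hi v => by
    obtain ⟨j, rfl⟩ := Nat.exists_eq_add_of_lt hi
    rw [show k + j + 1 = k + 1 + j by ring, pow_add, mul_smul, hk]
  rw [map_mul, map_pow, map_sub, aeval_X, aeval_C, h3, smul_zero, add_zero, smul_smul,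
    show ((T⁻¹ :) * N ^ 2) ^ j * aeval z q * (u * N ^ δ) =
      N ^ (2 * j + δ) * (((T⁻¹ ^ j * u :) : R) * aeval z q) by push_cast; ring, mul_smul] at hp
  rcases lt_trichotomy k (2 * j + δ) with h5 | h5 | h5
  · exact hx (hp.trans (h4 _ h5 _))
  · exact (Nat.not_even_iff_odd.2 hδ) ⟨j + δ, by omega⟩
  obtain ⟨i, hi⟩ := Nat.exists_eq_add_of_lt h5
  have h6 := congrArg (N ^ (i + 1) • ·) hp
  simp only [smul_smul, ← mul_assoc, ← pow_add] at h6
  rw [h4 _ (by omega), show i + 1 + (2 * j + δ) = k by omega, hr] at h6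
  have h7 : (((T⁻¹ ^ j * u :) : R)) • q.eval (2 * ε) • N ^ k • x = 0 := by
    rw [← algebraMap_smul R]
    have := hk ((((T⁻¹ ^ j * u :) : R) * r) • x)
    linear_combination (norm := module) -h6 - this
  rw [← Units.smul_def, smul_eq_zero_iff_eq, smul_eq_zero] at h7
  exact h7.elim (fun h8 => h2 (dvd_iff_isRoot.2 h8)) hx

end

omit [IsScalarTower F R V] in
theorem sym (r : R) : ∃ p : F[X], r + σ r = aeval z p := by
  obtain ⟨p, p', rfl⟩ := D.dec r
  refine ⟨p + p + p' * X, ?_⟩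
  simp only [map_add, map_mul, D.s_aeval, D.sT, aeval_X]
  linear_combination -aeval z p' * D.hz

theorem exists_cyc [FiniteDimensional F V] (nd : B.Nondegenerate) {d : R} (hd : d = T - (T⁻¹ :))
    (hn : ∀ k : ℕ, ∃ v : V, d ^ k • v ≠ 0) :
    ∃ x : V, x ≠ 0 ∧ (∀ v ∈ s1 F R x 0, (∀ u ∈ s1 F R x 0, B v u = 0) → v = 0) ∧
      ∀ c : R, d • c • x = 0 → c • x = 0 := by
  have hzN : aeval z (X ^ 2 - 4 : F[X]) = d * d := by
    rw [map_sub, map_pow, aeval_X, map_ofNat, D.hz, hd]; linear_combination 4 * T.mul_inv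
  let f := minpoly F (Algebra.lsmul F F V z)
  have hf : ∀ p, f ∣ p ↔ ∀ v : V, aeval z p • v = 0 := fun p => by
    rw [minpoly.dvd_iff, aeval_algHom_apply, LinearMap.ext_iff]; rfl
  have f0 : f ≠ 0 := minpoly.ne_zero (LinearMap.isIntegral _)
  obtain ⟨p, hp, h3, h4⟩ : ∃ p : F[X], Irreducible p ∧ p ∣ f ∧ ¬ p ∣ X ^ 2 - 4 := by
    by_contra h
    push Not at h
    obtain ⟨j, hj⟩ := exists_dvd_pow f0 h
    obtain ⟨v, hv⟩ := hn (2 * j)
    have := (hf _).1 hj v
    rw [map_pow, hzN, ← pow_two, ← pow_mul] at this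
    exact hv this
  obtain ⟨m, q, h5, h6⟩ := WfDvdMonoid.max_power_factor f0 hp
  obtain ⟨m, rfl⟩ := Nat.exists_eq_add_one_of_ne_zero (n := m) (by
    rintro rfl
    exact h5 (by rw [← one_mul q, ← pow_zero p, ← h6]; exact h3))
  obtain ⟨x₀, hx₀⟩ : ∃ x₀ : V, B ((T * aeval z (p ^ m * q * q)) • x₀) x₀ ≠ 0 := by
    by_contra h7
    push Not at h7
    have h8 : f ∣ p ^ m * q * q * (X ^ 2 - 4) := (hf _).2 fun v => by
      rw [map_mul _ _ (X ^ 2 - 4 : F[X]), hzN]
      have h10 := D.s_aeval (p ^ m * q * q)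
      generalize aeval z (p ^ m * q * q) = g at *
      have h9 : (d * g) • v = 0 := nd.1 _ fun u => by
        have h9 := h7 (v + u)
        simp only [smul_add, map_add, LinearMap.add_apply, h7] at h9
        rw [D.adj _ u, ← D.alt.neg_eq _ u, map_mul σ, h10, D.sT] at h9
        rw [hd, sub_mul, sub_smul, map_sub, LinearMap.sub_apply]
        linear_combination h9
      linear_combination (norm := module) d • h9
    rw [h6, show p ^ (m + 1) * q = p ^ m * q * p by ring, mul_assoc _ q (X ^ 2 - 4), mul_dvd_mul_iff_left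
      (mul_ne_zero (pow_ne_zero _ hp.ne_zero) (right_ne_zero_of_mul (h6 ▸ f0)))] at h8
    exact (hp.prime.dvd_or_dvd h8).elim h5 h4
  set x := aeval z q • x₀ with hx
  have k1 : aeval z (p ^ (m + 1)) • x = 0 := by
    rw [hx, smul_smul, ← map_mul]
    exact (hf _).1 (h6 ▸ dvd_rfl) _
  have k2 : B ((T * aeval z (p ^ m)) • x) x ≠ 0 := by
    rw [hx, D.adj', D.s_aeval, smul_smul, smul_smul]
    convert hx₀ using 3
    simp only [map_mul]; ring
  clear_value x
  have key : ∀ r : F[X], (∀ s : R, B ((aeval z r * s) • x) x = 0) → aeval z r • x = 0 := by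
    intro r hr
    by_cases h0 : r = 0
    · simp [h0]
    obtain ⟨i, r, h7, rfl⟩ := WfDvdMonoid.max_power_factor h0 hp
    rcases lt_or_ge m i with hi | hi
    · obtain ⟨i, rfl⟩ := Nat.exists_eq_add_of_lt hi
      rw [show p ^ (m + i + 1) * r = p ^ i * r * p ^ (m + 1) by ring, map_mul, mul_smul, k1,
        smul_zero]
    obtain ⟨i', rfl⟩ := Nat.exists_eq_add_of_le hi
    obtain ⟨a, b, hab⟩ := ((hp.coprime_iff_not_dvd.2 h7).pow_left (m := i + i' + 1))
    refine absurd ?_ k2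
    rw [← hr (T * aeval z (b * p ^ i')), ← mul_one (p ^ (i + i')), ← hab]
    congr 2
    simp only [map_mul, map_add, map_pow] at k1 ⊢
    linear_combination (norm := module) (T * aeval z p ^ (i + i') * aeval z a) • k1
  have zinv : ∀ c : R, d • c • x = 0 → c • x = 0 := fun c hc => by
    obtain ⟨a, b, hab⟩ := ((hp.coprime_iff_not_dvd.2 h4).pow_left (m := m + 1))
    have := congrArg (aeval z) hab
    rw [map_add, map_mul, map_mul, hzN, map_one] at this
    linear_combination (norm := module) (c * aeval z a) • k1 + (aeval z b * d) • hc - (c * this) • x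
  refine ⟨x, fun h => k2 (by rw [h, map_zero]), ?_, zinv⟩
  rintro _ ⟨c, c0, rfl⟩ hc
  replace hc : ∀ s : R, B (c • x) (s • x) = 0 := fun s => by simpa using hc _ ⟨s, 0, rfl⟩
  rw [smul_zero, add_zero]
  refine zinv c ?_
  have k3 : ∀ c' : R, (c' * c + σ (c' * c)) • x = 0 := fun c' => by
    obtain ⟨r, hr⟩ := D.sym (c' * c)
    rw [hr]
    refine key r fun s => ?_
    have e1 := hc (σ (c' * s))
    have e2 := hc (σ c' * s)
    rw [D.adj', D.inv, smul_smul, mul_right_comm] at e1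
    rw [D.adj, smul_smul, ← D.alt.neg_eq, ← mul_assoc, ← map_mul, mul_comm c, neg_eq_zero] at e2
    rw [← hr, add_mul, add_smul, map_add, LinearMap.add_apply, e1, e2, add_zero]
  have e1 := k3 1
  have e2 := k3 T
  rw [one_mul] at e1
  rw [map_mul, D.sT] at e2
  rw [hd]
  linear_combination (norm := module) e2 - ((T⁻¹ :) : R) • e1

end RB

end Cfsg.Lib.OreC
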