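import Cfsg.Agent.Lib.OreC.LP

/-! Lagrangian pairs adapted to a symplectic isometry: existence. -/

namespace Cfsg.Lib.OreC

open Module Polynomial Cfsg.Lib.Symp

universe u

variable {F V R : Type*} [Field F] [AddCommGroup V] [Module F V] {B : LinearMap.BilinForm F V}
  {f : End F V}

/-- a nondegenerate invariant subspace with an adapted pair -/
def Blk (B : LinearMap.BilinForm F V) (f : End F V) : Prop :=
  ∃ X : Submodule F V, X ≠ ⊥ ∧ (∀ x ∈ X, f x ∈ X) ∧ (∀ v ∈ X, (∀ u ∈ X, B v u = 0) → v = 0) ∧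
    LPon B f X

section
variable [CommRing R] [Algebra F R] [Module R V] [IsScalarTower F R V]
  {σ : R →ₐ[F] R} {T : Rˣ} {z : R}

theorem blk_of (hf : ∀ v, f v = (T : R) • v) {x y : V} (hx : x ≠ 0)
    (h : ∀ v ∈ s1 F R x y, (∀ u ∈ s1 F R x y, B v u = 0) → v = 0) (h' : LPon B f (s1 F R x y)) :
    Blk B f := by
  refine ⟨s1 F R x y, fun h0 => hx ((Submodule.eq_bot_iff _).1 h0 x ⟨1, 0, by simp⟩), ?_, h, h'⟩
  rintro _ ⟨p, q, rfl⟩
  exact ⟨T * p, T * q, by rw [hf]; module⟩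

theorem RB.blk_nil [FiniteDimensional F V] [Nontrivial V] (D : RB B σ T z) (nd : B.Nondegenerate)
    (hf : ∀ v, f v = (T : R) • v) {ε : F} (hε : ε * ε = 1) {n : ℕ}
    (hn : ∀ v, ((f - ε • 1) ^ n) v = 0) : Blk B f ∨ ((2 : F) ≠ 0 ∧ OB B (-f)) := by
  classical
  obtain ⟨N, hN⟩ : ∃ N : R, N = T - algebraMap F R ε := ⟨_, rfl⟩
  have e : ∀ (i : ℕ) v, ((f - ε • 1) ^ i) v = N ^ i • v := fun i => by
    induction i with
    | zero => simp
    | succ i ih => intro v; simp [pow_succ, ih, mul_smul, hN, hf, sub_smul]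
  have hn : ∃ n, ∀ v : V, N ^ n • v = 0 := ⟨n, fun v => by rw [← e, hn]⟩
  obtain ⟨k, hk⟩ := Nat.exists_eq_add_one_of_ne_zero (n := Nat.find hn) fun h => by
    obtain ⟨v, hv⟩ := exists_ne (0 : V)
    exact hv (by simpa [h] using Nat.find_spec hn v)
  have h1 := hk ▸ Nat.find_spec hn
  have h2 := Nat.find_min hn (m := k) (by omega)
  push Not at h2
  obtain ⟨x, hx⟩ := h2
  by_cases alt : ∀ a : V, B (N ^ k • a) a = 0
  swap
  · push Not at alt
    obtain ⟨a, ha⟩ := alt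
    exact .inl (blk_of hf (x := a) (y := 0) (fun h => ha (by rw [h, map_zero]))
      (D.free hε hN h1 fun c d h2 _ => by simp_all) (D.lp_even hf (by simp)))
  have fr : ∀ y, B (N ^ k • x) y ≠ 0 → ∀ v ∈ s1 F R x y, (∀ u ∈ s1 F R x y, B v u = 0) → v = 0 :=
    fun y hy => D.free hε hN h1 fun c d h2 h3 => by
      have := alt (x + y)
      simp only [smul_add, map_add, LinearMap.add_apply, alt, zero_add, add_zero, mul_zero] at *
      rw [eq_neg_of_add_eq_zero_left this] at h2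
      simp_all
  have x0 : x ≠ 0 := fun h => hx (by rw [h, smul_zero])
  rcases Nat.even_or_odd k with hk' | hk'
  swap
  · obtain ⟨y, hy, h3⟩ := D.exists_partner hε hN h1 nd hx (δ := 0) (u := 1) hk'
    exact .inl (blk_of hf x0 (fr y hy) (D.lp_even hf (by simpa using h3)))
  by_cases h4 : ε = 1
  · obtain ⟨y, hy, h3⟩ := D.exists_partner hε hN h1 nd hx (δ := 1) (u := T⁻¹) hk'.add_one
    refine .inl (blk_of hf x0 (fr y hy) (D.lp_odd hf fun p => ?_))
    rw [← h3 p, hN, h4, map_one, pow_one, mul_sub, T.inv_mul, mul_one]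
  have h5 : ε = -1 := (mul_self_eq_one_iff.1 hε).resolve_left h4
  obtain ⟨y, hy⟩ : ∃ y, B y (N ^ k • x) ≠ 0 := by
    by_contra h
    push Not at h
    exact hx (nd.2 _ h)
  have e' : -f - 1 = -(f - ε • 1) := by rw [h5, neg_smul, one_smul]; abel
  refine .inr ⟨fun h => h4 (by rw [h5]; linear_combination -h), k, y, x, hk', ?_, ?_, ?_⟩
  · rw [e', hk'.add_one.neg_pow, LinearMap.neg_apply, e, h1, neg_zero]
  · rw [e', hk'.add_one.neg_pow, LinearMap.neg_apply, e, h1, neg_zero]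
  · rwa [e', hk'.neg_pow, e]

end

theorem exists_rb [FiniteDimensional F V] (hf : SpE B f) :
    ∃ (R : Type _) (_ : CommRing R) (_ : Algebra F R) (_ : Module R V) (_ : IsScalarTower F R V)
      (σ : R →ₐ[F] R) (T : Rˣ) (z : R), RB B σ T z ∧ (∀ v, f v = (T : R) • v) ∧
        (R = MonoidAlgebra F (Multiplicative ℤ)) := by
  let g := hf.toIsom
  let β : isom B →* Module.End F V :=
    LinearEquiv.automorphismGroup.toLinearMapMonoidHom.comp (isom B).subtype
  let φ := MonoidAlgebra.lift F _ (Multiplicative ℤ) (β.comp (zpowersHom _ g))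
  let _ : Module (MonoidAlgebra F (Multiplicative ℤ)) V := Module.compHom V φ.toRingHom
  have hs : ∀ (a : Multiplicative ℤ) (r : F) (v : V),
      MonoidAlgebra.single a r • v = r • (g ^ a.toAdd).1 v := fun a r v => by
    change φ (.single a r) v = _
    rw [MonoidAlgebra.lift_single]; rfl
  have : IsScalarTower F (MonoidAlgebra F (Multiplicative ℤ)) V := ⟨fun c r v => by
    change φ (c • r) v = c • φ r v
    rw [map_smul]; rfl⟩
  let T := (MonoidAlgebra.of F (Multiplicative ℤ)).toHomUnits (.ofAdd 1)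
  have hT : ∀ i : ℤ, ((T ^ i :) : MonoidAlgebra F (Multiplicative ℤ)) = .single (.ofAdd i) 1 :=
    fun i => by rw [← map_zpow, ← ofAdd_zsmul, smul_eq_mul, mul_one]; rfl
  have h1 : ∀ v, f v = (T : MonoidAlgebra F (Multiplicative ℤ)) • v := fun v => by
    change g.1 v = _
    simpa [hs] using congrArg (· • v) (hT 1).symm
  refine ⟨_, inferInstance, inferInstance, inferInstance, this,
    MonoidAlgebra.mapDomainAlgHom F F invMonoidHom, T, T + ↑T⁻¹, ⟨hf.alt, fun r => ?_, ?_, rfl,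
      fun r => ?_, fun u v => by rw [← h1, ← h1, hf.inv]⟩, h1, rfl⟩
  · induction r using MonoidAlgebra.induction_linear with
    | zero => simp
    | add a b ha hb => rw [map_add, map_add, ha, hb]
    | single a r => simp
  · rw [← zpow_neg_one, hT, ← zpow_one T, hT]; simp
  induction r using MonoidAlgebra.induction_linear with
  | zero => exact ⟨0, 0, by simp⟩
  | add a b ha hb =>
    obtain ⟨p, p', rfl⟩ := ha
    obtain ⟨q, q', rfl⟩ := hb
    exact ⟨p + q, p' + q', by simp only [map_add]; ring⟩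
  | single a r =>
    obtain ⟨p, p', h⟩ := zpow_induction_left (g := T) (P := fun a => ∃ p p' : F[X],
      (a : MonoidAlgebra F (Multiplicative ℤ)) = aeval (T.1 + (T⁻¹).1) p +
        aeval (T.1 + (T⁻¹).1) p' * T.1) ⟨1, 0, by simp⟩ (by
      rintro a ⟨p, p', h⟩
      refine ⟨-p', p + p' * X, ?_⟩
      rw [Units.val_mul, h, map_neg, map_add, map_mul, aeval_X]
      linear_combination -aeval (T.1 + (T⁻¹).1) p' * T.mul_inv) (by
      rintro a ⟨p, p', h⟩
      refine ⟨p * X + p', -p, ?_⟩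
      rw [Units.val_mul, h, map_neg, map_add, map_mul, aeval_X]
      linear_combination aeval (T.1 + (T⁻¹).1) p' * T.mul_inv) a.toAdd
    refine ⟨r • p, r • p', ?_⟩
    rw [map_smul, map_smul, smul_mul_assoc, ← smul_add, ← h, hT]
    simp

theorem TI.sup {W W' : Submodule F V} (hA : B.IsAlt) (h : TI B W) (h' : TI B W')
    (h1 : ∀ u ∈ W, ∀ v ∈ W', B u v = 0) : TI B (W ⊔ W') := fun u hu v hv => by
  obtain ⟨a, ha, b, hb, rfl⟩ := Submodule.mem_sup.1 hu
  obtain ⟨c, hc, d, hd, rfl⟩ := Submodule.mem_sup.1 hv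
  simp [h a ha c hc, h' b hb d hd, h1 a ha d hd, hA.isRefl _ _ (h1 c hc b hb)]

theorem LPon.sup {X Y : Submodule F V} (hA : B.IsAlt) (h : LPon B f X) (h' : LPon B f Y)
    (h1 : ∀ u ∈ X, ∀ v ∈ Y, B u v = 0) : LPon B f (X ⊔ Y) := by
  obtain ⟨W, W', a1, a2, rfl, a3⟩ := h
  obtain ⟨U, U', b1, b2, rfl, b3⟩ := h'
  refine ⟨W ⊔ U, W' ⊔ U', a1.sup hA b1 fun u hu v hv => h1 _ (Submodule.mem_sup_left hu) _
    (Submodule.mem_sup_left hv), a2.sup hA b2 fun u hu v hv => h1 _ (Submodule.mem_sup_right hu) _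
    (Submodule.mem_sup_right hv), sup_sup_sup_comm _ _ _ _, fun w hw => ?_⟩
  obtain ⟨a, ha, b, hb, rfl⟩ := Submodule.mem_sup.1 hw
  rw [map_add, add_sub_add_comm]
  exact Submodule.add_mem_sup (a3 a ha) (b3 b hb)

theorem LPon.map {W : Type*} [AddCommGroup W] [Module F W] {C : LinearMap.BilinForm F W}
    {g : End F W} (e : W →ₗ[F] V) (h1 : ∀ u v, B (e u) (e v) = C u v) (h2 : ∀ v, e (g v) = f (e v))
    (h : LPon C g ⊤) : LPon B f (LinearMap.range e) := by
  obtain ⟨U, U', a1, a2, a3, a4⟩ := h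
  refine ⟨U.map e, U'.map e, ?_, ?_, by rw [← Submodule.map_sup, a3, Submodule.map_top], ?_⟩
  · rintro _ ⟨u, hu, rfl⟩ _ ⟨v, hv, rfl⟩; rw [h1, a1 u hu v hv]
  · rintro _ ⟨u, hu, rfl⟩ _ ⟨v, hv, rfl⟩; rw [h1, a2 u hu v hv]
  · rintro _ ⟨u, hu, rfl⟩; exact ⟨_, a4 u hu, by rw [map_sub, h2]⟩

theorem OB.map {W : Type*} [AddCommGroup W] [Module F W] {C : LinearMap.BilinForm F W}
    {g : End F W} (e : W →ₗ[F] V) (h1 : ∀ u v, B (e u) (e v) = C u v) (h2 : ∀ v, e (g v) = f (e v))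
    (h : OB C g) : OB B f := by
  obtain ⟨m, x, y, a1, a2, a3, a4⟩ := h
  exact ⟨m, e x, e y, a1, by rw [← semiconj_pow h2, a2, map_zero],
    by rw [← semiconj_pow h2, a3, map_zero], by rwa [← semiconj_pow h2, h1]⟩

theorem lp_aux (n : ℕ) : ∀ (V : Type u) [AddCommGroup V] [Module F V]
    [FiniteDimensional F V] (B : LinearMap.BilinForm F V) (f : End F V), SpE B f →
    finrank F V = n → LPon B f ⊤ ∨ ((2 : F) ≠ 0 ∧ OB B (-f)) := by
  induction n using Nat.strong_induction_on with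
  | _ n ih =>
  intro V _ _ _ B f hf hn
  subst hn
  rcases subsingleton_or_nontrivial V with hV | hV
  · exact .inl ⟨⊤, ⊤, fun u _ v _ => by simp [Subsingleton.elim u 0],
      fun u _ v _ => by simp [Subsingleton.elim u 0], by simp, by simp⟩
  have sub : ∀ (X : Submodule F V) (hX : ∀ x ∈ X, f x ∈ X), X ≠ ⊤ →
      SpE (B.restrict X) (f.restrict hX) → LPon B f X ∨ ((2 : F) ≠ 0 ∧ OB B (-f)) :=
    fun X hX h1 h2 => (ih _ (Submodule.finrank_lt h1) _ _ _ h2 rfl).imp
      (fun h => by simpa using LPon.map (B := B) (f := f) X.subtype (fun _ _ => rfl) (fun _ => rfl) h)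
      fun h => ⟨h.1, h.2.map X.subtype (fun _ _ => rfl) fun _ => rfl⟩
  have blk : Blk B f → LPon B f ⊤ ∨ ((2 : F) ≠ 0 ∧ OB B (-f)) := by
    rintro ⟨X, h0, h1, h2, h3⟩
    have S := hf.osplit_orthogonal h1 (Submodule.disjoint_def.2 fun x hx hx' =>
      h2 x hx fun u hu => hf.alt.isRefl _ _ (hx' u hu))
    exact (sub _ S.invR (fun h => h0 (eq_bot_of_isCompl_top (h ▸ S.compl))) (S.spE_right hf)).imp_left
      fun h => S.compl.sup_eq_top ▸ h3.sup hf.alt h S.orth
  obtain ⟨R, _, _, _, _, σ, T, z, D, hT, -⟩ := exists_rb hf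
  by_cases hn : ∀ k : ℕ, ∃ v : V, ((T : R) - (T⁻¹ :)) ^ k • v ≠ 0
  · obtain ⟨x, h0, h1, -⟩ := D.exists_cyc hf.nd rfl hn
    exact blk (blk_of hT h0 h1 (D.lp_even hT (by simp)))
  push Not at hn
  obtain ⟨k, hk⟩ := hn
  have e : ∀ (p : F[X]) v, aeval f p v = aeval (T : R) p • v := fun p => by
    induction p using Polynomial.induction_on with
    | C c => simp
    | add p q hp hq => intro v; simp [add_smul, hp, hq]
    | monomial n c ih => intro v; rw [pow_succ, ← mul_assoc, map_mul, map_mul _ _ X, aeval_X, aeval_X,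
        End.mul_apply, ih, hT, mul_smul]
  have h1 : aeval f ((X - C 1) ^ k * (X - C (-1)) ^ k : F[X]) = 0 := LinearMap.ext fun v => by
    rw [e, ← mul_pow, map_pow, show aeval (T : R) ((X - C 1) * (X - C (-1)) : F[X]) =
      T * (T - (T⁻¹ :)) by simp; linear_combination T.mul_inv, mul_pow, mul_smul, hk, smul_zero]
    rfl
  have nil : ∀ ε : F, ε * ε = 1 → ∀ n, aeval f ((X - C ε) ^ n) = 0 →
      LPon B f ⊤ ∨ ((2 : F) ≠ 0 ∧ OB B (-f)) := fun ε hε n h =>
    (D.blk_nil hf.nd hT hε (n := n) fun v => by rw [← GLC.aeval_X_sub_C_pow, h]; rfl).elim blk .inr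
  by_cases h2 : (2 : F) = 0
  · refine nil 1 (mul_one 1) (k + k) ?_
    rwa [show (-1 : F) = 1 by linear_combination -h2, ← pow_add] at h1
  have S := hf.osplit_ker (Q := (X - C 1) ^ k) (R := (X - C (-1)) ^ k)
    (isCoprime_X_sub_C_of_isUnit_sub (by rw [sub_neg_eq_add, one_add_one_eq_two]; exact .mk0 _ h2)).pow
    h1 (by simp [coeff_zero_eq_eval_zero]) (by rw [map_pow, rdual_X_sub_C (mul_one 1)])
  by_cases h3 : LinearMap.ker (aeval f ((X - C 1) ^ k : F[X])) = ⊤
  · exact nil 1 (mul_one 1) k (LinearMap.ker_eq_top.1 h3)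
  by_cases h4 : LinearMap.ker (aeval f ((X - C (-1)) ^ k : F[X])) = ⊤
  · exact nil (-1) (by simp) k (LinearMap.ker_eq_top.1 h4)
  rcases sub _ S.invL h3 (S.spE_left hf) with h5 | h5
  · exact (sub _ S.invR h4 (S.spE_right hf)).imp_left
      fun h => S.compl.sup_eq_top ▸ h5.sup hf.alt h S.orth
  · exact .inr h5

theorem lp_or [FiniteDimensional F V] (hf : SpE B f) : LPon B f ⊤ ∨ ((2 : F) ≠ 0 ∧ OB B (-f)) :=
  lp_aux _ V B f hf rfl

end Cfsg.Lib.OreC
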