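import Cfsg.Agent.Lib.OreC.LP2

/-! Levi elements for a pair of complementary Lagrangians and the resulting commutators. -/

namespace Cfsg.Lib.OreC

open Module Polynomial Cfsg.Lib.Symp Cfsg.Lib.GLC

variable {F V : Type*} [Field F] [AddCommGroup V] [Module F V] {B : LinearMap.BilinForm F V}
  {f : End F V} {W W' : Submodule F V}

theorem rdual_eq {P Q : F[X]} (n : ℕ) (h : P.natDegree = n)
    (h' : C (P.coeff 0)⁻¹ * reflect n P = Q) : rdual P = Q := by
  rw [Unitary.dual_apply, Polynomial.map_id, reverse, h]; exact h'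

theorem reflect_X' (n : ℕ) : reflect n (X : F[X]) = X ^ revAt n 1 := by
  rw [← reflect_monomial, pow_one]

/-- a polynomial coprime to its dual -/
structure Gp (M : F[X]) : Prop where
  c0 : M.coeff 0 ≠ 0
  cop : IsCoprime M (rdual M)

variable (F) in
/-- `M` kills some endomorphism in dimension `n` -/
def Kil (n : ℕ) (M : F[X]) : Prop :=
  ∃ μ : Multiset F[X], (∀ P ∈ μ, P.Monic ∧ P ∣ M) ∧ (μ.map natDegree).sum = n

theorem Kil.add {m n : ℕ} {M : F[X]} (h : Kil F m M) (h' : Kil F n M) : Kil F (m + n) M :=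
  let ⟨μ, a, b⟩ := h; let ⟨ν, c, d⟩ := h'
  ⟨μ + ν, fun P hP => (Multiset.mem_add.1 hP).elim (a P) (c P), by simp [b, d]⟩

theorem kil_mul {P M : F[X]} (h : P.Monic) (h' : P ∣ M) {d : ℕ} (hd : P.natDegree = d) (k : ℕ) :
    Kil F (k * d) M :=
  ⟨.replicate k P, fun Q hQ => Multiset.eq_of_mem_replicate hQ ▸ ⟨h, h'⟩, by simp [hd]⟩

theorem Kil.exists [FiniteDimensional F V] {M : F[X]} (h : Kil F (finrank F V) M) :
    ∃ x : End F V, aeval x M = 0 :=
  let ⟨_, a, b⟩ := h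
  let ⟨x, hx⟩ := exists_blocks_of_finrank (fun P hP => (a P hP).1) b
  ⟨x, hx.aeval_eq_zero_iff.2 fun P hP => (a P hP).2⟩

theorem injective_of_aeval {M : F[X]} (h0 : M.coeff 0 ≠ 0) (h : aeval f M = 0) :
    Function.Injective f := (injective_iff_map_eq_zero f).2 fun v hv => by
  have := LinearMap.congr_fun h v
  rw [← M.divX_mul_X_add, map_add, map_mul, aeval_X, aeval_C] at this
  simpa [hv, h0] using this

theorem sim_of_irreducible {U : Type*} [AddCommGroup U] [Module F U] [FiniteDimensional F V]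
    [FiniteDimensional F U] {g : End F U} {P : F[X]} (h1 : P.Monic) (h2 : Irreducible P)
    (hf : aeval f P = 0) (hg : aeval g P = 0) (h : finrank F V = finrank F U) : Sim f g := by
  have k : ∀ μ : Multiset F[X], (∀ Q ∈ μ, PP Q) → (∀ Q ∈ μ, Q ∣ P) → μ = .replicate μ.card P :=
    fun μ a b => Multiset.eq_replicate_card.2 fun Q hQ => eq_of_monic_of_associated (a Q hQ).monic h1
      ((h2.dvd_iff.1 (b Q hQ)).resolve_left fun hu =>
        (a Q hQ).natDegree_pos.ne' (natDegree_eq_zero_of_isUnit hu)).symm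
  have e1 := k _ (typ_pp f) ((blocks_typ f).aeval_eq_zero_iff.1 hf)
  have e2 := k _ (typ_pp g) ((blocks_typ g).aeval_eq_zero_iff.1 hg)
  rw [(blocks_typ f).finrank_eq, (blocks_typ g).finrank_eq, e1, e2] at h
  simp only [Multiset.map_replicate, Multiset.sum_replicate, smul_eq_mul] at h
  rw [sim_iff_typ_eq, e1, e2, Nat.eq_of_mul_eq_mul_right h2.natDegree_pos h]

variable (B W W') in
/-- complementary Lagrangians -/
structure Lg : Prop where
  alt : B.IsAlt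
  nd : B.Nondegenerate
  ti : TI B W
  ti' : TI B W'
  top : W ⊔ W' = ⊤

variable (B) in
/-- the natural representation -/
def rhoS : isom B →* End F V :=
  LinearEquiv.automorphismGroup.toLinearMapMonoidHom.comp (isom B).subtype

theorem rhoS_injective : Function.Injective (rhoS B) := fun _ _ h =>
  Subtype.ext (LinearEquiv.toLinearMap_injective h)

theorem finite_isom [Finite F] [FiniteDimensional F V] : Finite (isom B) :=
  have := Module.finite_of_finite F (M := V)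
  .of_injective (fun g : isom B => (g.1 : V → V)) fun _ _ h => Subtype.ext (DFunLike.coe_injective h)

namespace Lg

variable (L : Lg B W W')
include L

theorem symm : Lg B W' W := ⟨L.alt, L.nd, L.ti', L.ti, sup_comm W W' ▸ L.top⟩

theorem dec (v : V) : ∃ a ∈ W, ∃ b ∈ W', a + b = v := Submodule.mem_sup.1 (L.top ▸ trivial)

theorem mem {v : V} (h : ∀ w ∈ W, B w v = 0) : v ∈ W := by
  obtain ⟨a, ha, b, hb, rfl⟩ := L.dec v
  have : b = 0 := L.nd.2 b fun u => by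
    obtain ⟨c, hc, d, hd, rfl⟩ := L.dec u
    simpa [L.ti c hc a ha, L.ti' d hd b hb] using h c hc
  simpa [this]

theorem compl : IsCompl W W' := ⟨Submodule.disjoint_def.2 fun v h h' => L.nd.2 v fun u => by
  obtain ⟨c, hc, d, hd, rfl⟩ := L.dec u
  simp [L.ti c hc v h, L.ti' d hd v h'], codisjoint_iff.2 L.top⟩

theorem finrank_eq [FiniteDimensional F V] : finrank F V = 2 * finrank F W := by
  have h : B.orthogonal W = W := le_antisymm (fun v hv => L.mem hv) fun v hv u hu => L.ti u hu v hv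
  have := LinearMap.BilinForm.finrank_orthogonal L.nd W
  have := W.finrank_le
  rw [h] at *
  omega

theorem spE {a : End F V} (h1 : ∀ u ∈ W, ∀ v ∈ W, B (a u) (a v) = 0)
    (h2 : ∀ u ∈ W', ∀ v ∈ W', B (a u) (a v) = 0) (h3 : ∀ u ∈ W, ∀ v ∈ W', B (a u) (a v) = B u v) :
    SpE B a := ⟨L.alt, L.nd, fun u v => by
  obtain ⟨c, hc, d, hd, rfl⟩ := L.dec u
  obtain ⟨c', hc', d', hd', rfl⟩ := L.dec v
  simp only [map_add, LinearMap.add_apply]
  rw [← L.alt.neg_eq (a c') (a d), ← L.alt.neg_eq c' d, h1 c hc c' hc', h2 d hd d' hd', h3 c hc d' hd',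
    h3 c' hc' d hd, L.ti c hc c' hc', L.ti' d hd d' hd']⟩

theorem exists_rad (hf : SpE B f) (h : ∀ w ∈ W, f w - w ∈ W') :
    ∃ q : End F V, SpE B q ∧ (∀ w ∈ W, q w = f w) ∧ ∀ w ∈ W', q w = w := by
  let q := LinearMap.ofIsCompl L.compl (f ∘ₗ W.subtype) W'.subtype
  have h1 : ∀ w ∈ W, q w = f w := fun w hw => LinearMap.ofIsCompl_apply_left _ ⟨w, hw⟩
  have h2 : ∀ w ∈ W', q w = w := fun w hw => LinearMap.ofIsCompl_apply_right _ ⟨w, hw⟩
  refine ⟨q, L.spE (fun u hu v hv => ?_) (fun u hu v hv => ?_) fun u hu v hv => ?_, h1, h2⟩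
  · rw [h1 u hu, h1 v hv, hf.inv, L.ti u hu v hv]
  · rw [h2 u hu, h2 v hv, L.ti' u hu v hv]
  · simpa [h1 u hu, h2 v hv, sub_eq_zero] using L.ti' _ (h u hu) v hv

theorem mem_rad {q : isom B} (h : ∀ w ∈ W, q.1 w = w) : q ∈ rad (rhoS B) W W le_rfl :=
  have h1 : ∀ v, rhoS B q v - v ∈ W := fun v => L.mem fun w hw => by
    rw [map_sub, ← q.2 w v, h w hw]; exact sub_self _
  ⟨h1, fun v _ => h1 v, h⟩

variable [FiniteDimensional F V]

theorem exists_levi {x : End F W} (hx : Function.Injective x) :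
    ∃ a : End F V, SpE B a ∧ (∀ w : W, a w = x w) ∧ ∀ w ∈ W', a w ∈ W' := by
  obtain ⟨g, hg, h⟩ := exists_isom_of_map L.alt L.nd W (W.subtype ∘ₗ x)
    (W.injective_subtype.comp hx) fun u v => by rw [L.ti _ u.2 _ v.2]; exact L.ti _ (x u).2 _ (x v).2
  let p := W'.projectionOnto W L.compl.symm
  let a := LinearMap.ofIsCompl L.compl (W.subtype ∘ₗ x) (W'.subtype ∘ₗ p ∘ₗ g.toLinearMap ∘ₗ W'.subtype)
  have h1 : ∀ w : W, a w = x w := fun w => LinearMap.ofIsCompl_apply_left _ w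
  have h2 : ∀ w ∈ W', a w = p (g w) := fun w hw => LinearMap.ofIsCompl_apply_right _ ⟨w, hw⟩
  refine ⟨a, L.spE (fun u hu v hv => ?_) (fun u hu v hv => ?_) fun u hu v hv => ?_, h1,
    fun w hw => h2 w hw ▸ (p _).2⟩
  · rw [h1 ⟨u, hu⟩, h1 ⟨v, hv⟩, L.ti _ (x _).2 _ (x _).2]
  · rw [h2 u hu, h2 v hv, L.ti' _ (p _).2 _ (p _).2]
  · obtain ⟨c, hc, d, hd, e⟩ := L.dec (g v)
    have h3 : p (g v) = ⟨d, hd⟩ := by
      rw [← e, map_add, Submodule.projectionOnto_apply_right _ ⟨c, hc⟩,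
        Submodule.projectionOnto_apply_left _ ⟨d, hd⟩, zero_add]
    rw [h1 ⟨u, hu⟩, h2 v hv, h3, ← hg u v, ← e, h ⟨u, hu⟩, map_add,
      L.ti ((W.subtype ∘ₗ x) _) (x _).2 c hc, zero_add]
    rfl

theorem exists_levi_kil {M : F[X]} (h0 : M.coeff 0 ≠ 0) (h : Kil F (finrank F W) M) :
    ∃ a : End F V, SpE B a ∧ (∀ w ∈ W, a w ∈ W) ∧ (∀ w ∈ W', a w ∈ W') ∧
      ∀ w ∈ W, aeval a M w = 0 := by
  obtain ⟨x, hx⟩ := h.exists
  obtain ⟨a, h1, h2, h3⟩ := L.exists_levi (injective_of_aeval h0 hx)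
  have h4 : ∀ w ∈ W, a w ∈ W := fun w hw => h2 ⟨w, hw⟩ ▸ (x _).2
  refine ⟨a, h1, h4, h3, fun w hw => ?_⟩
  rw [← aeval_restrict_apply h4 M ⟨w, hw⟩, show a.restrict h4 = x from
    LinearMap.ext fun w => Subtype.ext (h2 w), hx]
  rfl

theorem dual_mem {a : End F V} (ha : SpE B a) {M : F[X]} (h0 : M.coeff 0 ≠ 0)
    (h3 : ∀ w ∈ W, aeval a M w = 0) (v : V) : aeval a (rdual M) v ∈ W :=
  L.mem fun w hw => ha.orth_of_aeval h0 (h3 w hw) v

theorem dual_zero {a : End F V} (ha : SpE B a) {M : F[X]} (h0 : M.coeff 0 ≠ 0)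
    (h2 : ∀ w ∈ W', a w ∈ W') (h3 : ∀ w ∈ W, aeval a M w = 0) :
    ∀ w ∈ W', aeval a (rdual M) w = 0 := fun w hw =>
  Submodule.disjoint_def.1 L.compl.disjoint _ (L.dual_mem ha h0 h3 w)
    (aeval_restrict_apply h2 _ ⟨w, hw⟩ ▸ Subtype.prop _)

theorem gd {a : End F V} (ha : SpE B a) {M : F[X]} (hM : Gp M) (h1 : ∀ w ∈ W, a w ∈ W)
    (h3 : ∀ w ∈ W, aeval a M w = 0) : Gd a W W :=
  ⟨h1, h1, M, 1, rdual M, h3, by simp, L.dual_mem ha hM.c0 h3, isCoprime_one_right,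
    by simpa using hM.cop.symm⟩

theorem gd' {a : End F V} (ha : SpE B a) {M : F[X]} (hM : Gp M)
    (h2 : ∀ w ∈ W', a w ∈ W') (h3 : ∀ w ∈ W, aeval a M w = 0) : Gd a W' W' := by
  refine ⟨h2, h2, rdual M, 1, M, L.dual_zero ha hM.c0 h2 h3, by simp, fun v => ?_,
    isCoprime_one_right, by simpa using hM.cop⟩
  obtain ⟨c, hc, d, hd, rfl⟩ := L.dec v
  rw [map_add, h3 c hc, zero_add]
  exact aeval_restrict_apply h2 _ ⟨d, hd⟩ ▸ Subtype.prop _

theorem isC [Finite F] {ε : F} (hε : ε * ε = 1) (hf : SpE B f) (h : ∀ w ∈ W, (ε • f) w - w ∈ W')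
    {a : End F V} (ha : SpE B a) (h1 : Gd a W' W') (h2 : Gd (ε • a) W W) (h3 : ISim B a B (ε • a)) :
    IsC hf.toIsom := by
  have := finite_isom (B := B)
  obtain ⟨q, hq, h4, h5⟩ := L.exists_rad (hf.smul hε) h
  obtain ⟨e, he, h6⟩ := h3
  have h7 := isC_of_rad rhoS_injective (x := ha.toIsom) (y := (ha.smul hε).toIsom) h1 h2
    (L.mem_rad (q := (hq.toIsom * ha.toIsom * (ha.smul hε).toIsom⁻¹)⁻¹ * hf.toIsom) fun w hw => ?_)
    (L.symm.mem_rad (q := hq.toIsom) h5)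
    (isConj_iff.2 ⟨⟨e, he⟩, mul_inv_eq_iff_eq_mul.2 (Subtype.ext (LinearEquiv.ext h6))⟩)
  · rwa [mul_inv_cancel_left] at h7
  refine (LinearEquiv.symm_apply_eq _).2 ?_
  obtain ⟨v, rfl⟩ := (ha.smul hε).toIsom.1.surjective w
  change f ((ε • a) v) = q (a ((ha.smul hε).toIsom.1.symm _))
  rw [LinearEquiv.symm_apply_apply]
  have := h4 _ hw
  change q (ε • a v) = ε • f (ε • a v) at this
  rw [LinearMap.smul_apply, ← one_smul F (a v), ← hε, mul_smul, map_smul q, this]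
  simp [smul_smul, hε]

end Lg

end Cfsg.Lib.OreC
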