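import Cfsg.Agent.Lib.OreC.Lag
import Cfsg.Agent.Lib.Orth.Semis
import Cfsg.Agent.Lib.Orth.Levi

/-! Opposite totally singular subspaces of an orthogonal space: big cell and commutators. -/

namespace Cfsg.Lib.OreC

open Module Polynomial QuadraticMap Cfsg.Lib.Orth
open Cfsg.Lib.Symp (rdual aeval_rdual)

/-- a commutator of two elements of the derived subgroup -/
def ICG {G : Type*} [Group G] (g : G) : Prop :=
  ∃ a ∈ commutator G, ∃ b ∈ commutator G, g = a * b * a⁻¹ * b⁻¹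

section
variable {G : Type*} [Group G]

theorem ICG.conj {g : G} (h : ICG g) (c : G) : ICG (c * g * c⁻¹) := by
  obtain ⟨a, ha, b, hb, rfl⟩ := h
  exact ⟨_, Subgroup.Normal.conj_mem inferInstance a ha c, _,
    Subgroup.Normal.conj_mem inferInstance b hb c, by group⟩

theorem ICG.of_conj {g : G} (c : G) (h : ICG (c * g * c⁻¹)) : ICG g := by
  simpa [mul_assoc] using h.conj c⁻¹

theorem ICG.inv {g : G} (h : ICG g) : ICG g⁻¹ := by
  obtain ⟨a, ha, b, hb, rfl⟩ := h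
  exact ⟨b, hb, a, ha, by group⟩

theorem icg_one : ICG (1 : G) := ⟨1, one_mem _, 1, one_mem _, by simp⟩

theorem icg_of_conj {x g : G} (hx : x ∈ commutator G) (hg : g ∈ commutator G) :
    ICG (x * (g * x * g⁻¹)⁻¹) := ⟨x, hx, g, hg, by group⟩

theorem ICG.map {H : Type*} [Group H] {g : G} (h : ICG g) (φ : G →* H) : ICG (φ g) := by
  obtain ⟨a, ha, b, hb, rfl⟩ := h
  exact ⟨_, map_mem_commutator φ ha, _, map_mem_commutator φ hb, by simp⟩

end

variable {F V : Type*} [Field F] [AddCommGroup V] [Module F V]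

theorem icg_of_rad {G : Type*} [Group G] [Finite G] {ρ : G →* End F V}
    (hρ : Function.Injective ρ) {U₁ U₂ U₁' U₂' : Submodule F V} {h : U₁ ≤ U₂} {h' : U₁' ≤ U₂'}
    {x g q q' : G} (hx : Gd (ρ x) U₁' U₂') (hy : Gd (ρ (g * x * g⁻¹)) U₁ U₂)
    (hq : q ∈ rad ρ U₁ U₂ h) (hq' : q' ∈ rad ρ U₁' U₂' h') (h1 : x ∈ commutator G)
    (h2 : g ∈ commutator G) : ICG (q' * x * (g * x * g⁻¹)⁻¹ * q) := by
  have k : ∀ {r x s : G}, r * x = s * x * s⁻¹ → r ∈ commutator G := fun {r x s} e => by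
    rw [← mul_inv_cancel_right r x, e]
    exact Subgroup.commutator_mem_commutator trivial trivial
  obtain ⟨r, r1, hr⟩ := hx.conj hρ hq'
  obtain ⟨s, s1, hs⟩ := hy.conj hρ (inv_mem hq)
  obtain ⟨_, -, r2⟩ := hx.conj hρ r1
  obtain ⟨_, -, s2⟩ := hy.conj hρ s1
  refine ⟨r * x * r⁻¹, mul_mem (mul_mem (k r2) h1) (inv_mem (k r2)), s * g * r⁻¹,
    mul_mem (mul_mem (k s2) h2) (inv_mem (k r2)), ?_⟩
  calc _ = q' * x * (q⁻¹ * (g * x * g⁻¹))⁻¹ := by group
    _ = _ := by rw [hr, hs]; group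

theorem mem_commutator_of_rad {G : Type*} [Group G] [Finite G] {ρ : G →* End F V}
    (hρ : Function.Injective ρ) {U₁ U₂ : Submodule F V} {h : U₁ ≤ U₂} {x q : G}
    (hx : Gd (ρ x) U₁ U₂) (hq : q ∈ rad ρ U₁ U₂ h) : q ∈ commutator G := by
  obtain ⟨s, -, e⟩ := hx.conj hρ hq
  rw [← mul_inv_cancel_right q x, e]
  exact Subgroup.commutator_mem_commutator trivial trivial

/-- the natural representation of the orthogonal group -/
def rhoO (Q : QuadraticForm F V) : O Q →* End F V :=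
  LinearEquiv.automorphismGroup.toLinearMapMonoidHom.comp (O Q).subtype

variable {Q : QuadraticForm F V}

@[simp] theorem rhoO_apply (g : O Q) (v : V) : rhoO Q g v = g.1 v := rfl

theorem rhoO_injective : Function.Injective (rhoO Q) := fun _ _ h =>
  Subtype.ext (LinearEquiv.toLinearMap_injective h)

theorem adj_aeval (g : O Q) (M : F[X]) (x y : V) :
    polar Q (aeval (rhoO Q g) M x) y = polar Q x (aeval (rhoO Q g⁻¹) M y) := by
  induction M using Polynomial.induction_on' with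
  | add P R hP hR => simp [hP, hR]
  | monomial k a =>
    simp only [aeval_monomial, ← Algebra.smul_def, LinearMap.smul_apply, polar_smul_left',
      polar_smul_right', ← map_pow, rhoO_apply, O.polar_left, inv_pow]

theorem aeval_rdual_inv (g : O Q) {M : F[X]} {x : V} (hx : aeval (rhoO Q g) M x = 0) :
    aeval (rhoO Q g⁻¹) (rdual M) x = 0 := by
  have h := aeval_rdual ((rhoO Q).toHomUnits g) M
  rw [← map_inv] at h
  change aeval (rhoO Q g⁻¹) _ * rhoO Q g ^ _ = _ • aeval (rhoO Q g) M at h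
  have : Commute (aeval (rhoO Q g⁻¹) (rdual M)) (rhoO Q g ^ M.natDegree) :=
    ((GLC.commute_aeval (((Commute.refl g).inv_right).map _) _).symm).pow_right _
  rw [this.eq, ← map_pow] at h
  refine (g ^ M.natDegree).1.injective ?_
  rw [← rhoO_apply, ← End.mul_apply, h]
  simp [hx]

theorem orth_of_aeval (g : O Q) {M : F[X]} {x : V} (hx : aeval (rhoO Q g) M x = 0) (w : V) :
    polar Q x (aeval (rhoO Q g) (rdual M) w) = 0 := by
  have := adj_aeval g⁻¹ (rdual M) x w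
  rw [aeval_rdual_inv g hx, inv_inv] at this
  simpa using this.symm

theorem aeval_mem {f : End F V} {W : Submodule F V} (h : ∀ w ∈ W, f w ∈ W) (M : F[X]) {w : V}
    (hw : w ∈ W) : aeval f M w ∈ W :=
  Symp.aeval_restrict_apply h M ⟨w, hw⟩ ▸ Subtype.prop _

variable (Q) in
/-- the unipotent radical of the stabiliser of a totally singular subspace -/
def radO {W : Submodule F V} (h : TS Q W) : Subgroup (O Q) := rad (rhoO Q) W (perp Q W) h.le_perp

theorem radO_conj [FiniteDimensional F V] {W : Submodule F V} {h : TS Q W} {a q : O Q}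
    (ha : ∀ w ∈ W, a.1 w ∈ W) (hq : q ∈ radO Q h) : a⁻¹ * q * a ∈ radO Q h := by
  obtain ⟨q1, q2, q3⟩ := hq
  have e : ∀ v, rhoO Q (a⁻¹ * q * a) v - v = (a⁻¹).1 (rhoO Q q (a.1 v) - a.1 v) := fun v => by
    simp [O.mul_apply]
  refine ⟨fun v => e v ▸ O.mapsTo_perp (O.inv_mapsTo ha) _ (q1 _),
    fun v hv => e v ▸ O.inv_mapsTo ha _ (q2 _ (O.mapsTo_perp ha v hv)), fun v hv => ?_⟩
  rw [← sub_eq_zero, e, q3 _ (ha v hv), sub_self, map_zero]

variable (Q) in
/-- opposite totally singular subspaces with orthogonal complement `D` -/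
structure Hp (W W' D : Submodule F V) : Prop where
  nd : ND Q
  ts : TS Q W
  ts' : TS Q W'
  os : IsOSum Q (W ⊔ W') D

namespace Hp

variable {W W' D : Submodule F V} (H : Hp Q W W' D)
include H

theorem symm : Hp Q W' W D := ⟨H.nd, H.ts', H.ts, sup_comm W W' ▸ H.os⟩

theorem dec (v : V) : ∃ w ∈ W, ∃ w' ∈ W', ∃ d ∈ D, v = w + w' + d := by
  obtain ⟨h, hh, d, hd, rfl⟩ := H.os.exists_add v
  obtain ⟨w, hw, w', hw', rfl⟩ := Submodule.mem_sup.1 hh
  exact ⟨w, hw, w', hw', d, hd, rfl⟩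

theorem wd {w d : V} (hw : w ∈ W) (hd : d ∈ D) : polar Q w d = 0 :=
  H.os.orth w (Submodule.mem_sup_left hw) d hd

theorem dw {w d : V} (hw : w ∈ W) (hd : d ∈ D) : polar Q d w = 0 :=
  polar_comm Q w d ▸ H.wd hw hd

theorem le_perp : D ≤ perp Q W := fun _ hd => mem_perp.2 fun _ hw => H.wd hw hd

theorem eq_zero {w : V} (hw : w ∈ W') (h : ∀ u ∈ W, polar Q u w = 0) : w = 0 :=
  H.nd.eq_zero fun v => by
    obtain ⟨a, ha, b, hb, d, hd, rfl⟩ := H.dec v
    rw [polar_add_right, polar_add_right, polar_comm, h a ha, H.ts'.polar_eq hw hb,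
      H.symm.wd hw hd]; simp

theorem dec_perp {v : V} (hv : v ∈ perp Q W) : ∃ w ∈ W, ∃ d ∈ D, v = w + d := by
  obtain ⟨a, ha, b, hb, d, hd, rfl⟩ := H.dec v
  have : b = 0 := H.eq_zero hb fun u hu => by
    simpa [H.ts.polar_eq hu ha, H.wd hu hd] using mem_perp.1 hv u hu
  exact ⟨a, ha, d, hd, by simp [this]⟩

theorem mem_D {v : V} (h : v ∈ perp Q W) (h' : v ∈ perp Q W') : v ∈ D := by
  rw [← H.os.perp_left H.nd, perp_sup]; exact ⟨h, h'⟩

theorem compl : IsCompl W (perp Q W') := by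
  refine ⟨Submodule.disjoint_def.2 fun v h h' => H.symm.eq_zero h (mem_perp.1 h'),
    codisjoint_iff.2 (eq_top_iff.2 fun v _ => ?_)⟩
  obtain ⟨a, ha, b, hb, d, hd, rfl⟩ := H.dec v
  rw [add_assoc]
  exact Submodule.add_mem_sup ha (add_mem (H.ts'.le_perp hb) (H.symm.le_perp hd))

theorem eq_of_sub {a b : V} (ha : a ∈ D) (hb : b ∈ D) (h : a - b ∈ W ⊔ W') : a = b :=
  sub_eq_zero.1 (Submodule.disjoint_def.1 H.os.isCompl.disjoint _ h (sub_mem ha hb))

theorem mem_rad {q : O Q} (h1 : q ∈ fixer Q W) (h2 : ∀ d ∈ D, q.1 d - d ∈ W) :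
    q ∈ radO Q H.ts := by
  refine ⟨fun v => mem_perp.2 fun w hw => ?_, fun v hv => ?_, h1⟩
  · rw [polar_sub_right, ← O.map_polar q w v, h1 w hw]; exact sub_self _
  · obtain ⟨w, hw, d, hd, rfl⟩ := H.dec_perp hv
    simpa [h1 w hw] using h2 d hd

theorem fix_D {ρ : O Q} (h : ρ ∈ fixer Q (W ⊔ W')) {d : V} (hd : d ∈ D) : ρ.1 d ∈ D := by
  rw [← H.os.perp_left H.nd] at hd ⊢
  exact mem_perp.2 fun w hw => by rw [← h w hw, O.map_polar]; exact mem_perp.1 hd w hw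

variable [FiniteDimensional F V]

theorem finrank_eq : finrank F W = finrank F W' := by
  have := Submodule.finrank_add_eq_of_isCompl H.compl
  have := finrank_add_finrank_perp H.nd W'
  omega

theorem finrank_D : 2 * finrank F W + finrank F D = finrank F V := by
  have := H.os.finrank_add
  have h2 := Submodule.finrank_sup_add_finrank_inf_eq W W'
  rw [show W ⊓ W' = ⊥ from (H.compl.disjoint.mono_right H.ts'.le_perp).eq_bot, finrank_bot] at h2
  have := H.finrank_eq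
  omega

theorem mapsTo_D {a : O Q} (h1 : ∀ w ∈ W, a.1 w ∈ W) (h2 : ∀ w ∈ W', a.1 w ∈ W') {d : V}
    (hd : d ∈ D) : a.1 d ∈ D :=
  H.mem_D (O.mapsTo_perp h1 d (H.le_perp hd)) (O.mapsTo_perp h2 d (H.symm.le_perp hd))

theorem split {g : O Q} (hg : g ∈ fixer Q W) :
    ∃ ρ ∈ fixer Q (W ⊔ W'), g * ρ⁻¹ ∈ radO Q H.ts ∧ ∀ d ∈ D, g.1 d - ρ.1 d ∈ W := by
  let π := D.projection _ H.os.isCompl.symm
  have h1 : ∀ v ∈ W ⊔ W', π v = 0 := fun v hv => Submodule.projection_apply_right _ ⟨v, hv⟩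
  have h2 : ∀ d ∈ D, π d = d := fun v hv => Submodule.projection_apply_of_mem_left _ hv
  have h3 : ∀ d ∈ D, g.1 d - π (g.1 d) ∈ W := fun d hd => by
    obtain ⟨w, hw, d', hd', e⟩ := H.dec_perp (O.mapsTo_perp (fun w hw => (hg w hw).symm ▸ hw) d
      (H.le_perp hd))
    rw [e, map_add, h1 w (Submodule.mem_sup_left hw), h2 d' hd']; simpa
  let ρ := O.ofLinear H.nd (1 - π + π * rhoO Q g * π) fun v => by
    obtain ⟨h, hh, d, hd, rfl⟩ := H.os.exists_add v
    have := h3 d hd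
    have h4 : π (g.1 d) ∈ D := Submodule.projection_apply_mem _ _
    have h5 := Q_add Q (g.1 d - π (g.1 d)) (π (g.1 d))
    rw [sub_add_cancel, O.map_Q, H.ts _ this, H.wd this h4] at h5
    simp [h1 h hh, h2 d hd, H.os.Q_add hh hd, H.os.Q_add hh h4, h5]
  have h4 : ρ ∈ fixer Q (W ⊔ W') := fun v hv => by simp [ρ, h1 v hv]
  have h5 : ∀ d ∈ D, g.1 d - ρ.1 d ∈ W := fun d hd => by simpa [ρ, h2 d hd] using h3 d hd
  refine ⟨ρ, h4, H.mem_rad (mul_mem hg fun w hw => inv_mem h4 w (Submodule.mem_sup_left hw))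
    fun d hd => ?_, h5⟩
  simpa [O.mul_apply] using h5 _ (H.fix_D (inv_mem h4) hd)

theorem bigcell {S a : O Q} (h1 : ∀ w ∈ W, a.1 w ∈ W)
    (h : ∀ w ∈ W, ∀ w' ∈ W', polar Q w' (S.1 w) = polar Q w' (a.1 w)) :
    ∃ q' ∈ radO Q H.ts', ∃ ρ ∈ fixer Q (W ⊔ W'), ∃ q ∈ radO Q H.ts, S = q' * ρ * a * q := by
  let p := W.projection _ H.compl
  have p1 : ∀ w ∈ W, p w = w := fun v hv => Submodule.projection_apply_of_mem_left _ hv
  have p2 : ∀ w ∈ W', p w = 0 := fun v hv =>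
    Submodule.projection_apply_right _ ⟨v, H.ts'.le_perp hv⟩
  have h2 : ∀ w ∈ W, ∀ w' ∈ W', polar Q w' ((S * a⁻¹).1 w) = polar Q w' w := fun w hw w' hw' => by
    rw [O.mul_apply, h _ (O.inv_mapsTo h1 w hw) w' hw', O.apply_inv_apply]
  have e : ∀ w ∈ W, ∀ w' ∈ W', (1 - p + rhoO Q (S * a⁻¹) * p) (w + w') = (S * a⁻¹).1 w + w' :=
    fun w hw w' hw' => by simp [p1 w hw, p2 w' hw', add_comm]
  obtain ⟨g, hg⟩ := witt_map H.nd (X := W ⊔ W') (1 - p + rhoO Q (S * a⁻¹) * p) (fun x hx => by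
    obtain ⟨w, hw, w', hw', rfl⟩ := Submodule.mem_sup.1 hx
    rw [e w hw w' hw', Q_add, Q_add, O.map_Q, polar_comm, h2 w hw w' hw', polar_comm]) fun x hx h0 => by
    obtain ⟨w, hw, w', hw', rfl⟩ := Submodule.mem_sup.1 hx
    rw [e w hw w' hw'] at h0
    have : w = 0 := H.symm.eq_zero hw fun u hu => by
      rw [← h2 w hw u hu, eq_neg_of_add_eq_zero_left h0, polar_neg_right, H.ts'.polar_eq hu hw',
        neg_zero]
    simpa [this] using h0
  obtain ⟨ρ, r1, r2, -⟩ := H.symm.split (g := g) fun w hw => by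
    simpa using (hg w (Submodule.mem_sup_right hw)).trans (by simpa using e 0 (zero_mem _) w hw)
  obtain ⟨σ, s1, s2, -⟩ := H.split (g := (S * a⁻¹)⁻¹ * g) fun w hw => by
    rw [O.mul_apply, O.inv_apply_eq, hg w (Submodule.mem_sup_left hw)]
    simpa using e w hw 0 (zero_mem _)
  rw [sup_comm] at r1
  exact ⟨_, r2, ρ * σ⁻¹, mul_mem r1 (inv_mem s1), _, radO_conj h1 (inv_mem s2), by group⟩

omit [FiniteDimensional F V] in
theorem fix_of {q' ρ a q : O Q} (hq' : q' ∈ radO Q H.ts') (hρ : ρ ∈ fixer Q (W ⊔ W'))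
    (hq : q ∈ radO Q H.ts) (h1 : ∀ w ∈ W, a.1 w ∈ W) {v w : V} (hv : v ∈ D) (ha : a.1 v = v)
    (hw : w ∈ W) (h : (q' * ρ * a * q).1 (v + w) - v ∈ W') : ρ.1 v = v := by
  have e1 := h1 _ (add_mem (hq.2.1 v (H.le_perp hv)) hw)
  have e2 := (inv_mem hq').2.1 _ (add_mem (H.ts'.le_perp h) (H.symm.le_perp hv))
  have e3 : q.1 w = w := hq.2.2 w hw
  have e4 := hρ _ (Submodule.mem_sup_left e1)
  refine H.eq_of_sub (H.fix_D hρ hv) hv ?_
  have := sub_mem (Submodule.mem_sup_right (S := W) (add_mem e2 h)) (Submodule.mem_sup_left e1)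
  rw [← e4] at this
  convert this using 1
  simp [O.mul_apply, e3, ha]; abel

theorem gd {a : O Q} (h1 : ∀ w ∈ W, a.1 w ∈ W) (h2 : ∀ w ∈ W', a.1 w ∈ W') {M P : F[X]}
    (c1 : IsCoprime M (rdual M)) (c2 : IsCoprime M P) (c3 : IsCoprime (rdual M) P)
    (h3 : ∀ w ∈ W, aeval (rhoO Q a) M w = 0) (h4 : ∀ d ∈ D, aeval (rhoO Q a) P d = 0) :
    Gd (rhoO Q a) W (perp Q W) ∧ Gd (rhoO Q a) W' (perp Q W') := by
  have h5 : ∀ v, aeval (rhoO Q a) (rdual M) v ∈ perp Q W := fun v =>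
    mem_perp.2 fun w hw => orth_of_aeval a (h3 w hw) v
  refine ⟨⟨h1, O.mapsTo_perp h1, M, P, rdual M, h3, fun v hv => ?_, h5, c2,
    c1.symm.mul_right c3⟩, h2, O.mapsTo_perp h2, rdual M, P, M, fun w hw => ?_, fun v hv => ?_,
    fun v => ?_, c3, c1.mul_right c2⟩
  · obtain ⟨w, hw, d, hd, rfl⟩ := H.dec_perp hv
    rw [map_add, h4 d hd, add_zero]; exact aeval_mem h1 P hw
  · exact H.eq_zero (aeval_mem h2 _ hw) (mem_perp.1 (h5 w))
  · obtain ⟨w, hw, d, hd, rfl⟩ := H.symm.dec_perp hv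
    rw [map_add, h4 d hd, add_zero]; exact aeval_mem h2 P hw
  · obtain ⟨w, hw, d, hd, rfl⟩ := Submodule.mem_sup.1 (H.compl.sup_eq_top ▸ Submodule.mem_top (x := v))
    rw [map_add, h3 w hw, zero_add]; exact aeval_mem (O.mapsTo_perp h2) M hd

end Hp

end Cfsg.Lib.OreC
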