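import Cfsg.Agent.Lib.OreC.OH
import Cfsg.Agent.Lib.Ore.Tail

/-! Levi subgroups of an orthogonal space attached to a hyperbolic family. -/

namespace Cfsg.Lib.OreC

open Module Polynomial QuadraticMap Cfsg.Lib.Orth Matrix
open Cfsg.Lib.Symp (rdual)

variable {F V V' : Type*} [Field F] [AddCommGroup V] [Module F V] [AddCommGroup V'] [Module F V']
  {Q : QuadraticForm F V} {Q' : QuadraticForm F V'}

theorem exists_emb [Finite F] [FiniteDimensional F V] [FiniteDimensional F V'] (hQ : ND Q)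
    (hQ' : ND Q') (φ : V' →ₗ[F] V) (hφ : ∀ v, Q (φ v) = Q' v) :
    ∃ E : O Q' →* O Q, (∀ g x, (E g).1 (φ x) = φ (g.1 x)) ∧
      (∀ g, ∀ d ∈ perp Q (LinearMap.range φ), (E g).1 d = d) ∧
      (∀ g, dickson hQ (E g) = dickson hQ' g) ∧ ∀ g, spinor hQ (E g) = spinor hQ' g := by
  have S := (isOSum_perp (nd_range hQ' φ hφ)).symm
  let ψ := LinearEquiv.ofInjective φ (injective_of_isom hQ' φ hφ)
  have hψ : ∀ v, Q.restrict (LinearMap.range φ) (ψ v) = Q' v := hφ
  refine ⟨S.extR.comp (O.congrI ψ hψ).toMonoidHom, fun g x => ?_, fun g d hd => S.extR_left _ hd,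
    fun g => ?_, fun g => ?_⟩
  · exact (S.extR_right _ (ψ x)).trans (congrArg Subtype.val (O.congrI_apply' ψ hψ g x))
  · exact (S.dickson_extR hQ _).trans (dickson_congrI hQ' _ ψ hψ g)
  · exact (S.spinor_extR hQ _).trans (spinor_congrI hQ' _ ψ hψ g)

/-- matrices killed by a polynomial coprime to its dual and to `P` -/
def Gx {n : Type} [Fintype n] [DecidableEq n] (P : F[X]) (A : Matrix n n F) : Prop :=
  ∃ M : F[X], IsCoprime M (rdual M) ∧ IsCoprime M P ∧ IsCoprime (rdual M) P ∧ aeval A M = 0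

/-- conjugate, or conjugate to the inverse transpose -/
def Cj {n : Type} [Fintype n] [DecidableEq n] (x y : GL n F) : Prop :=
  IsConj x y ∨ ∃ z w : GL n F, IsConj x z ∧ IsConj w y ∧ z.1ᵀ * w.1 = 1

variable {m : ℕ} {e f : Fin m → V}

variable (F) in
/-- span of a family -/
abbrev sp (e : Fin m → V) : Submodule F V := Submodule.span F (Set.range e)

variable [Finite F] [FiniteDimensional F V]

/-- Levi data -/
structure Lv (hQ : ND Q) (e f : Fin m → V) (D : Submodule F V) (L : GL (Fin m) F →* O Q)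
    (s : O Q) : Prop where
  fam : IsHypFam Q e f
  hp : Hp Q (sp F e) (sp F f) D
  he : ∀ (A : GL (Fin m) F) (c : Fin m → F), (L A).1 (∑ i, c i • e i) = ∑ i, (A.1 *ᵥ c) i • e i
  hf : ∀ A, ∀ w ∈ sp F f, (L A).1 w ∈ sp F f
  hD : ∀ A, ∀ d ∈ D, (L A).1 d = d
  dk : ∀ A, dickson hQ (L A) = 1
  sp : ∀ A : GL (Fin m) F, spinor hQ (L A) = sqsign A.1.det
  sD : ∀ d ∈ D, s.1 d = d
  sw : ∀ x y : GL (Fin m) F, x.1ᵀ * y.1 = 1 → s * L x * s⁻¹ = L y

omit [Finite F] in
theorem hp_of_fam (hQ : ND Q) (h : IsHypFam Q e f) :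
    Hp Q (sp F e) (sp F f) (perp Q (sp F e ⊔ sp F f)) := by
  refine ⟨hQ, h.ts_left, h.ts_right, isOSum_perp ?_⟩
  have := h.nd_span
  rwa [Set.Sum.elim_range, Submodule.span_union] at this

theorem exists_lv (hQ : ND Q) (h : IsHypFam Q e f) :
    ∃ L s, Lv hQ e f (perp Q (sp F e ⊔ sp F f)) L s := by
  let φ := Fintype.linearCombination F (Sum.elim e f)
  obtain ⟨E, h1, h2, h3, h4⟩ := exists_emb hQ (nd_qPlus m) φ h.Q_linearCombination
  rw [Fintype.range_linearCombination, Set.Sum.elim_range, Submodule.span_union] at h2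
  have e1 : ∀ x, φ x = ∑ i, x (.inl i) • e i + ∑ i, x (.inr i) • f i := fun x => by
    simp [φ, Fintype.linearCombination_apply]
  let s : O (qPlus m F) := O.ofLinear (nd_qPlus m) (LinearMap.funLeft F F Sum.swap) fun v => by
    simp [qPlus_apply, LinearMap.funLeft_apply, mul_comm]
  refine ⟨E.comp (levi m F), E s, h, hp_of_fam hQ h, fun A c => ?_, fun A w hw => ?_,
    fun A => h2 _, fun A => (h3 _).trans (dickson_levi A), fun A => (h4 _).trans (spinor_levi A),
    h2 _, fun x y hxy => ?_⟩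
  · have := h1 (levi m F A) (Sum.elim c 0)
    simpa [e1, levi_apply_inl, levi_apply_inr] using this
  · obtain ⟨c, rfl⟩ := (Submodule.mem_span_range_iff_exists_fun F).1 hw
    have := h1 (levi m F A) (Sum.elim 0 c)
    simp only [e1, levi_apply_inl, levi_apply_inr, Sum.elim_inl, Sum.elim_inr, Pi.zero_apply,
      zero_smul, Finset.sum_const_zero, zero_add, Sum.elim_comp_inl, mulVec_zero] at this
    exact this ▸ (Submodule.mem_span_range_iff_exists_fun F).2 ⟨_, rfl⟩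
  · rw [MonoidHom.comp_apply, MonoidHom.comp_apply, ← map_inv, ← map_mul, ← map_mul,
      mul_inv_eq_iff_eq_mul.2]
    refine O.ext fun v => funext fun i => ?_
    have k1 : y.1⁻¹ = x.1ᵀ := inv_eq_left_inv hxy
    have k2 : (x.1⁻¹)ᵀ = y.1 := by rw [transpose_nonsing_inv, inv_eq_right_inv hxy]
    rcases i with i | i
    · change (levi m F x).1 v (.inr i) = (levi m F y).1 _ _
      rw [levi_apply_inr, levi_apply_inl, k2]; rfl
    · change (levi m F x).1 v (.inl i) = (levi m F y).1 _ _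
      rw [levi_apply_inr, levi_apply_inl, k1, transpose_transpose]; rfl

namespace Lv

variable {hQ : ND Q} {D : Submodule F V} {L : GL (Fin m) F →* O Q} {s : O Q}
  (H : Lv hQ e f D L s)
include H

theorem he' (A : GL (Fin m) F) : ∀ w ∈ OreC.sp F e, (L A).1 w ∈ OreC.sp F e := fun w hw => by
  obtain ⟨c, rfl⟩ := (Submodule.mem_span_range_iff_exists_fun F).1 hw
  exact H.he A c ▸ (Submodule.mem_span_range_iff_exists_fun F).2 ⟨_, rfl⟩

theorem commute_of_fix {a t : O Q} (ha : ∀ d ∈ D, a.1 d = d)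
    (ht : t ∈ fixer Q (OreC.sp F e ⊔ OreC.sp F f)) : Commute a t := by
  refine H.hp.os.ext (fun w hw => ?_) fun d hd => ?_
  · rw [O.mul_apply, O.mul_apply, ht w hw, ht]
    rw [← H.hp.os.perp_right hQ] at hw ⊢
    exact O.mapsTo_perp (fun d hd => (ha d hd).symm ▸ hd) w hw
  · rw [O.mul_apply, O.mul_apply, ha d hd, ha _ (H.hp.fix_D ht hd)]

theorem aeval_eq (A : GL (Fin m) F) {t : O Q} (ht : t ∈ fixer Q (OreC.sp F e ⊔ OreC.sp F f))
    (M : F[X]) (c : Fin m → F) :
    aeval (rhoO Q (t * L A)) M (∑ i, c i • e i) = ∑ i, (aeval A.1 M *ᵥ c) i • e i := by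
  have := Ore.aeval_intertwine (a := rhoO Q (t * L A)) (b := toLin' A.1)
    (ι := Fintype.linearCombination F e) (fun c => by
      simp only [Fintype.linearCombination_apply, rhoO_apply, O.mul_apply, H.he, toLin'_apply]
      exact ht _ (Submodule.mem_sup_left
        ((Submodule.mem_span_range_iff_exists_fun F).2 ⟨_, rfl⟩))) M c
  rwa [GLC.aeval_toLin', Fintype.linearCombination_apply, Fintype.linearCombination_apply] at this

theorem gd {A : GL (Fin m) F} {t : O Q} (ht : t ∈ fixer Q (OreC.sp F e ⊔ OreC.sp F f)) {P : F[X]}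
    (hA : Gx P A.1) (hP : aeval (rhoO Q t) P = 0) :
    Gd (rhoO Q (t * L A)) (OreC.sp F e) (perp Q (OreC.sp F e)) ∧
      Gd (rhoO Q (t * L A)) (OreC.sp F f) (perp Q (OreC.sp F f)) := by
  obtain ⟨M, c1, c2, c3, hM⟩ := hA
  refine H.hp.gd (fun w hw => ?_) (fun w hw => ?_) c1 c2 c3 (fun w hw => ?_) fun d hd => ?_
  · rw [O.mul_apply, ht _ (Submodule.mem_sup_left (H.he' A w hw))]; exact H.he' A w hw
  · rw [O.mul_apply, ht _ (Submodule.mem_sup_right (H.hf A w hw))]; exact H.hf A w hw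
  · obtain ⟨c, rfl⟩ := (Submodule.mem_span_range_iff_exists_fun F).1 hw
    rw [H.aeval_eq A ht, hM]; simp
  · have h1 : ∀ d ∈ D, rhoO Q t d ∈ D := fun d hd => H.hp.fix_D ht hd
    have := Ore.aeval_intertwine (a := rhoO Q (t * L A)) (b := (rhoO Q t).restrict h1)
      (ι := D.subtype) (fun c => by simp [H.hD A c c.2]) P ⟨d, hd⟩
    rw [Submodule.subtype_apply, Submodule.subtype_apply, Symp.aeval_restrict_apply, hP] at this
    exact this

theorem conj {x y : GL (Fin m) F} (h : Cj x y) :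
    ∃ G : O Q, (∀ d ∈ D, G.1 d = d) ∧ G * L x * G⁻¹ = L y := by
  rcases h with h | ⟨z, w, h, h', hz⟩ <;> obtain ⟨g, rfl⟩ := isConj_iff.1 h
  · exact ⟨L g, H.hD g, by simp⟩
  · obtain ⟨g', rfl⟩ := isConj_iff.1 h'
    refine ⟨L g' * s * L g, fun d hd => by
      rw [O.mul_apply, O.mul_apply, H.hD g d hd, H.sD d hd, H.hD g' d hd], ?_⟩
    rw [map_mul _ _ g'⁻¹, map_mul _ g', ← H.sw _ _ hz]; simp [mul_assoc]

theorem icg {x y : GL (Fin m) F} {t g q q' : O Q} {P : F[X]} (hq' : q' ∈ radO Q H.hp.ts')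
    (hq : q ∈ radO Q H.hp.ts) (ht : t ∈ fixer Q (OreC.sp F e ⊔ OreC.sp F f))
    (hg : g ∈ fixer Q (OreC.sp F e ⊔ OreC.sp F f)) (hx : Gx P x.1) (hy : Gx P y.1) (hxy : Cj x y)
    (hP : aeval (rhoO Q t) P = 0) (h1 : t * L x ∈ commutator (O Q))
    (h2 : ∀ G : O Q, (∀ d ∈ D, G.1 d = d) → G * L x * G⁻¹ = L y →
      ∃ c ∈ Subgroup.centralizer {t * L x}, G * g * c ∈ commutator (O Q)) :
    ICG (q' * (t * (g * t * g⁻¹)⁻¹) * L (x * y⁻¹) * q) := by
  obtain ⟨G, G1, G2⟩ := H.conj hxy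
  obtain ⟨c, c1, c2⟩ := h2 G G1 G2
  have ht' := mul_mem (mul_mem hg ht) (inv_mem hg)
  have e1 : G * g * c * (t * L x) * (G * g * c)⁻¹ = g * t * g⁻¹ * L y := by
    have k1 := (H.commute_of_fix G1 ht').eq
    have k2 := (H.commute_of_fix (H.hD x) (inv_mem hg)).eq
    have k3 : t * L x * c = c * (t * L x) := c1 _ rfl
    calc _ = G * g * (c * (t * L x)) * c⁻¹ * g⁻¹ * G⁻¹ := by group
      _ = G * (g * t * (L x * g⁻¹)) * G⁻¹ := by rw [← k3]; group
      _ = G * (g * t * g⁻¹) * L x * G⁻¹ := by rw [k2]; group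
      _ = _ := by rw [k1, ← G2]; group
  have hP' : aeval (rhoO Q (g * t * g⁻¹)) P = 0 := LinearMap.ext fun v => by
    obtain ⟨v, rfl⟩ := g.1.surjective v
    have := Ore.aeval_intertwine (a := rhoO Q (g * t * g⁻¹)) (b := rhoO Q t) (ι := rhoO Q g)
      (fun c => by simp) P v
    simpa [hP] using this
  have := icg_of_rad rhoO_injective (H.gd ht hx hP).2 (e1 ▸ (H.gd ht' hy hP').1) hq hq' h1 c2
  rw [e1] at this
  convert this using 2
  have k := (H.commute_of_fix (H.hD (x * y⁻¹)) (inv_mem ht')).eq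
  rw [mul_assoc, mul_assoc t, ← k, map_mul, map_inv]; group

theorem polar_L (A : GL (Fin m) F) (i j : Fin m) : polar Q (f i) ((L A).1 (e j)) = A.1 i j := by
  have := H.he A (Pi.single j 1)
  simp only [Pi.single_apply, ite_smul, one_smul, zero_smul, Finset.sum_ite_eq', Finset.mem_univ,
    if_true] at this
  simp [this, polar_sum_right, H.fam.rl]

theorem bigcell {S : O Q} {l : GL (Fin m) F} (h : ∀ i j, polar Q (f i) (S.1 (e j)) = l.1 i j) :
    ∃ q' ∈ radO Q H.hp.ts', ∃ ρ ∈ fixer Q (OreC.sp F e ⊔ OreC.sp F f), ∃ q ∈ radO Q H.hp.ts,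
      S = q' * ρ * L l * q := by
  refine H.hp.bigcell (H.he' l) fun w hw w' hw' => ?_
  obtain ⟨c, rfl⟩ := (Submodule.mem_span_range_iff_exists_fun F).1 hw
  obtain ⟨c', rfl⟩ := (Submodule.mem_span_range_iff_exists_fun F).1 hw'
  simp [polar_sum_right, polar_sum_left, h, H.polar_L]

end Lv

end Cfsg.Lib.OreC
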