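import Cfsg.Agent.Lib.OreC.Lag

/-! Every element of a perfect finite symplectic group is a commutator. -/

namespace Cfsg.Lib.OreC

open Module Polynomial Cfsg.Lib.Symp Cfsg.Lib.GLC
open Cfsg.Lib.Orth (bilProd bilProd_apply)

universe u

variable {F V U : Type*} [Field F] [AddCommGroup V] [Module F V] {B : LinearMap.BilinForm F V}
  {f : End F V} [AddCommGroup U] [Module F U] {D : LinearMap.BilinForm F U} {g : End F U}

/-- commutator of two isometries -/
def Cm (B : LinearMap.BilinForm F V) (f : End F V) : Prop :=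
  ∃ a b : End F V, SpE B a ∧ SpE B b ∧ f * b * a = a * b

theorem Cm.isim (h : Cm B f) (H : ISim B f D g) : Cm D g := by
  obtain ⟨a, b, ha, hb, h⟩ := h
  obtain ⟨e, h1, h2⟩ := H
  have k : ∀ a, SpE B a → SpE D (e.conj a) := fun a ha =>
    ISim.spE (ISim.symm ⟨e, h1, fun v => by simp⟩) ha
  refine ⟨_, _, k a ha, k b hb, LinearMap.ext fun v => ?_⟩
  simpa [← h2] using LinearMap.congr_fun h (e.symm v)

theorem Cm.prodMap (h : Cm B f) (h' : Cm D g) : Cm (bilProd B D) (f.prodMap g) :=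
  let ⟨a, b, ha, hb, h⟩ := h; let ⟨c, d, hc, hd, h'⟩ := h'
  ⟨_, _, ha.prodMap hc, hb.prodMap hd, by simp only [LinearMap.prodMap_mul, h, h']⟩

theorem spE_neg (hf : SpE B f) : SpE B (-f) := ⟨hf.alt, hf.nd, fun u v => by simp [hf.inv]⟩

theorem isim_neg (H : ISim B f D g) : ISim B (-f) D (-g) :=
  let ⟨e, h1, h2⟩ := H; ⟨e, h1, fun v => by simp [h2]⟩

theorem cm_one (hf : SpE B f) : Cm B 1 := ⟨1, 1, .one hf.alt hf.nd, .one hf.alt hf.nd, by simp⟩

theorem cm_iff [FiniteDimensional F V] (hf : SpE B f) : Cm B f ↔ IsC hf.toIsom := by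
  refine ⟨fun ⟨a, b, ha, hb, h⟩ => ⟨ha.toIsom, hb.toIsom, ?_⟩, fun ⟨a, b, h⟩ =>
    ⟨_, _, .of_isom hf.alt hf.nd a, .of_isom hf.alt hf.nd b, ?_⟩⟩
  · rw [eq_mul_inv_iff_mul_eq, eq_mul_inv_iff_mul_eq]
    exact rhoS_injective h
  · rw [eq_mul_inv_iff_mul_eq, eq_mul_inv_iff_mul_eq] at h
    exact congrArg (rhoS B) h

theorem alt_two {t : LinearMap.BilinForm F (Fin 2 → F)} (h : t.IsAlt) (c c' : Fin 2 → F) :
    t c c' = (c 0 * c' 1 - c 1 * c' 0) * t (Pi.single 0 1) (Pi.single 1 1) := by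
  have e : ∀ c : Fin 2 → F, c = c 0 • Pi.single 0 1 + c 1 • Pi.single 1 1 := fun c => by
    ext i; fin_cases i <;> simp
  conv_lhs => rw [e c, e c']
  simp only [map_add, map_smul, LinearMap.add_apply, LinearMap.smul_apply, h.self_eq_zero,
    ← h.neg_eq (Pi.single 0 1), smul_eq_mul]
  ring

variable (F) in
/-- the quarter turn on the multiplicity space -/
noncomputable def jz (m : ℕ) : End F (Fr F 2 m) where
  toFun u := ![-u 1, u 0]
  map_add' u v := funext fun i => by fin_cases i; exacts [neg_add _ _, rfl]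
  map_smul' c v := funext fun i => by fin_cases i; exacts [(smul_neg c (v 1)).symm, rfl]

theorem cm_fr [Finite F] {m : ℕ} {D : LinearMap.BilinForm F (Fr F 2 m)} (hD : FE 1 D (fr F 2 m))
    (hm : Even m) (nd : (tp D (fr F 2 m) m (frs F 2 m)).Nondegenerate) : Cm D (-fr F 2 m) := by
  set g := fr F 2 m
  set J := jz F m
  have h1 : Commute J g := LinearMap.ext fun u => funext fun i => by
    fin_cases i; exacts [(map_neg (cyc (F := F) _) (u 1)).symm, rfl]
  have h2 : ∀ u, J (J u) = -u := fun u => funext fun i => by fin_cases i <;> rfl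
  have h3 : ∀ c, J (frs F 2 m c) = frs F 2 m ![-c 1, c 0] := fun c => funext fun i => by
    fin_cases i; exacts [(map_neg (Algebra.linearMap F _) _).symm, rfl]
  have h4 : ∀ u, J (((g - 1) ^ m) u) = ((g - 1) ^ m) (J u) :=
    LinearMap.congr_fun ((h1.sub_right (.one_right _)).pow_right m).eq
  let E : LinearMap.BilinForm F (Fr F 2 m) := (2 : F)⁻¹ • (D + D.comp J J)
  have hE : ∀ u v, E u v = 2⁻¹ * (D u v + D (J u) (J v)) := fun _ _ => rfl
  have h5 : ∀ u v, E (g u) (g v) = E u v := fun u v => by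
    rw [hE, hE, hD.inv, ← End.mul_apply J, ← End.mul_apply J, h1.eq, End.mul_apply, End.mul_apply,
      hD.inv]
  have alt := hD.isAlt_tp (a := frs F 2 m) hm.add_one fun c => by rw [fr_pow]; rfl
  have h6 : ∀ c c', E (frs F 2 m c) (((g - 1) ^ m) (frs F 2 m c')) =
      tp D g m (frs F 2 m) c c' := fun c c' => by
    rw [hE, h4, h3, h3]
    change 2⁻¹ * (tp D g m (frs F 2 m) c c' + tp D g m (frs F 2 m) _ _) = _
    rw [alt_two alt, alt_two alt ![_, _]]
    have := hD.two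
    simp only [Matrix.cons_val_zero, Matrix.cons_val_one]
    field_simp
    ring
  have h7 : ∀ u v, E v u = (-1) ^ 1 * E u v := fun u v => by rw [hE, hE, hD.symm, hD.symm (J u)]; ring
  have hE' : FE 1 E g := ⟨hD.two, h7, fun u hu => fr_nd h5
    (fun c hc => nd.2 c fun c' => by rw [← h6, hc]) u fun y => by rw [h7, hu, mul_zero], h5⟩
  have H := isim_neg (hD.isim_of_top hE' fr_pow ((ker_eq_range (i := m) (j := 1) blocks_fr).le.trans
    (by rw [pow_one])) fun u v => by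
      obtain ⟨c, x, rfl⟩ := fr_gen u
      obtain ⟨c', y, rfl⟩ := fr_gen v
      rw [fr_top hD.inv, fr_top h5, h6]; rfl)
  refine Cm.isim ?_ H
  obtain ⟨p, hp⟩ := CharP.exists F
  have := Fact.mk (CharP.char_is_prime F p)
  obtain ⟨k, hk⟩ : Odd (p ^ (m + 1)) := (this.out.odd_of_ne_two (by
    rintro rfl; exact hD.two (CharP.cast_eq_zero F 2))).pow
  have h8 : g ^ p ^ (m + 1) = 1 := (pow_char_pow_eq_one_iff p _).2
    (pow_eq_zero_of_le (Nat.lt_pow_self this.out.one_lt).le fr_pow)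
  have hJ : SpE E J := ⟨hE'.spE.alt, hE'.spE.nd, fun u v => by simp [hE, h2, add_comm]⟩
  have ha := hJ.mul (hE'.spE.pow (k + 1))
  have h9 : J * g ^ (k + 1) * (J * g ^ (k + 1)) = -g := by
    rw [mul_assoc, ← mul_assoc _ J, ← (h1.pow_right _).eq, mul_assoc, ← pow_add, ← mul_assoc,
      show k + 1 + (k + 1) = 2 * k + 1 + 1 by ring, pow_succ, ← hk, h8, one_mul]
    exact LinearMap.ext fun u => h2 _
  obtain ⟨u, hu⟩ := ha.isUnit
  rw [← hu] at ha h9
  have h10 : ∀ v, u.1 (u.1 v) = v → v = 0 := fun v hv => by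
    rw [← End.mul_apply, h9] at hv
    have h11 : ∀ i, ((g - 1) ^ i) v = (-2 : F) ^ i • v := fun i => by
      induction i with
      | zero => simp
      | succ i ih =>
        rw [pow_succ', End.mul_apply, ih, map_smul, pow_succ, mul_smul, LinearMap.sub_apply,
          ← neg_neg (g v), show -g v = v from hv]
        congr 1
        change -v - v = _
        module
    have := h11 (m + 1)
    rw [fr_pow, LinearMap.zero_apply, eq_comm, smul_eq_zero] at this
    exact this.resolve_left (pow_ne_zero _ (neg_ne_zero.2 hD.two))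
  obtain ⟨e, he, h11⟩ := isim_of_sim_of_ne ha ha.of_unit_inv ha.sim_inv
    (fun v hv => h10 v (by rw [hv, hv])) fun v hv => h10 v (by rw [hv, map_neg, hv, neg_neg])
  refine ⟨u, e, ha, ⟨ha.alt, ha.nd, he⟩, LinearMap.ext fun v => ?_⟩
  rw [← h9]
  change u.1 (u.1 (e (u.1 v))) = u.1 (e v)
  rw [h11, ← End.mul_apply u.1 (u⁻¹).1, u.mul_inv]; rfl

theorem OB.exists_fr [FiniteDimensional F V] (hf : FE 1 B f) (h : OB B f) :
    ∃ (m : ℕ) (D : LinearMap.BilinForm F (Fr F 2 m)) (Y : Submodule F V) (hY : ∀ y ∈ Y, f y ∈ Y),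
      Even m ∧ FE 1 D (fr F 2 m) ∧ FE 1 (B.restrict Y) (f.restrict hY) ∧
      ISim (bilProd D (B.restrict Y)) ((fr F 2 m).prodMap (f.restrict hY)) B f ∧
      (tp D (fr F 2 m) m (frs F 2 m)).Nondegenerate ∧ finrank F V = 2 * (m + 1) + finrank F Y := by
  obtain ⟨m, x, y, hm, hx, hy, h⟩ := h
  let a := Fintype.linearCombination F ![x, y]
  have h1 : ∀ c, ((f - 1) ^ (m + 1)) (a c) = 0 := fun c => by
    simp [a, Fintype.linearCombination_apply, hx, hy]
  have alt := hf.isAlt_tp hm.add_one h1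
  have h2 : tp B f m a (Pi.single 0 1) (Pi.single 1 1) ≠ 0 := by
    simpa [a, Fintype.linearCombination_apply] using h
  have nd : (tp B f m a).Nondegenerate := alt.isRefl.nondegenerate_iff_separatingLeft.2 fun c hc => by
    have h3 := hc (Pi.single 0 1)
    have h4 := hc (Pi.single 1 1)
    rw [alt_two alt, mul_eq_zero_iff_right h2] at h3 h4
    ext i; fin_cases i; exacts [by simpa using h4, by simpa using h3]
  obtain ⟨D, Y, hY, h3, h4, h5, h6, -⟩ := hf.exists_fr a h1 nd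
  refine ⟨m, D, Y, hY, hm, h3, h4, h5, h6 ▸ nd, ?_⟩
  rw [← h5.sim.finrank_eq, finrank_prod, ← blocks_fr.jt_sum]
  simp; ring

theorem gp_two (h : (2 : F) = 0) :
    Gp ((X ^ 3 + X + 1) * (X ^ 4 + X + 1) * (X ^ 5 + X ^ 2 + 1) : F[X]) := by
  replace h : (2 : F[X]) = 0 := by rw [← map_ofNat C 2, h, map_zero]
  refine ⟨by simp, ?_⟩
  rw [map_mul, map_mul, rdual_eq (Q := X ^ 3 + X ^ 2 + 1) 3 (by compute_degree!) (by
      simp [revAt_le, reflect_X']; ring), rdual_eq (Q := X ^ 4 + X ^ 3 + 1) 4 (by compute_degree!) (by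
      simp [revAt_le, reflect_X']; ring), rdual_eq (Q := X ^ 5 + X ^ 3 + 1) 5 (by compute_degree!) (by
      simp [revAt_le]; ring)]
  refine .mul_left (.mul_left (.mul_right (.mul_right ?_ ?_) ?_) (.mul_right (.mul_right ?_ ?_) ?_))
    (.mul_right (.mul_right ?_ ?_) ?_)
  exacts [⟨X, X + 1, by linear_combination (X ^ 4 + X ^ 3 + X ^ 2 + X) * h⟩,
    ⟨X ^ 3 + X, X ^ 2 + X + 1, by
      linear_combination (X ^ 6 + X ^ 5 + 2 * X ^ 4 + X ^ 3 + X ^ 2 + X) * h⟩,
    ⟨X ^ 3 + 1, X, by linear_combination (X ^ 6 + X ^ 4 + X ^ 3 + X) * h⟩,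
    ⟨X + 1, X ^ 2, by linear_combination (X ^ 5 + X ^ 4 + X ^ 2 + X) * h⟩,
    ⟨X ^ 3 + X + 1, X ^ 3 + X ^ 2, by
      linear_combination (X ^ 7 + X ^ 6 + X ^ 5 + X ^ 4 + X ^ 3 + X ^ 2 + X) * h⟩,
    ⟨X ^ 4 + X ^ 2 + X + 1, X ^ 3, by
      linear_combination (X ^ 8 + X ^ 6 + X ^ 5 + X ^ 4 + X ^ 3 + X ^ 2 + X) * h⟩,
    ⟨X, X ^ 3 + X ^ 2 + X + 1, by
      linear_combination (X ^ 6 + X ^ 5 + X ^ 4 + 2 * X ^ 3 + X ^ 2 + X) * h⟩,
    ⟨X ^ 2 + X + 1, X ^ 3 + X, by
      linear_combination (X ^ 7 + X ^ 6 + X ^ 5 + X ^ 4 + X ^ 3 + X ^ 2 + X) * h⟩,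
    ⟨X ^ 2 + X, X ^ 2 + X + 1, by
      linear_combination (X ^ 7 + X ^ 6 + X ^ 5 + X ^ 4 + X ^ 3 + X ^ 2 + X) * h⟩]

theorem rdual_a : rdual (X ^ 2 + X - 1 : F[X]) = X ^ 2 - X - 1 :=
  rdual_eq 2 (by compute_degree!) (by simp [revAt_le, reflect_X']; ring)

theorem rdual_b : rdual (X ^ 2 - X - 1 : F[X]) = X ^ 2 + X - 1 :=
  rdual_eq 2 (by compute_degree!) (by simp [revAt_le, reflect_X']; ring)

theorem cop_ab (h : (3 : F) = 0) : IsCoprime (X ^ 2 + X - 1 : F[X]) (X ^ 2 - X - 1) := by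
  replace h : (3 : F[X]) = 0 := by rw [← map_ofNat C 3, h, map_zero]
  exact ⟨-X + 1, X + 1, by linear_combination (-1) * h⟩

theorem gp_three (h : (3 : F) = 0) : Gp ((X ^ 2 + X - 1) * (X ^ 3 - X - 1) : F[X]) := by
  refine ⟨by simp, ?_⟩
  rw [map_mul, rdual_a, rdual_eq (Q := X ^ 3 + X ^ 2 - 1) 3 (by compute_degree!) (by
      simp [revAt_le, reflect_X']; ring)]
  refine .mul_left (.mul_right (cop_ab h) ?_) (.mul_right ⟨X - 1, -X ^ 2, by ring⟩ ⟨-X, X - 1, by ring⟩)
  replace h : (3 : F[X]) = 0 := by rw [← map_ofNat C 3, h, map_zero]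
  exact ⟨X ^ 2 - X + 1, -X + 1, by linear_combination (X - 1) * h⟩

theorem exists_gp [Fintype F] {n : ℕ} (h1 : n = 1 → 4 ≤ Fintype.card F)
    (h2 : n = 2 → 3 ≤ Fintype.card F) : ∃ M : F[X], Gp M ∧ Kil F n M := by
  have h0 := FiniteField.cast_card_eq_zero F
  have h3 := Fintype.one_lt_card (α := F)
  rcases (show Fintype.card F = 2 ∨ Fintype.card F = 3 ∨ 4 ≤ Fintype.card F by omega) with h | h | h
  · obtain ⟨i, j, k, rfl⟩ : ∃ i j k, n = i * 3 + j * 4 + k * 5 :=
      ⟨n / 3 - n % 3 / 2 - n % 3 % 2, n % 3 % 2, n % 3 / 2, by omega⟩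
    exact ⟨_, gp_two (by simpa [h] using h0), ((kil_mul (by monicity!)
      ((dvd_mul_right _ _).mul_right _) (by compute_degree!) i).add (kil_mul (by monicity!)
      ((dvd_mul_left _ _).mul_right _) (by compute_degree!) j)).add
      (kil_mul (by monicity!) (dvd_mul_left _ _) (by compute_degree!) k)⟩
  · obtain ⟨i, j, rfl⟩ : ∃ i j, n = i * 2 + j * 3 := ⟨n / 2 - n % 2, n % 2, by omega⟩
    exact ⟨_, gp_three (by simpa [h] using h0), (kil_mul (by monicity!)
      (dvd_mul_right _ _) (by compute_degree!) i).add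
      (kil_mul (by monicity!) (dvd_mul_left _ _) (by compute_degree!) j)⟩
  obtain ⟨c, c0, hc⟩ := Linear.exists_ne_zero_sq_ne_one (F := F) (by rwa [Nat.card_eq_fintype_card])
  refine ⟨X - C c, ⟨by simpa, ?_⟩, by
    simpa using kil_mul (monic_X_sub_C c) dvd_rfl (natDegree_X_sub_C c) n⟩
  rw [Unitary.dual_X_sub_C c0]
  refine isCoprime_X_sub_C_of_isUnit_sub (.mk0 _ fun h => hc ?_)
  rw [sub_eq_zero, RingHom.id_apply] at h
  rw [pow_two]; nth_rw 2 [h]; exact mul_inv_cancel₀ c0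

theorem irreducible_three [Fintype F] (h : Fintype.card F = 3) {P : F[X]} (hP : P.natDegree = 2)
    (h0 : P.eval 0 ≠ 0) (h1 : P.eval 1 ≠ 0) (h2 : P.eval (-1) ≠ 0) : Irreducible P := by
  refine irreducible_of_degree_le_three_of_not_isRoot (by simp [hP]) fun a ha => ?_
  have h4 := FiniteField.pow_card a
  rw [h] at h4
  have h3 : a * (a - 1) * (a + 1) = 0 := by linear_combination h4
  simp only [mul_eq_zero, sub_eq_zero, add_eq_zero_iff_eq_neg] at h3
  rcases h3 with (rfl | rfl) | rfl <;> contradiction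

theorem cm_of_neg [Fintype F] [FiniteDimensional F V] (h : Fintype.card F = 3) (hf : SpE B f)
    (h1 : LPon B (-f) ⊤) (h2 : 4 ∣ finrank F V) : Cm B f := by
  obtain ⟨W, W', a1, a2, a3, a4⟩ := h1
  have L : Lg B W W' := ⟨hf.alt, hf.nd, a1, a2, a3⟩
  have h3 : (3 : F) = 0 := by simpa [h] using FiniteField.cast_card_eq_zero F
  have h4 := L.finrank_eq
  have h5 := L.symm.finrank_eq
  obtain ⟨a, ha, b1, b2, b3⟩ := L.exists_levi_kil (M := X ^ 2 + X - 1) (by simp) (by
    rw [show finrank F W = finrank F W / 2 * 2 by omega]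
    exact kil_mul (by monicity!) dvd_rfl (by compute_degree!) _)
  have b4 := L.dual_zero ha (by simp) b2 b3
  rw [rdual_a] at b4
  have e1 : ∀ a : End F V, aeval ((-1 : F) • a) (X ^ 2 - X - 1 : F[X]) =
      aeval a (X ^ 2 + X - 1 : F[X]) := fun a => by simp
  have e2 : ∀ a : End F V, aeval ((-1 : F) • a) (X ^ 2 + X - 1 : F[X]) =
      aeval a (X ^ 2 - X - 1 : F[X]) := fun a => by simp [sub_eq_add_neg]
  have c1 : ∀ w ∈ W, ((-1 : F) • a) w ∈ W := fun w hw => W.smul_mem _ (b1 w hw)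
  have c2 : ∀ w ∈ W', ((-1 : F) • a) w ∈ W' := fun w hw => W'.smul_mem _ (b2 w hw)
  have h11 : (1 : F) ≠ 0 := one_ne_zero
  have i1 : Irreducible (X ^ 2 + X - 1 : F[X]) := irreducible_three h (by compute_degree!) (by simp)
    (by simp) (by simp)
  have i2 : Irreducible (X ^ 2 - X - 1 : F[X]) := irreducible_three h (by compute_degree!) (by simp)
    (by simp) (by simp)
  have k : ∀ (a : End F V) (W : Submodule F V) (h : ∀ w ∈ W, a w ∈ W) (P : F[X]),
      (∀ w ∈ W, aeval a P w = 0) → aeval (a.restrict h) P = 0 := fun a W h P h' =>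
    LinearMap.ext fun w => Subtype.ext ((aeval_restrict_apply h P w).trans (h' w w.2))
  have h6 : ∀ (c : F) v, c * c = 1 → a v = c • v → v = 0 := fun c v hc hv => by
    obtain ⟨x, hx, y, hy, rfl⟩ := L.dec v
    have h7 : aeval a ((X ^ 2 + X - 1) * (X ^ 2 - X - 1) : F[X]) (x + y) = 0 := by
      rw [map_add, map_mul, End.mul_apply, End.mul_apply, b4 y hy, map_zero, ← End.mul_apply,
        ← map_mul, mul_comm, map_mul, End.mul_apply, b3 x hx, map_zero, add_zero]
    rw [End.aeval_apply_of_mem_apply_eq_smul hv, smul_eq_zero] at h7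
    refine h7.resolve_left fun h8 => h11 ?_
    simp only [eval_mul, eval_sub, eval_add, eval_pow, eval_X, eval_one] at h8
    linear_combination -h8 + (c ^ 2 - 2) * hc
  refine (cm_iff hf).2 (L.isC (ε := -1) (by simp) hf (by simpa using a4) ha
    (L.gd' ha ⟨by simp, rdual_a (F := F) ▸ cop_ab h3⟩ b2 b3)
    (L.gd (M := X ^ 2 - X - 1) (ha.smul (by simp)) ⟨by simp, rdual_b (F := F) ▸ (cop_ab h3).symm⟩ c1
      (e1 a ▸ b3))
    (isim_of_sim_of_ne ha (ha.smul (by simp)) ?_ (fun v hv => h6 1 v (by simp) (by simpa))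
      fun v hv => h6 (-1) v (by simp) (by simpa)))
  exact (sim_restrict_prod L.compl b1 b2).symm.trans (((sim_of_irreducible (by monicity!) i1
    (k _ _ b1 _ b3) (k _ _ c2 _ (e2 a ▸ b4)) (by omega)).prodMap (sim_of_irreducible (by monicity!) i2
    (k _ _ b2 _ b4) (k _ _ c1 _ (e1 a ▸ b3)) (by omega))).trans
    (sim_restrict_prod L.compl.symm c2 c1))

theorem cm_aux [Fintype F] (n : ℕ) : ∀ (V : Type u) [AddCommGroup V] [Module F V]
    [FiniteDimensional F V] (B : LinearMap.BilinForm F V) (f : End F V), SpE B f →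
    finrank F V = n → (n = 2 → 4 ≤ Fintype.card F) → (n = 4 → 3 ≤ Fintype.card F) → Cm B f := by
  induction n using Nat.strong_induction_on with
  | _ n ih =>
  intro V _ _ _ B f hf hn h1 h2
  subst hn
  rcases lp_or hf with ⟨W, W', a1, a2, a3, a4⟩ | ⟨two, h⟩
  · have L : Lg B W W' := ⟨hf.alt, hf.nd, a1, a2, a3⟩
    have := L.finrank_eq
    obtain ⟨M, hM, h3⟩ := exists_gp (F := F) (n := finrank F W) (fun h => h1 (by omega))
      fun h => h2 (by omega)
    obtain ⟨a, ha, b1, b2, b3⟩ := L.exists_levi_kil hM.c0 h3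
    exact (cm_iff hf).2 (L.isC (mul_one 1) hf (by simpa using a4) ha (L.gd' ha hM b2 b3)
      (by simpa using L.gd ha hM b1 b3) (by simpa using ISim.refl B a))
  have hf' := spE_neg hf
  obtain ⟨m, D, Y, hY, hm, hD, h3, H, nd, h4⟩ := h.exists_fr (hf'.fE two)
  have h5 := spE_neg h3.spE
  have h6 : Cm (B.restrict Y) (-(-f).restrict hY) → Cm B f := fun h => by
    have := isim_neg H
    rw [neg_neg] at this
    exact ((cm_fr hD hm nd).prodMap h).isim (by convert this using 1; ext <;> simp)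
  have h7 : Fintype.card F ≠ 2 := fun h => two (by simpa [h] using FiniteField.cast_card_eq_zero F)
  have h8 := Fintype.one_lt_card (α := F)
  by_cases h9 : finrank F Y = 2 → 4 ≤ Fintype.card F
  · exact h6 (ih _ (by omega) _ _ _ h5 rfl h9 fun _ => by omega)
  rcases lp_or h3.spE with h10 | ⟨-, h10⟩
  · obtain ⟨e, he, h11⟩ := H
    refine cm_of_neg (by omega) hf ?_ (by obtain ⟨k, rfl⟩ := hm; omega)
    have h12 := (lp_or hD.spE).resolve_right fun h => by
      obtain ⟨-, k, x, y, -, h1, -, h2⟩ := h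
      have : IsUnit (-fr F 2 m - 1) := by
        have := (IsNilpotent.mk _ _ (fr_pow (F := F) (r := 2) (m := m))).isUnit_add_right_of_commute
          (u := algebraMap F _ 2) ((IsUnit.mk0 _ two).map _) (Algebra.commute_algebraMap_right _ _)
        rw [show -fr F 2 m - 1 = -(fr F 2 m - 1 + algebraMap F _ 2) by
          rw [← one_add_one_eq_two (R := F), map_add, map_one]; abel]
        exact this.neg
      rw [((End.isUnit_iff _).1 (this.pow _)).1 (h1.trans (map_zero _).symm)] at h2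
      simp at h2
    have := (LPon.map (B := B) (f := -f) (e.toLinearMap ∘ₗ .inl F _ _)
      (fun u v => by simp [he, bilProd_apply]) (fun v => by simp [← h11]) h12).sup hf.alt
      (LPon.map (e.toLinearMap ∘ₗ .inr F _ _) (fun u v => by simp [he, bilProd_apply])
        (fun v => by simp [← h11]) h10) (by
        rintro _ ⟨u, rfl⟩ _ ⟨v, rfl⟩; simp [he, bilProd_apply])
    rwa [LinearMap.range_comp, LinearMap.range_comp, ← Submodule.map_sup,
      LinearMap.sup_range_inl_inr, Submodule.map_top, e.range] at this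
  obtain ⟨m', D', Y', hY', -, -, -, H', -, h11⟩ := h10.exists_fr (h5.fE two)
  obtain rfl : m' = 0 := by omega
  have : Subsingleton Y' := (finrank_zero_iff (R := F)).1 (by omega)
  have h12 := fr_pow (F := F) (r := 2) (m := 0)
  rw [zero_add, pow_one, sub_eq_zero] at h12
  rw [H'.sim.eq_one_iff.1 (by rw [h12]; ext <;> simp [Subsingleton.elim _ (0 : Y')])] at h6
  exact h6 (cm_one h5)

theorem isC_sp [Fintype F] {l : Type*} [Fintype l] [DecidableEq l]
    (h1 : Fintype.card l = 1 → 4 ≤ Fintype.card F) (h2 : Fintype.card l = 2 → 3 ≤ Fintype.card F)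
    (g : Matrix.symplecticGroup l F) : IsC g := by
  have h := (cm_iff (spE_sp g)).1 (cm_aux _ _ _ _ (spE_sp g) finrank_std (fun h => h1 (by omega))
    fun h => h2 (by omega))
  convert h.map (spEquiv l F).symm.toMonoidHom using 1
  exact (spEquiv l F).eq_symm_apply.2 (rhoS_injective rfl)

end Cfsg.Lib.OreC
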