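import Cfsg.Agent.Lib.OreC.Tab
import Cfsg.Agent.Lib.OreC.Sp
import Cfsg.Agent.Lib.Symp.WallT

/-! Factorising transvections over the field with two elements. -/

namespace Cfsg.Lib.OreC

open Module Polynomial Matrix Cfsg.Lib.GLC
open Cfsg.Lib.Symp (rdual rdual_rdual rdual_X_sub_C)

variable {F : Type*} [Field F] {m : ℕ}

theorem exists_gp_monic [Finite F] (h1 : m = 1 → 4 ≤ Nat.card F) (h2 : m = 2 → 3 ≤ Nat.card F) :
    ∃ B : F[X], B.Monic ∧ B.natDegree = m ∧ Gp B := by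
  have := Fintype.ofFinite F
  rw [Nat.card_eq_fintype_card] at h1 h2
  obtain ⟨M, hM, μ, a, rfl⟩ := exists_gp h1 h2
  have h3 : μ.prod ∣ M ^ μ.card := by
    simpa using Multiset.prod_dvd_prod_of_dvd (S := μ) id (fun _ => M) fun P hP => (a P hP).2
  refine ⟨μ.prod, by simpa using monic_multiset_prod_of_monic μ id fun P hP => (a P hP).1,
    natDegree_multiset_prod_of_monic _ fun P hP => (a P hP).1,
    Unitary.coeff_zero_ne_of_dvd h3 (by
      simpa [coeff_zero_eq_eval_zero] using fun h => (hM.c0 (by rwa [coeff_zero_eq_eval_zero])).elim),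
    ((hM.cop.pow (m := μ.card) (n := μ.card)).of_isCoprime_of_dvd_left h3).of_isCoprime_of_dvd_right
      (by rw [← map_pow]; exact _root_.map_dvd rdual h3)⟩

theorem Gp.dual {B : F[X]} (h : Gp B) (hm : B.Monic) : Gp (rdual B) :=
  ⟨Unitary.coeff_zero_dual_ne hm h.c0, by rw [rdual_rdual hm h.c0]; exact h.cop.symm⟩

theorem Gp.cop_of {M φ : F[X]} (h : Gp M) (h1 : Irreducible φ) (h2 : rdual φ = φ) : IsCoprime M φ :=
  (h1.coprime_iff_not_dvd.2 fun e => h1.not_isUnit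
    (h.cop.isUnit_of_dvd' e (by rw [← h2]; exact _root_.map_dvd rdual e))).symm

/-- polynomials coprime to all good polynomials -/
def SD (P : F[X]) : Prop := ∀ M, Gp M → IsCoprime M P

theorem sd_two : SD (X ^ 2 - 1 : F[X]) := fun M h => by
  rw [show (X ^ 2 - 1 : F[X]) = (X - C 1) * (X - C (-1)) by simp; ring]
  exact (h.cop_of (irreducible_X_sub_C _) (rdual_X_sub_C (by simp))).mul_right
    (h.cop_of (irreducible_X_sub_C _) (rdual_X_sub_C (by simp)))

theorem eq_zero_or_one (h : Nat.card F = 2) (a : F) : a = 0 ∨ a = 1 := by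
  obtain ⟨x, -, hx⟩ := (Nat.card_eq_two_iff' (0 : F)).1 h
  exact (eq_or_ne a 0).imp_right fun e => (hx a e).trans (hx 1 one_ne_zero).symm

theorem two_eq_zero_of_card (h : Nat.card F = 2) : (2 : F) = 0 :=
  (eq_zero_or_one h 2).resolve_right fun e => one_ne_zero (α := F) (by linear_combination e)

theorem sd_three (h : Nat.card F = 2) : SD (X ^ 3 - 1 : F[X]) := fun M hM => by
  rw [show (X ^ 3 - 1 : F[X]) = (X - C 1) * (X ^ 2 + X + 1) by simp; ring]
  refine (hM.cop_of (irreducible_X_sub_C _) (rdual_X_sub_C (by simp))).mul_right (hM.cop_of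
    (irreducible_of_degree_le_three_of_not_isRoot (by
      rw [show (X ^ 2 + X + 1 : F[X]).natDegree = 2 by compute_degree!]; simp) fun a ha => ?_)
    (rdual_eq 2 (by compute_degree!) (by simp [revAt_le, reflect_X']; ring)))
  have := two_eq_zero_of_card h
  rcases eq_zero_or_one h a with rfl | rfl <;> simp at ha
  exact one_ne_zero (α := F) (by linear_combination ha - this)

theorem SD.gx {P B : F[X]} (h : SD P) (hB : Gp B) (hm : B.Monic) {A : Matrix (Fin m) (Fin m) F}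
    (hA : aeval A B = 0) : Gx P A := ⟨B, hB.cop, h _ hB, h _ (hB.dual hm), hA⟩

theorem exists_comp {P : F[X]} (hP : P.Monic) (hd : P.natDegree = m) :
    ∃ A : Matrix (Fin m) (Fin m) F, Blocks (toLin' A) {P} ∧
      ∀ i j : Fin m, j.1 + 1 ≠ m → A i j = if i.1 = j + 1 then 1 else 0 := by
  subst hd
  let b := AdjoinRoot.powerBasis' hP
  refine ⟨Algebra.leftMulMatrix b.basis b.gen, Sim.blocks (Sim.symm ⟨b.basis.equivFun, fun v => ?_⟩)
    (blocks_cyc hP), fun i j hj => ?_⟩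
  · exact (Algebra.leftMulMatrix_mulVec_repr b.basis _ v).symm
  · rw [b.leftMulMatrix]; exact if_neg hj

theorem gl_of_blocks {A : Matrix (Fin m) (Fin m) F} {P : F[X]} (h : Blocks (toLin' A) {P})
    (h0 : P.coeff 0 ≠ 0) : ∃ g : GL (Fin m) F, g.1 = A :=
  (MulEquiv.isUnit_map toLinAlgEquiv').1 (h.isUnit_iff.2 (by simpa))

theorem aeval_of_blocks {A : Matrix (Fin m) (Fin m) F} {P R : F[X]} (h : Blocks (toLin' A) {P}) :
    aeval A R = 0 ↔ P ∣ R := by
  rw [← toLin'.map_eq_zero_iff, ← aeval_toLin', h.aeval_eq_zero_iff]; simp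

theorem SD.exists_gx [Finite F] {P : F[X]} (h : SD P) (h1 : m = 1 → 4 ≤ Nat.card F)
    (h2 : m = 2 → 3 ≤ Nat.card F) : ∃ x : GL (Fin m) F, Gx P x.1 := by
  obtain ⟨B, b1, b2, b3⟩ := exists_gp_monic h1 h2
  obtain ⟨A, hA, -⟩ := exists_comp b1 b2
  obtain ⟨g, rfl⟩ := gl_of_blocks hA b3.c0
  exact ⟨g, h.gx b3 b1 ((aeval_of_blocks hA).2 dvd_rfl)⟩

theorem isConj_of_vec (h : Nat.card F = 2) {l l' : GL (Fin m) F} {a b a' b' : Fin m → F}
    (h1 : l.1 = 1 + vecMulVec a b) (h2 : l'.1 = 1 + vecMulVec a' b') (h3 : l ≠ 1) (h4 : l' ≠ 1) :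
    IsConj l l' := by
  have k : ∀ {l : GL (Fin m) F} {a b : Fin m → F}, l.1 = 1 + vecMulVec a b → l ≠ 1 →
      (toLin' l.1 - 1) ^ 2 = 0 ∧ 1 + finrank F (LinearMap.ker (toLin' l.1 - 1)) = m :=
    fun {l a b} h1 h3 => by
    have h0 : vecMulVec a b ≠ 0 := fun e => h3 (Units.ext (by simp [h1, e]))
    have h5 : b ⬝ᵥ a = 0 := (eq_zero_or_one h _).resolve_right fun e => h0 (by
      have : l.1 *ᵥ a = 0 := by
        rw [h1, add_mulVec, vecMulVec_mulVec, e, one_mulVec, MulOpposite.op_one, one_smul, ← two_smul F,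
          two_eq_zero_of_card h, zero_smul]
      simp [eq_zero_of_mulVec_eq_zero (l.det_ne_zero) this])
    have h6 := rank_add_finrank_ker (vecMulVec a b)
    have h7 := rank_vecMulVec_le a b
    rw [toLin'_sub_one_pow_eq_zero_iff, ← toLin'_sub_one, h1, add_sub_cancel_left, pow_two,
      vecMulVec_mul_vecMulVec, h5]
    refine ⟨by simp, ?_⟩
    have : (vecMulVec a b).rank ≠ 0 := fun e => h0 (toLin'.map_eq_zero_iff.1
      (LinearMap.range_eq_bot.1 (Submodule.finrank_eq_zero.1 e)))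
    simp only [Fintype.card_fin] at h6
    omega
  have := (k h1 h3).2
  have := (k h2 h4).2
  exact gl_isConj_iff_sim.2 (sim_of_sq_eq_zero (k h1 h3).1 (k h2 h4).1 rfl (by omega))

/-- good factorisation through the inverse transpose -/
def FT (P : F[X]) (l : GL (Fin m) F) : Prop := ∃ x y : GL (Fin m) F, x * y⁻¹ = l ∧ Gx P x.1 ∧
  Gx P y.1 ∧ Cj x y ∧ ∃ M N : F[X], IsCoprime M N ∧ aeval x.1 M = 0 ∧ aeval y.1 N = 0

theorem aeval_conj {x y : GL (Fin m) F} (e : IsConj x y) {M : F[X]} (h : aeval x.1 M = 0) :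
    aeval y.1 M = 0 := toLin'.injective (by
  rw [← aeval_toLin', map_zero, ← ((gl_isConj_iff_sim.1 e).aeval M).eq_zero_iff, aeval_toLin', h,
    map_zero])

theorem FT.conj {P : F[X]} {l l' : GL (Fin m) F} (h : FT P l) (e : IsConj l l') : FT P l' := by
  obtain ⟨g, rfl⟩ := isConj_iff.1 e
  obtain ⟨x, y, rfl, h1, h2, h3, M, N, h4, h5, h6⟩ := h
  have k : ∀ x, IsConj x (g * x * g⁻¹) := fun x => isConj_iff.2 ⟨g, rfl⟩
  refine ⟨g * x * g⁻¹, g * y * g⁻¹, by group, h1.conj (k x), h2.conj (k y), ?_, M, N, h4,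
    aeval_conj (k x) h5, aeval_conj (k y) h6⟩
  exact h3.imp (fun h => (k x).symm.trans (h.trans (k y))) fun ⟨z, w, a, b, c⟩ =>
    ⟨z, w, (k x).symm.trans a, b.trans (k y), c⟩

theorem ft_of_vec (h : Nat.card F = 2) (hm : 3 ≤ m) {P : F[X]} (hP : SD P) {l : GL (Fin m) F}
    {a b : Fin m → F} (h1 : l.1 = 1 + vecMulVec a b) (h3 : l ≠ 1) : FT P l := by
  have := Nat.finite_of_card_ne_zero (h ▸ two_ne_zero)
  obtain ⟨B, b1, b2, b3⟩ := exists_gp_monic (F := F) (m := m) (by omega) (by omega)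
  obtain ⟨A, hA, a1⟩ := exists_comp b1 b2
  obtain ⟨y, rfl⟩ := gl_of_blocks hA b3.c0
  obtain ⟨z, z1, z2⟩ := exists_tinv y
  obtain ⟨w, w1, w2⟩ := exists_tinv z
  obtain rfl : w = y := Units.ext (right_inv_eq_right_inv (by simpa using congrArg transpose w1) z1)
  have z3 := z2 B ((aeval_of_blocks hA).2 dvd_rfl)
  have i1 : IsIntegral F (toLin' z.1) := Algebra.IsIntegral.isIntegral _
  have z6 : minpoly F (toLin' z.1) ∣ rdual B := minpoly.dvd _ _ (by rw [aeval_toLin', z3, map_zero])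
  have z4 : (minpoly F (toLin' z.1)).natDegree = m := le_antisymm
    ((natDegree_le_of_dvd z6 (Unitary.monic_dual b3.c0).ne_zero).trans
      ((Unitary.natDegree_dual_le B).trans b2.le)) (b2.ge.trans ((natDegree_le_of_dvd
    ((aeval_of_blocks hA).1 (w2 _ (toLin'.map_eq_zero_iff.1 (by rw [← aeval_toLin', minpoly.aeval]))))
    (Unitary.monic_dual (Unitary.coeff_zero_ne_of_dvd z6 (b3.dual b1).c0)).ne_zero).trans
      (Unitary.natDegree_dual_le _)))
  have z5 := blocks_of_minpoly (z4.trans (by simp))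
  obtain ⟨A, hA', a2⟩ := exists_comp (minpoly.monic i1) z4
  obtain ⟨x, rfl⟩ := gl_of_blocks hA' (by simpa using z5.isUnit_iff.1 (isUnit_toLin'_gl z))
  have c1 : IsConj z x := gl_isConj_iff_sim.2 (z5.sim hA')
  have x1 := aeval_conj c1 z3
  have y1 := (aeval_of_blocks hA).2 dvd_rfl
  let i : Fin m := ⟨m - 1, by omega⟩
  refine FT.conj (l := x * w⁻¹) ⟨x, w, rfl, hP.gx (b3.dual b1) (Unitary.monic_dual b3.c0) x1,
    hP.gx b3 b1 y1, .inr ⟨z, w, c1.symm, .refl _, z1⟩, _, _, b3.cop.symm, x1, y1⟩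
    (isConj_of_vec h (a := (x.1 - w.1).col i) (b := Pi.single i 1 ᵥ* (w⁻¹).1) ?_ h1 (fun e => ?_) h3)
  · rw [← vecMulVec_mul, ← w.mul_inv, ← add_mul, Units.val_mul]
    congr 1
    ext j k
    by_cases hk : k = i
    · simp [hk, vecMulVec_apply]
    · have : k.1 + 1 ≠ m := fun e => hk (Fin.ext (by simp [i, ← e]))
      simp [hk, vecMulVec_apply, a1 j k this, a2 j k this]
  · obtain rfl := mul_inv_eq_one.1 e
    have := natDegree_eq_zero_of_isUnit (b3.cop.isUnit_of_dvd' dvd_rfl ((aeval_of_blocks hA).1 x1))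
    omega

end Cfsg.Lib.OreC
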