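import Cfsg.Agent.Lib.OreC.OL

/-! Good factorisations in `SL₁` and `SL₃` over fields of odd order. -/

namespace Cfsg.Lib.OreC

open Module Polynomial Cfsg.Lib.Orth Matrix Cfsg.Lib.GLC
open Cfsg.Lib.Symp (rdual aeval_rdual)

variable {F : Type*} [Field F] {n : Type} [Fintype n] [DecidableEq n]

/-- good factorisation with prescribed square class of the determinant -/
def FD (P : F[X]) (ε : ℤˣ) (l : GL n F) : Prop := ∃ x y : GL n F, x * y⁻¹ = l ∧ Gx P x.1 ∧
  Gx P y.1 ∧ Cj x y ∧ sqsign x.1.det = ε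

theorem Gx.conj {P : F[X]} {x y : GL n F} (h : Gx P x.1) (e : IsConj x y) : Gx P y.1 := by
  obtain ⟨M, c1, c2, c3, h⟩ := h
  refine ⟨M, c1, c2, c3, toLin'.injective ?_⟩
  rw [← aeval_toLin', map_zero, ← ((gl_isConj_iff_sim.1 e).aeval M).eq_zero_iff, aeval_toLin', h,
    map_zero]

theorem FD.conj {P : F[X]} {ε : ℤˣ} {l l' : GL n F} (h : FD P ε l) (e : IsConj l l') :
    FD P ε l' := by
  obtain ⟨g, rfl⟩ := isConj_iff.1 e
  obtain ⟨x, y, rfl, h1, h2, h3, h4⟩ := h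
  have k : ∀ x, IsConj x (g * x * g⁻¹) := fun x => isConj_iff.2 ⟨g, rfl⟩
  refine ⟨g * x * g⁻¹, g * y * g⁻¹, by group, h1.conj (k x), h2.conj (k y), ?_,
    by rwa [Units.val_mul, Units.val_mul, det_units_conj]⟩
  exact h3.imp (fun h => (k x).symm.trans (h.trans (k y))) fun ⟨z, w, a, b, c⟩ =>
    ⟨z, w, (k x).symm.trans a, b.trans (k y), c⟩

theorem aeval_transpose (A : Matrix n n F) (P : F[X]) : aeval Aᵀ P = (aeval A P)ᵀ := by
  induction P using Polynomial.induction_on' with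
  | add P Q hP hQ => simp [hP, hQ]
  | monomial k a => simp [aeval_monomial, ← Algebra.smul_def]

theorem exists_tinv (y : GL n F) : ∃ z : GL n F, z.1ᵀ * y.1 = 1 ∧
    ∀ M : F[X], aeval y.1 M = 0 → aeval z.1 (rdual M) = 0 := by
  refine ⟨⟨(y⁻¹).1ᵀ, y.1ᵀ, by rw [← transpose_mul]; simp, by rw [← transpose_mul]; simp⟩, by simp,
    fun M hM => ?_⟩
  have := aeval_rdual y M
  rw [hM, smul_zero, ← Units.val_pow_eq_pow_val, Units.mul_left_eq_zero] at this
  rw [aeval_transpose, this, transpose_zero]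

theorem coprime_X_sub_C {a : F} {P : F[X]} (h : P.eval a ≠ 0) : IsCoprime (X - C a) P :=
  (irreducible_X_sub_C a).coprime_iff_not_dvd.2 fun h1 => h (dvd_iff_isRoot.1 h1)

theorem coprime_sq {P : F[X]} (h : P.eval 1 ≠ 0) (h' : P.eval (-1) ≠ 0) :
    IsCoprime P (X ^ 2 - 1) := by
  rw [show (X ^ 2 - 1 : F[X]) = (X - C 1) * (X - C (-1)) by simp; ring]
  exact (coprime_X_sub_C h).symm.mul_right (coprime_X_sub_C h').symm

theorem gx_pow {c : F} (h0 : c ≠ 0) (h : c ^ 2 ≠ 1) {A : Matrix n n F} {k : ℕ}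
    (hA : (A - c • 1) ^ k = 0) : Gx (X ^ 2 - 1) A := by
  refine ⟨(X - C c) ^ k, ?_, (coprime_X_sub_C (by simpa [sub_eq_zero] using h)).pow_left, ?_,
    by simpa [Algebra.algebraMap_eq_smul_one]⟩ <;>
  rw [map_pow, Unitary.dual_X_sub_C h0]
  · exact (coprime_X_sub_C (by
      simpa [sub_eq_zero] using fun e => h (by rw [pow_two]; nth_rw 2 [e]; simp [h0]))).pow
  · exact (coprime_X_sub_C (by simpa [sub_eq_zero] using h)).pow_left

theorem fd_one [Fintype F] (h2 : (2 : F) ≠ 0) (h : 7 ≤ Fintype.card F) (ε : ℤˣ) {l : GL (Fin 1) F}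
    (hl : l.1.det = 1) : FD (X ^ 2 - 1) ε l := by
  obtain ⟨c, h0, h1, rfl⟩ : ∃ c : F, c ≠ 0 ∧ c ^ 2 ≠ 1 ∧ sqsign c = ε := by
    obtain ⟨x, hx⟩ : ∃ x : Fˣ, x ^ 4 ≠ 1 := by
      by_contra! h4
      have := Nat.le_of_dvd (by norm_num) ((FiniteField.forall_pow_eq_one_iff F 4).1 h4)
      omega
    have h4 : ((x : F) ^ 2) ^ 2 ≠ 1 := fun e => hx (Units.ext (by simpa [← pow_mul] using e))
    rcases Int.units_eq_one_or ε with rfl | rfl
    · exact ⟨x ^ 2, by simp, h4, sqsign_sq _⟩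
    obtain ⟨a, ha⟩ := exists_not_isSquare h2
    by_cases h5 : a ^ 2 = 1
    · exact ⟨x ^ 2 * a, by simp [ne_zero_of_not_isSquare ha], by rwa [mul_pow, h5, mul_one],
        by rw [sqsign_sq_mul x.ne_zero, sqsign_of_not_isSquare ha]⟩
    · exact ⟨a, ne_zero_of_not_isSquare ha, h5, sqsign_of_not_isSquare ha⟩
  let x : GL (Fin 1) F := .mkOfDetNeZero (c • 1) (by simpa)
  have hx : Gx (X ^ 2 - 1) x.1 := gx_pow h0 h1 (k := 1) (by simp [x])
  exact ⟨x, x, Units.ext (by ext i j; simpa [Subsingleton.elim i 0, Subsingleton.elim j 0]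
    using hl.symm), hx, hx, .inl (.refl x), by simp [x]⟩

/-- the cubic equation -/
def Cub {R : Type*} [CommRing R] (a b d : R) (y : Matrix (Fin 3) (Fin 3) R) : Prop :=
  y * y * y = a • (y * y) + b • y + d • 1

/-- explicit determinant -/
def det3 {R : Type*} [CommRing R] (A : Matrix (Fin 3) (Fin 3) R) : R :=
  A 0 0 * A 1 1 * A 2 2 - A 0 0 * A 1 2 * A 2 1 - A 0 1 * A 1 0 * A 2 2 + A 0 1 * A 1 2 * A 2 0 +
    A 0 2 * A 1 0 * A 2 1 - A 0 2 * A 1 1 * A 2 0

/-- a witness -/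
def Wt {R : Type*} [CommRing R] (a b d d' : R) (M y : Matrix (Fin 3) (Fin 3) R) : Prop :=
  Cub a b d y ∧ det3 y = d ∧ (Cub a b d (M * y) ∨ Cub (-b * d') (-a * d') d' (M * y))

/-- admissible cubic -/
def Adm {R : Type*} [CommRing R] (a b d d' : R) : Prop := d * d' = 1 ∧
  (∀ r, r ^ 3 ≠ a * r ^ 2 + b * r + d) ∧ (∀ r, r ^ 3 ≠ -b * d' * r ^ 2 + -a * d' * r + d') ∧
  -b * d' ≠ a

instance instDecWt {R : Type*} [CommRing R] [DecidableEq R] (a b d d' : R)
    (M y : Matrix (Fin 3) (Fin 3) R) : Decidable (Wt a b d d' M y) := by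
  unfold Wt Cub; infer_instance

instance instDecAdm {R : Type*} [CommRing R] [DecidableEq R] [Fintype R] (a b d d' : R) :
    Decidable (Adm a b d d') := by
  unfold Adm; infer_instance

theorem Cub.map {R : Type*} [CommRing R] (φ : R →+* F) {a b d : R} {y : Matrix (Fin 3) (Fin 3) R}
    (h : Cub a b d y) : Cub (φ a) (φ b) (φ d) (y.map φ) := by
  simpa [Cub, Matrix.map_add, Matrix.map_smul'] using congrArg φ.mapMatrix h

theorem Wt.map {R : Type*} [CommRing R] (φ : R →+* F) {a b d d' : R}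
    {M y : Matrix (Fin 3) (Fin 3) R} (h : Wt a b d d' M y) :
    Wt (φ a) (φ b) (φ d) (φ d') (M.map φ) (y.map φ) :=
  ⟨h.1.map φ, by simp [← h.2.1, det3], h.2.2.imp (fun h => by simpa using h.map φ)
    fun h => by simpa using h.map φ⟩

theorem Adm.map {R : Type*} [CommRing R] (φ : R ≃+* F) {a b d d' : R} (h : Adm a b d d') :
    Adm (φ a) (φ b) (φ d) (φ d') := by
  refine ⟨by rw [← map_mul, h.1, map_one], fun r e => h.2.1 (φ.symm r) (φ.injective ?_),
    fun r e => h.2.2.1 (φ.symm r) (φ.injective ?_), fun e => h.2.2.2 (φ.injective ?_)⟩ <;>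
  simpa using e

/-- the cubic polynomial -/
noncomputable def cub (a b d : F) : F[X] := X ^ 3 - C a * X ^ 2 - C b * X - C d

theorem cub_deg (a b d : F) : (cub a b d).natDegree = 3 := by unfold cub; compute_degree!

theorem cub_monic (a b d : F) : (cub a b d).Monic := by unfold cub; monicity!

theorem Cub.aeval {a b d : F} {y : Matrix (Fin 3) (Fin 3) F} (h : Cub a b d y) :
    aeval y (cub a b d) = 0 := by
  simp only [cub, map_sub, map_mul, aeval_C, aeval_X, pow_succ, pow_zero,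
    one_mul, Algebra.algebraMap_eq_smul_one, smul_mul_assoc]
  rw [h]; abel

theorem cub_irr {a b d : F} (h : ∀ r, r ^ 3 ≠ a * r ^ 2 + b * r + d) :
    Irreducible (cub a b d) ∧ IsCoprime (cub a b d) (X ^ 2 - 1) := by
  have k : ∀ r, (cub a b d).eval r ≠ 0 := fun r e => h r (by
    simp only [cub, eval_sub, eval_mul, eval_pow, eval_C, eval_X] at e; linear_combination e)
  exact ⟨irreducible_of_degree_le_three_of_not_isRoot (by simp [cub_deg]) k, coprime_sq (k _) (k _)⟩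

theorem rdual_cub {a b d d' : F} (h : d * d' = 1) :
    rdual (cub a b d) = cub (-b * d') (-a * d') d' := by
  have h1 := congrArg C h
  rw [C_mul, C_1] at h1
  refine rdual_eq 3 (cub_deg _ _ _) ?_
  rw [show (cub a b d).coeff 0 = -d by simp [cub], inv_neg, inv_eq_of_mul_eq_one_right h]
  simp [cub, revAt_le, reflect_X']
  linear_combination X ^ 3 * h1

theorem fd_of_wt {a b d d' : F} (h : Adm a b d d') {l : GL (Fin 3) F} (hl : l.1.det = 1)
    {y : Matrix (Fin 3) (Fin 3) F} (hy : Wt a b d d' l.1 y) : FD (X ^ 2 - 1) (sqsign d) l := by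
  obtain ⟨h0, h1, h2, h3⟩ := h
  obtain ⟨y1, y2, y3⟩ := hy
  replace y2 : y.det = d := (det_fin_three y).trans y2
  obtain ⟨i1, c1⟩ := cub_irr h1
  obtain ⟨i2, c2⟩ := cub_irr h2
  have e1 := rdual_cub (a := a) (b := b) h0
  have e2 := rdual_cub (a := -b * d') (b := -a * d') (mul_comm d d' ▸ h0)
  rw [show -(-a * d') * d = a by linear_combination a * h0,
    show -(-b * d') * d = b by linear_combination b * h0] at e2
  have c3 := isCoprime_of_ne (cub_monic _ _ _) i1 (cub_monic _ _ _) i2 fun e => h3 (by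
    have := congrArg (coeff · 2) e
    simp only [cub, coeff_sub, coeff_C_mul, coeff_X_pow, coeff_X, coeff_C] at this
    simpa [neg_eq_iff_eq_neg] using this.symm)
  have g1 : ∀ {y}, Cub a b d y → Gx (X ^ 2 - 1) y := fun h => ⟨_, e1 ▸ c3, c1, e1 ▸ c2, h.aeval⟩
  have s : ∀ {P : F[X]} {x y : GL (Fin 3) F}, P.Monic → Irreducible P → aeval x.1 P = 0 →
      aeval y.1 P = 0 → IsConj x y := fun h1 h2 h3 h4 => gl_isConj_iff_sim.2
    (sim_of_irreducible h1 h2 (by rw [aeval_toLin', h3, map_zero])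
      (by rw [aeval_toLin', h4, map_zero]) rfl)
  obtain ⟨Y, rfl⟩ : ∃ Y : GL (Fin 3) F, Y.1 = y :=
    ⟨.mkOfDetNeZero y (y2 ▸ left_ne_zero_of_mul_eq_one h0), rfl⟩
  refine ⟨l * Y, Y, by simp, y3.elim g1 fun h => ⟨_, ?_, c2, ?_, h.aeval⟩, g1 y1,
    y3.imp (fun h => s (cub_monic _ _ _) i1 h.aeval y1.aeval) fun h => ?_, by simp [hl, y2]⟩
  · rw [e2]; exact c3.symm
  · rw [e2]; exact c1
  obtain ⟨z, z1, z2⟩ := exists_tinv Y
  exact ⟨z, Y, s (cub_monic _ _ _) i2 h.aeval (e1 ▸ z2 _ y1.aeval), .refl _, z1⟩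

theorem normal_three {A : Matrix (Fin 3) (Fin 3) F} (hA : A.det = 1) : (∃ c : F, A = c • 1) ∨
    (∃ a b, IsConj A !![0, 0, 1; 1, 0, b; 0, 1, a]) ∨
    ∃ t d e, d * e = 1 ∧ IsConj A !![0, -d, 0; 1, t, 0; 0, 0, e] := by
  refine or_iff_not_imp_left.2 fun h => ?_
  obtain ⟨P, ν, h1, h2, h3⟩ := Ore.exists_blocks_two (blocks_typ (toLin' A))
    (fun Q hQ => (typ_pp _ Q hQ).natDegree_pos) fun c e => h ⟨c, toLin'_eq_smul_one_iff.1 e⟩
  have hP := h2.monic P (by simp)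
  have := hP.finite_adjoinRoot
  obtain ⟨k, R, h4⟩ := exists_blocks_model (μ := ν) fun Q hQ => h2.monic Q (by simp [hQ])
  have := h4.finite
  have h5 := h2.sim ((blocks_cyc hP).prodMap h4)
  have h6 := h5.finrank_eq
  have h7 := h5.det_eq
  rw [finrank_fin_fun, finrank_prod, finrank_adjoinRoot] at h6
  rw [LinearMap.det_toLin', hA, LinearMap.det_prodMap] at h7
  simp only [isConj_iff_sim]
  rcases h3.eq_or_lt with h8 | h8
  · obtain ⟨t, ht⟩ := (Ore.cyc_one P).sim_two (by rw [finrank_adjoinRoot, h8])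
    have h9 : finrank F (∀ i, AdjoinRoot (R i)) = 1 := by omega
    obtain ⟨c, hc⟩ := (LinearMap.existsUnique_eq_smul_id_of_finrank_eq_one h9
      (LinearMap.piMap fun i => cyc (R i))).exists
    rw [hc] at h5 h7
    exact .inr ⟨t, _, c, by simpa [h9] using h7.symm, h5.trans ((ht.prodMap
      (Ore.sim_smul_one (by simpa) c)).trans (Ore.sim_two_one _ _ _ _ _))⟩
  · have : Subsingleton (∀ i, AdjoinRoot (R i)) := finrank_zero_iff.1 (show finrank F _ = 0 by omega)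
    obtain ⟨a, b, ht⟩ := (Ore.cyc_one P).sim_three (by rw [finrank_adjoinRoot]; omega)
    rw [show LinearMap.det (cyc P) = 1 by simpa [LinearMap.det_eq_one_of_subsingleton] using h7.symm]
      at ht
    exact .inl ⟨a, b, h5.trans (sim_prodMap_subsingleton.trans ht)⟩

theorem fd_of_tab {R : Type*} [CommRing R] (φ : R ≃+* F) {ε : ℤˣ}
    (h0 : ∀ c : R, c ^ 3 = 1 → c = 1) (h1 : FD (F := F) (X ^ 2 - 1) ε (1 : GL (Fin 3) F))
    (h2 : ∀ (M : Matrix (Fin 3) (Fin 3) R) (l : GL (Fin 3) F), l.1.det = 1 → l.1 = M.map φ →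
      ((∃ a b, M = !![0, 0, 1; 1, 0, b; 0, 1, a]) ∨
        ∃ t d e, d * e = 1 ∧ M = !![0, -d, 0; 1, t, 0; 0, 0, e]) → FD (X ^ 2 - 1) ε l)
    {l : GL (Fin 3) F} (hl : l.1.det = 1) : FD (X ^ 2 - 1) ε l := by
  have k : ∀ M : Matrix (Fin 3) (Fin 3) R, IsConj l.1 (M.map φ) → _ → FD (X ^ 2 - 1) ε l :=
    fun M h h' => by
      have h3 : (M.map φ).det = 1 := by
        rw [← hl, ← LinearMap.det_toLin', ← (isConj_iff_sim.1 h).det_eq, LinearMap.det_toLin']
      exact (h2 M (.mkOfDetNeZero _ (h3 ▸ one_ne_zero)) h3 rfl h').conj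
        (isConj_units_iff.2 h.symm)
  rcases normal_three hl with ⟨c, h⟩ | ⟨a, b, h⟩ | ⟨t, d, e, h, h'⟩
  · obtain ⟨c, rfl⟩ := φ.surjective c
    rw [h0 c (φ.injective (by simpa [h] using hl))] at h
    rwa [show l = 1 from Units.ext (by simpa using h)]
  · refine k _ ?_ (.inl ⟨φ.symm a, φ.symm b, rfl⟩)
    convert h using 1
    ext i j; fin_cases i <;> fin_cases j <;> simp
  · refine k _ ?_ (.inr ⟨φ.symm t, φ.symm d, φ.symm e, by rw [← map_mul, h, map_one], rfl⟩)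
    convert h' using 1
    ext i j; fin_cases i <;> fin_cases j <;> simp

/-- decoding of a matrix -/
def dec3 (p k : ℕ) : Matrix (Fin 3) (Fin 3) (ZMod p) :=
  Matrix.of fun i j => ((k / p ^ (3 * i.1 + j.1) : ℕ) : ZMod p)

/-- a complete table of witnesses, with possible exceptions -/
def Tb (p : ℕ) [NeZero p] (a b d d' : ZMod p) (T T' : List ℕ) (ex : Bool) : Prop :=
  Adm a b d d' ∧ Wt a b d d' 1 (dec3 p (T.getD 0 0)) ∧
  (∀ x y : ZMod p, Wt a b d d' !![0, 0, 1; 1, 0, y; 0, 1, x] (dec3 p (T.getD (p * x.val + y.val) 0))) ∧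
  ∀ t x e : ZMod p, x * e = 1 → (ex ∧ t = 2 ∧ x = 1 ∧ e = 1) ∨
    Wt a b d d' !![0, -x, 0; 1, t, 0; 0, 0, e] (dec3 p (T'.getD (p * t.val + x.val) 0))

instance instDecTb (p : ℕ) [NeZero p] (a b d d' : ZMod p) (T T' : List ℕ) (ex : Bool) :
    Decidable (Tb p a b d d' T T' ex) := by
  unfold Tb; infer_instance

theorem Tb.fd {p : ℕ} [NeZero p] (φ : ZMod p ≃+* F) {a b d d' : ZMod p} {T T' : List ℕ} {ex : Bool}
    (h : Tb p a b d d' T T' ex) (h0 : ∀ c : ZMod p, c ^ 3 = 1 → c = 1)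
    (h1 : ex → ∀ l : GL (Fin 3) F, l.1 = (!![0, -1, 0; 1, 2, 0; 0, 0, 1] : Matrix _ _ (ZMod p)).map φ →
      FD (X ^ 2 - 1) (sqsign (φ d)) l) {l : GL (Fin 3) F} (hl : l.1.det = 1) :
    FD (X ^ 2 - 1) (sqsign (φ d)) l := by
  obtain ⟨h2, h3, h4, h5⟩ := h
  refine fd_of_tab φ h0 (fd_of_wt (h2.map φ) (by simp) (by simpa using h3.map φ.toRingHom))
    (fun M l e1 e2 => ?_) hl
  rintro (⟨x, y, rfl⟩ | ⟨t, x, e, h, rfl⟩)
  · exact fd_of_wt (h2.map φ) e1 (e2 ▸ (h4 x y).map φ.toRingHom)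
  · rcases h5 t x e h with ⟨h6, rfl, rfl, rfl⟩ | h6
    exacts [h1 h6 l e2, fd_of_wt (h2.map φ) e1 (e2 ▸ h6.map φ.toRingHom)]

theorem tb31 : Tb 3 0 1 1 1 [16277, 16277, 15788, 18268, 14943, 15788, 14943, 18268, 3779]
    [0, 8004, 14943, 0, 16277, 16277, 0, 16277, 7627] false := by decide +kernel

theorem tb32 : Tb 3 0 1 2 2 [16161, 16383, 8647, 8647, 5518, 4452, 8016, 12132, 16383]
    [0, 16339, 16339, 0, 5379, 970, 0, 5518, 16161] false := by decide +kernel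

theorem tb51 : Tb 5 0 3 1 1 [413448, 254289, 426123, 1798958, 1874013, 1879814, 290536, 1879814,
    962593, 360818, 163978, 360818, 1410471, 1332945, 479058, 1911528, 1409897, 316155, 681948,
    1617419, 316155, 1369441, 1223630, 1874013, 479058] [0, 360818, 479058, 426123, 1634242, 0,
    1911528, 846439, 878578, 316155, 0, 658995, 479058, 745746, 1018329, 0, 316155, 878578, 479058,
    1911528, 0, 344654, 1634242, 962593, 360818] false := by decide +kernel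

theorem tb52 : Tb 5 0 1 2 3 [1015014, 899954, 201927, 1822885, 1324898, 260359, 234201, 929202,
    1589913, 853014, 1592314, 758496, 535083, 616209, 1166767, 1725830, 180651, 679957, 708346,
    631644, 1077804, 345872, 1911868, 685178, 1044927] [0, 180651, 180651, 1033345, 685178, 0,
    260359, 535083, 1131952, 631644, 0, 0, 679957, 535083, 1725830, 0, 1751799, 631644, 345872,
    1751799, 0, 1901230, 1033345, 1725830, 1382306] true := by decide +kernel

theorem sqsign_two {p : ℕ} (φ : ZMod p ≃+* F) (h : ∀ r : ZMod p, 2 ≠ r * r) :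
    sqsign (φ 2) = -1 :=
  sqsign_of_not_isSquare fun ⟨r, hr⟩ => h (φ.symm r) (φ.injective (by simpa using hr))

theorem fd_three [Fintype F] (h : Fintype.card F = 3 ∨ Fintype.card F = 5) (ε : ℤˣ)
    {l : GL (Fin 3) F} (hl : l.1.det = 1) : FD (X ^ 2 - 1) ε l := by
  rcases h with h | h
  · let φ := ZMod.ringEquivOfPrime F Nat.prime_three h
    rcases Int.units_eq_one_or ε with rfl | rfl
    · simpa using tb31.fd φ (by decide) nofun hl
    · exact sqsign_two φ (by decide) ▸ tb32.fd φ (by decide) nofun hl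
  let φ := ZMod.ringEquivOfPrime F Nat.prime_five h
  rcases Int.units_eq_one_or ε with rfl | rfl
  · simpa using tb51.fd φ (by decide) nofun hl
  refine sqsign_two φ (by decide) ▸ tb52.fd φ (by decide) (fun _ l hl => ?_) hl
  have k : ∀ {A : Matrix (Fin 3) (Fin 3) (ZMod 5)} {c : ZMod 5}, det3 A = c → (A.map φ).det = φ c :=
    fun h => by simp [← h, det_fin_three, det3]
  have h3 : φ 3 ≠ 0 := φ.map_ne_zero_iff.2 (by decide)
  let y : GL (Fin 3) F := .mkOfDetNeZero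
    ((!![0, 3, 0; 2, 4, 0; 0, 0, 2] : Matrix _ _ (ZMod 5)).map φ) (by rwa [k (c := 3) (by decide)])
  let g : GL (Fin 3) F := .mkOfDetNeZero
    ((!![0, 1, 0; 2, 1, 0; 0, 0, 1] : Matrix _ _ (ZMod 5)).map φ) (by rwa [k (c := 3) (by decide)])
  have e : IsConj y (l * y) := isConj_iff.2 ⟨g, mul_inv_eq_iff_eq_mul.2 (Units.ext (by
    simp only [Units.val_mul, hl, y, g, GeneralLinearGroup.val_mkOfDetNeZero, ← Matrix.map_mul]
    congr 1; decide))⟩
  have hy : Gx (X ^ 2 - 1) y.1 := gx_pow (c := φ 2) (φ.map_ne_zero_iff.2 (by decide))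
    (fun e => absurd (φ.injective (by simpa using e) : (2 : ZMod 5) ^ 2 = 1) (by decide)) (k := 2) (by
      have := congrArg φ.toRingHom.mapMatrix (by decide :
        ((!![0, 3, 0; 2, 4, 0; 0, 0, 2] : Matrix _ _ (ZMod 5)) - (2 : ZMod 5) • 1) ^ 2 = 0)
      rw [map_pow, map_sub, map_zero] at this
      simpa [y, Matrix.map_smul'] using this)
  refine ⟨l * y, y, by simp, hy.conj e, hy, .inl e.symm, ?_⟩
  rw [Units.val_mul, det_mul, hl, k (c := 1) (by decide), map_one, one_mul]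
  change sqsign (Matrix.det (Matrix.map _ φ)) = _
  rw [k (c := 2 ^ 2 * 2) (by decide), map_mul, map_pow,
    sqsign_sq_mul (φ.map_ne_zero_iff.2 (by decide))]

end Cfsg.Lib.OreC
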