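import Cfsg.Agent.Lib.OreC.OH

/-! Orthogonal gradings for skew nilpotent operators (towards Wonenburger's theorem). -/

namespace Cfsg.Lib.OreC

open Module Polynomial QuadraticMap Cfsg.Lib.Orth

universe u

variable {F V : Type*} [Field F] [AddCommGroup V] [Module F V] {Q : QuadraticForm F V}
  {N : End F V}

/-- skew-adjoint operator -/
def Sk (Q : QuadraticForm F V) (N : End F V) : Prop := ∀ x y, polar Q (N x) y = -polar Q x (N y)

/-- a balanced orthogonal grading of `X` reversed by `N` -/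
def Gr (Q : QuadraticForm F V) (N : End F V) (X : Submodule F V) : Prop :=
  ∃ A B : Submodule F V, A ⊔ B = X ∧ (∀ a ∈ A, ∀ b ∈ B, polar Q a b = 0) ∧ (∀ a ∈ A, N a ∈ B) ∧
    (∀ b ∈ B, N b ∈ A) ∧ finrank F B ≤ finrank F A ∧ finrank F A ≤ finrank F B + 1

theorem gr_of {A B : Submodule F V} (h1 : ∀ a ∈ A, ∀ b ∈ B, polar Q a b = 0)
    (h2 : ∀ a ∈ A, N a ∈ B) (h3 : ∀ b ∈ B, N b ∈ A) (h4 : finrank F B ≤ finrank F A + 1)
    (h5 : finrank F A ≤ finrank F B + 1) : Gr Q N (A ⊔ B) := by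
  rcases le_total (finrank F B) (finrank F A) with h | h
  · exact ⟨A, B, rfl, h1, h2, h3, h, h5⟩
  · exact ⟨B, A, sup_comm _ _, fun b hb a ha => polar_comm Q a b ▸ h1 a ha b hb, h3, h2, h, h4⟩

theorem Gr.sup [FiniteDimensional F V] {X Y : Submodule F V} (h : Gr Q N X) (h' : Gr Q N Y)
    (S : IsOSum Q X Y) : Gr Q N ⊤ := by
  obtain ⟨A, B, rfl, a1, a2, a3, a4, a5⟩ := h
  obtain ⟨C, D, rfl, b1, b2, b3, b4, b5⟩ := h'
  have e : ∀ {U W : Submodule F V}, U ≤ A ⊔ B → W ≤ C ⊔ D →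
      finrank F (U ⊔ W :) = finrank F U + finrank F W := fun {U W} h1 h2 => by
    rw [← Submodule.finrank_sup_add_finrank_inf_eq, (S.isCompl.disjoint.mono h1 h2).eq_bot,
      finrank_bot, add_zero]
  have := gr_of (Q := Q) (N := N) (A := A ⊔ D) (B := B ⊔ C) (fun u hu v hv => ?_)
    (fun u hu => ?_) (fun u hu => ?_) (by rw [e le_sup_left le_sup_right, e le_sup_right le_sup_left]; omega)
    (by rw [e le_sup_left le_sup_right, e le_sup_right le_sup_left]; omega)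
  · rwa [sup_sup_sup_comm, sup_comm D, S.isCompl.sup_eq_top] at this
  · obtain ⟨a, ha, d, hd, rfl⟩ := Submodule.mem_sup.1 hu
    obtain ⟨b, hb, c, hc, rfl⟩ := Submodule.mem_sup.1 hv
    simp [a1 a ha b hb, polar_comm Q d, b1 c hc d hd,
      S.orth a (Submodule.mem_sup_left ha) c (Submodule.mem_sup_left hc),
      S.orth b (Submodule.mem_sup_right hb) d (Submodule.mem_sup_right hd)]
  · obtain ⟨a, ha, d, hd, rfl⟩ := Submodule.mem_sup.1 hu
    exact map_add N a d ▸ Submodule.add_mem_sup (a2 a ha) (b3 d hd)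
  · obtain ⟨a, ha, d, hd, rfl⟩ := Submodule.mem_sup.1 hu
    exact map_add N a d ▸ Submodule.add_mem_sup (a3 a ha) (b2 d hd)

theorem Gr.map {X : Submodule F V} (hX : ∀ x ∈ X, N x ∈ X)
    (h : Gr (Q.restrict X) (N.restrict hX) ⊤) : Gr Q N X := by
  obtain ⟨A, B, a0, a1, a2, a3, a4, a5⟩ := h
  refine ⟨A.map X.subtype, B.map X.subtype, by
    rw [← Submodule.map_sup, a0, Submodule.map_subtype_top], ?_, ?_, ?_, ?_⟩
  · rintro _ ⟨a, ha, rfl⟩ _ ⟨b, hb, rfl⟩; exact a1 a ha b hb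
  · rintro _ ⟨a, ha, rfl⟩; exact ⟨_, a2 a ha, rfl⟩
  · rintro _ ⟨a, ha, rfl⟩; exact ⟨_, a3 a ha, rfl⟩
  · simpa [Submodule.finrank_map_subtype_eq] using And.intro a4 a5

/-- the span of the even powers -/
noncomputable def ev (N : End F V) (x : V) : Submodule F V :=
  LinearMap.range (LinearMap.applyₗ x ∘ₗ (aeval (N ^ 2)).toLinearMap)

theorem mem_ev {x v : V} : v ∈ ev N x ↔ ∃ p : F[X], aeval (N ^ 2) p x = v := Iff.rfl

theorem aeval_sq_comm (p : F[X]) (x : V) : aeval (N ^ 2) p (N x) = N (aeval (N ^ 2) p x) :=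
  (LinearMap.congr_fun (GLC.commute_aeval ((Commute.refl N).pow_right 2) p).eq x).symm

theorem aeval_sq_X (p : F[X]) (x : V) :
    aeval (N ^ 2) (p * X) x = N (aeval (N ^ 2) p (N x)) := by
  rw [← aeval_sq_comm, map_mul, aeval_X, End.mul_apply, pow_two]; rfl

theorem ev_le (x : V) : ev N x ≤ (F ∙ x) ⊔ (ev N (N x)).map N := by
  rintro _ ⟨p, rfl⟩
  change aeval (N ^ 2) p x ∈ _
  rw [← p.divX_mul_X_add, map_add, LinearMap.add_apply, aeval_sq_X, add_comm]
  exact Submodule.add_mem_sup (by simpa using Submodule.smul_mem _ _ (Submodule.mem_span_singleton_self x))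
    ⟨_, ⟨_, rfl⟩, rfl⟩

theorem finrank_ev_le [FiniteDimensional F V] (x y : V) :
    finrank F (ev N x ⊔ ev N (N y) :) ≤ finrank F (ev N (N x) ⊔ ev N y :) + 1 := by
  have h : ev N x ⊔ ev N (N y) ≤ (F ∙ x) ⊔ (ev N (N x) ⊔ ev N y).map N := by
    rw [Submodule.map_sup, ← sup_assoc]
    refine sup_le_sup (ev_le x) ?_
    rintro _ ⟨p, rfl⟩
    exact ⟨_, ⟨p, rfl⟩, (aeval_sq_comm p y).symm⟩
  have h1 := Submodule.finrank_mono h
  have h2 := Submodule.finrank_add_le_finrank_add_finrank (F ∙ x) ((ev N (N x) ⊔ ev N y).map N)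
  have h3 := Submodule.finrank_map_le N (ev N (N x) ⊔ ev N y)
  have h4 : finrank F (F ∙ x) ≤ 1 := by simpa using finrank_span_le_card (R := F) ({x} : Set V)
  omega

theorem X_pow_dvd {k : ℕ} {x : V} (h0 : (N ^ (k + 1)) x = 0) (hx : (N ^ k) x ≠ 0) {R : F[X]}
    (h : aeval N R x = 0) : ∀ i ≤ k + 1, X ^ i ∣ R := by
  intro i
  induction i with
  | zero => simp
  | succ i ih =>
    intro hi
    obtain ⟨R, rfl⟩ := ih (by omega)
    rw [pow_succ, mul_dvd_mul_iff_left (pow_ne_zero _ X_ne_zero), X_dvd_iff]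
    have := congrArg (N ^ (k - i)) h
    rw [← End.mul_apply, map_mul, map_pow, aeval_X, ← mul_assoc, ← pow_add,
      Nat.sub_add_cancel (by omega), ← R.divX_mul_X_add, map_add, map_mul, aeval_X, mul_add,
      ← mul_assoc, (GLC.commute_aeval ((Commute.refl N).pow_left k) _).eq, mul_assoc,
      ← pow_succ] at this
    simpa [h0, hx] using this

namespace Sk

variable (h : Sk Q N)
include h

theorem pow (i : ℕ) (a b : V) : polar Q ((N ^ i) a) b = (-1) ^ i * polar Q a ((N ^ i) b) := by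
  induction i generalizing a with
  | zero => simp
  | succ i ih => rw [pow_succ, End.mul_apply, ih, h, ← End.mul_apply, ← pow_succ', pow_succ]; ring

theorem ev_adj (p : F[X]) (a b : V) :
    polar Q (aeval (N ^ 2) p a) b = polar Q a (aeval (N ^ 2) p b) := by
  induction p using Polynomial.induction_on' with
  | add p r hp hr => simp [hp, hr]
  | monomial n c => simp [aeval_monomial, ← pow_mul, h.pow]

theorem odd_self (h2 : (2 : F) ≠ 0) (p : F[X]) (a : V) :
    polar Q (aeval (N ^ 2) p a) (N a) = 0 := by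
  have := h a (aeval (N ^ 2) p a)
  rw [← aeval_sq_comm, ← h.ev_adj p a, polar_comm] at this
  exact Symp.eq_zero_of_eq_neg h2 this

theorem gr_pair [FiniteDimensional F V] (h2 : (2 : F) ≠ 0) {x y : V}
    (hy : y ∈ perp Q (ev N x)) : Gr Q N (ev N x ⊔ ev N (N y) ⊔ (ev N (N x) ⊔ ev N y)) := by
  have e : ∀ (p r : F[X]) (a b : V), polar Q (aeval (N ^ 2) p a) (aeval (N ^ 2) r b) =
      polar Q (aeval (N ^ 2) (r * p) a) b := fun p r a b => by
    rw [← h.ev_adj, map_mul, End.mul_apply]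
  have k : ∀ x y : V, ∀ a ∈ ev N x ⊔ ev N (N y), N a ∈ ev N (N x) ⊔ ev N y := fun x y a ha => by
    obtain ⟨_, ⟨p, rfl⟩, _, ⟨r, rfl⟩, rfl⟩ := Submodule.mem_sup.1 ha
    exact map_add N _ _ ▸ Submodule.add_mem_sup ⟨p, aeval_sq_comm p x⟩ ⟨r * X, aeval_sq_X r y⟩
  refine gr_of (fun a ha b hb => ?_) (k x y) (fun a ha => ?_) ?_ (finrank_ev_le x y)
  · obtain ⟨_, ⟨p, rfl⟩, _, ⟨r, rfl⟩, rfl⟩ := Submodule.mem_sup.1 ha
    obtain ⟨_, ⟨p', rfl⟩, _, ⟨r', rfl⟩, rfl⟩ := Submodule.mem_sup.1 hb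
    change polar Q (aeval (N ^ 2) p x + aeval (N ^ 2) r (N y))
      (aeval (N ^ 2) p' (N x) + aeval (N ^ 2) r' y) = 0
    have e0 : ∀ p : F[X], polar Q (aeval (N ^ 2) p x) y = 0 := fun p => mem_perp.1 hy _ ⟨_, rfl⟩
    rw [polar_add_left, polar_add_right, polar_add_right, e, e,
      polar_comm Q _ (aeval (N ^ 2) p' (N x)), polar_comm Q _ (aeval (N ^ 2) r' y), e, e,
      h.odd_self h2, h.odd_self h2, e0, ← neg_eq_zero, add_zero, add_zero, zero_add, ← h,
      ← aeval_sq_X, e0]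
  · rw [sup_comm] at ha ⊢; exact k y x a ha
  · rw [sup_comm, sup_comm (ev N x)]; exact finrank_ev_le y x

theorem nd_pair {k : ℕ} (hk : N ^ (k + 1) = 0) {x y : V}
    (hd : ∀ c d : F, c * polar Q ((N ^ k) x) x + d * polar Q ((N ^ k) y) x = 0 →
      c * polar Q ((N ^ k) x) y + d * polar Q ((N ^ k) y) y = 0 → c • x = 0 ∧ d • y = 0) :
    ND (Q.restrict (ev N x ⊔ ev N (N y) ⊔ (ev N (N x) ⊔ ev N y))) := by
  rw [sup_sup_sup_comm, sup_comm (ev N (N y))]
  have m1 : ∀ x : V, ∀ v ∈ ev N x ⊔ ev N (N x), ∃ p : F[X], v = aeval N p x := fun x v hv => by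
    obtain ⟨_, ⟨p, rfl⟩, _, ⟨r, rfl⟩, rfl⟩ := Submodule.mem_sup.1 hv
    exact ⟨expand F 2 p + expand F 2 r * X, by simp [expand_aeval]⟩
  have m2 : ∀ (x : V) (i : ℕ), (N ^ i) x ∈ ev N x ⊔ ev N (N x) := fun x i => by
    obtain ⟨j, rfl | rfl⟩ := Nat.even_or_odd' i
    · exact Submodule.mem_sup_left ⟨X ^ j, by simp [pow_mul]⟩
    · exact Submodule.mem_sup_right ⟨X ^ j, by simp [pow_mul, pow_succ]⟩
  refine nd_restrict_iff.2 fun v hv h0 => ?_
  obtain ⟨a, ha, b, hb, rfl⟩ := Submodule.mem_sup.1 hv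
  have key : ∀ i ≤ k + 1, ∃ p r : F[X], a = (N ^ i) (aeval N p x) ∧ b = (N ^ i) (aeval N r y) := by
    intro i
    induction i with
    | zero => exact fun _ => ⟨_, _, (m1 x a ha).choose_spec, (m1 y b hb).choose_spec⟩
    | succ i ih =>
      intro hi
      obtain ⟨p, r, e1, e2⟩ := ih (by omega)
      have e3 : ∀ (p : F[X]) (x : V), aeval N p x = N (aeval N p.divX x) + p.coeff 0 • x :=
        fun p x => by
          conv_lhs => rw [← p.X_mul_divX_add, map_add, map_mul, aeval_X, aeval_C]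
          simp
      have e4 : ∀ j (z : V), (N ^ j) (N z) = (N ^ (j + 1)) z := fun j z => by rw [pow_succ]; rfl
      have h3 : ∀ u, (N ^ (k - i)) u ∈ ev N x ⊔ ev N (N x) ⊔ (ev N y ⊔ ev N (N y)) →
          p.coeff 0 * polar Q ((N ^ k) x) u + r.coeff 0 * polar Q ((N ^ k) y) u = 0 := fun u hu => by
        have := h0 _ hu
        rw [polar_comm, h.pow, mul_eq_zero, e1, e2, ← map_add, ← End.mul_apply, ← pow_add,
          Nat.sub_add_cancel (by omega), e3 p, e3 r, polar_comm] at this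
        simpa [e4, hk] using this
      obtain ⟨h4, h5⟩ := hd _ _ (h3 x (Submodule.mem_sup_left (m2 x _)))
        (h3 y (Submodule.mem_sup_right (m2 y _)))
      exact ⟨p.divX, r.divX, by rw [e1, e3 p, h4, add_zero, e4], by rw [e2, e3 r, h5, add_zero, e4]⟩
  obtain ⟨p, r, e1, e2⟩ := key _ le_rfl
  simp [e1, e2, hk]

theorem exists_blk [FiniteDimensional F V] [Nontrivial V] (hQ : ND Q) (h2 : (2 : F) ≠ 0)
    (hn : IsNilpotent N) : ∃ X : Submodule F V, X ≠ ⊥ ∧ ND (Q.restrict X) ∧ Gr Q N X := by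
  classical
  obtain ⟨k, hk⟩ := Nat.exists_eq_add_one_of_ne_zero (n := Nat.find hn) fun h => by
    simpa [h] using Nat.find_spec hn
  have h1 : N ^ (k + 1) = 0 := hk ▸ Nat.find_spec hn
  have h3 : N ^ k ≠ 0 := Nat.find_min hn (by omega)
  have b0 : ∀ {x y : V}, x ≠ 0 → ev N x ⊔ ev N (N y) ⊔ (ev N (N x) ⊔ ev N y) ≠ ⊥ := fun hx h0 =>
    hx ((Submodule.eq_bot_iff _).1 h0 _ (Submodule.mem_sup_left (Submodule.mem_sup_left ⟨1, by simp⟩)))
  rcases Nat.even_or_odd k with hk | hk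
  · obtain ⟨x, hx⟩ : ∃ x, polar Q ((N ^ k) x) x ≠ 0 := by
      by_contra! h4
      refine h3 (LinearMap.ext fun x => hQ.eq_zero fun y => Symp.eq_zero_of_eq_neg h2 ?_)
      have := h4 (x + y)
      rw [map_add, polar_add_left, polar_add_right, polar_add_right, h4, h4, h.pow k y,
        hk.neg_one_pow, polar_comm Q y] at this
      linear_combination this
    exact ⟨_, b0 (x := x) fun h0 => hx (by simp [h0]),
      h.nd_pair (y := 0) h1 fun c d h5 _ => by simp_all, h.gr_pair h2 (zero_mem _)⟩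
  obtain ⟨x, hx⟩ : ∃ x, (N ^ k) x ≠ 0 := by
    by_contra! h4
    exact h3 (LinearMap.ext h4)
  obtain ⟨y, hy, h4⟩ := exists_perp_polar_eq hQ (W := ev N x) (u := (N ^ k) x) (by
    rintro ⟨p, hp⟩
    have := X_pow_dvd_iff.1 (X_pow_dvd (by simp [h1]) hx (R := X ^ k - expand F 2 p)
      (by simpa [expand_aeval, sub_eq_zero] using hp.symm) _ le_rfl) k (by omega)
    simp [coeff_expand, hk.not_two_dvd_nat] at this) 1
  have h5 : ∀ a, polar Q ((N ^ k) a) a = 0 := fun a => Symp.eq_zero_of_eq_neg h2 (by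
    simpa [hk.neg_one_pow, polar_comm Q a] using h.pow k a a)
  refine ⟨_, b0 (x := x) fun h0 => hx (by simp [h0]), h.nd_pair h1 fun c d h6 h7 => ?_, h.gr_pair h2 hy⟩
  rw [h5, h.pow k y, polar_comm Q y, h4] at h6
  rw [h5, h4] at h7
  simp_all

end Sk

theorem gr_aux (h2 : (2 : F) ≠ 0) (n : ℕ) : ∀ (V : Type u) [AddCommGroup V] [Module F V]
    [FiniteDimensional F V] (Q : QuadraticForm F V) (N : End F V), ND Q → Sk Q N →
    IsNilpotent N → finrank F V = n → Gr Q N ⊤ := by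
  induction n using Nat.strong_induction_on with
  | _ n ih =>
  intro V _ _ _ Q N hQ h hn e
  subst e
  rcases subsingleton_or_nontrivial V with hV | hV
  · exact ⟨⊤, ⊤, by simp, fun a _ b _ => by simp [Subsingleton.elim a 0], by simp, by simp, by simp⟩
  obtain ⟨X, h0, h1, h3⟩ := h.exists_blk hQ h2 hn
  have S := isOSum_perp h1
  have hX : ∀ y ∈ perp Q X, N y ∈ perp Q X := fun y hy => mem_perp.2 fun x hx => by
    obtain ⟨A, B, rfl, -, a2, a3, -⟩ := h3
    obtain ⟨a, ha, b, hb, rfl⟩ := Submodule.mem_sup.1 hx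
    rw [← neg_eq_zero, ← h, map_add, add_comm]
    exact mem_perp.1 hy _ (Submodule.add_mem_sup (a3 b hb) (a2 a ha))
  refine h3.sup (.map hX (ih _ ?_ _ _ _ (S.nd_right hQ) (fun x y => h x y) (End.isNilpotent.restrict hX hn) rfl)) S
  have := S.finrank_add
  have := Submodule.finrank_eq_zero.not.2 h0
  omega

theorem Sk.gr [FiniteDimensional F V] (h : Sk Q N) (hQ : ND Q) (h2 : (2 : F) ≠ 0)
    (hn : IsNilpotent N) : Gr Q N ⊤ := gr_aux h2 _ V Q N hQ h hn rfl

end Cfsg.Lib.OreC
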